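import Mathlib
import Cfsg.Prelude.Def_Blocks
import Cfsg.Agent.Lib.SymChar.Char

/-! Definitions for project SPN (heights in blocks of covers of alternating groups).
See `plans/SPN.md`. -/

set_option autoImplicit false

namespace CfsgLib.Spn

open Equiv Finset Cfsg CfsgLib.SymChar

/-! ### Blocks -/

/-- The defect of a character. -/
noncomputable def df {G : Type*} [Group G] (p : ℕ) (χ : G → ℂ) : ℕ :=
  (Nat.card G).factorization p - (charDegree χ).factorization p

/-- The conclusion of the theorem. -/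
def Goal {G : Type*} [Group G] (p : ℕ) (B : Set (IrrCharacter G)) (D : Subgroup G) (χ : G → ℂ) :
    Prop :=
  blockHeight p B χ ≤ ((Subgroup.center D).index).factorization p ∧
    (blockHeight p B χ = ((Subgroup.center D).index).factorization p ↔ IsMulCommutative D)

/-- The theorem holds for all blocks of `G`. -/
def All (p : ℕ) (M : Ideal AlgInt) (G : Type*) [Group G] : Prop :=
  ∀ B : Set (IrrCharacter G), IsPBlock M B → ∀ D : Subgroup G, IsDefectGroup p M B D →
    ∀ χ ∈ B, Goal p B D (χ : G → ℂ)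

/-! ### Neutral fermions -/

/-- `F l = ⟨w| φ_{l 1} ⋯ φ_{l k} |0⟩` for neutral fermions `φ`. -/
structure Cov (F : List ℤ → ℂ) : Prop where
  anti : ∀ (u : List ℤ) (a b : ℤ) (v : List ℤ), F (u ++ a :: b :: v) + F (u ++ b :: a :: v) =
    if a + b = 0 then 2 * (-1) ^ a * F (u ++ v) else 0
  neg : ∀ (u : List ℤ) (a : ℤ), a < 0 → F (u ++ [a]) = 0
  zero : ∀ u : List ℤ, F (u ++ [0]) = F u

/-- The vacuum expectation value. -/
structure Vac (δ : List ℤ → ℂ) : Prop where
  cov : Cov δ
  pos : ∀ (a : ℤ) (v : List ℤ), 0 < a → δ (a :: v) = 0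
  zero : ∀ v : List ℤ, δ (0 :: v) = δ v
  nil : δ [] = 1
  int : ∀ l : List ℤ, ∃ c : ℤ, δ l = 2 ^ (l.countP fun a => decide (0 < a)) * c

/-- `T k F l` is the sum of the values of `F` at the lists `l` with one entry lowered by `k`. -/
def T (k : ℤ) : (List ℤ → ℂ) → List ℤ → ℂ
  | _, [] => 0
  | F, a :: l => F ((a - k) :: l) + T k (fun l' => F (a :: l')) l

@[simp] theorem T_nil (k : ℤ) (F : List ℤ → ℂ) : T k F [] = 0 := rfl

theorem T_cons (k : ℤ) (F : List ℤ → ℂ) (a : ℤ) (l : List ℤ) :
    T k F (a :: l) = F ((a - k) :: l) + T k (fun l' => F (a :: l')) l := rfl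

theorem T_add (k : ℤ) (F F' : List ℤ → ℂ) (l : List ℤ) :
    T k (fun l' => F l' + F' l') l = T k F l + T k F' l := by
  induction l generalizing F F' with
  | nil => simp
  | cons a l ih => rw [T_cons, T_cons, T_cons, ih]; ring

theorem T_mul (k : ℤ) (c : ℂ) (F : List ℤ → ℂ) (l : List ℤ) :
    T k (fun l' => c * F l') l = c * T k F l := by
  induction l generalizing F with
  | nil => simp
  | cons a l ih => rw [T_cons, T_cons, ih]; ring

theorem T_neg (k : ℤ) (F : List ℤ → ℂ) (l : List ℤ) : T k (fun l' => -F l') l = -T k F l := by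
  simpa using T_mul k (-1) F l

theorem T_sub (k : ℤ) (F F' : List ℤ → ℂ) (l : List ℤ) :
    T k (fun l' => F l' - F' l') l = T k F l - T k F' l := by
  simp only [sub_eq_add_neg, T_add, T_neg]

@[simp] theorem T_zero (k : ℤ) (l : List ℤ) : T k (fun _ => 0) l = 0 := by
  simpa using T_mul k 0 (fun _ => 0) l

theorem T_sum {ι : Type*} (k : ℤ) (s : Finset ι) (F : ι → List ℤ → ℂ) (l : List ℤ) :
    T k (fun l' => ∑ i ∈ s, F i l') l = ∑ i ∈ s, T k (F i) l := by
  induction l generalizing F with
  | nil => simp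
  | cons a l ih => simp only [T_cons, ih, sum_add_distrib]

/-- only lists of the same length and with the right sum matter -/
theorem T_congr {k : ℤ} {F F' : List ℤ → ℂ} {l : List ℤ}
    (h : ∀ l' : List ℤ, l'.length = l.length → l'.sum = l.sum - k → F l' = F' l') :
    T k F l = T k F' l := by
  induction l generalizing F F' with
  | nil => rfl
  | cons a l ih =>
    rw [T_cons, T_cons, h ((a - k) :: l) rfl (by simp only [List.sum_cons]; ring),
      ih fun l' h1 h2 => h (a :: l') (by simp [h1]) (by simp only [List.sum_cons, h2]; ring)]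

theorem T_eq_zero {k : ℤ} {F : List ℤ → ℂ} {l : List ℤ}
    (h : ∀ l' : List ℤ, l'.length = l.length → l'.sum = l.sum - k → F l' = 0) : T k F l = 0 :=
  (T_congr h).trans (T_zero k l)

theorem T_append (k : ℤ) (F : List ℤ → ℂ) (u v : List ℤ) :
    T k F (u ++ v) = T k (fun u' => F (u' ++ v)) u + T k (fun v' => F (u ++ v')) v := by
  induction u generalizing F with
  | nil => simp
  | cons a u ih => simp only [List.cons_append, T_cons, ih]; ring

theorem T_comm (j k : ℤ) (F : List ℤ → ℂ) : T j (T k F) = T k (T j F) := by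
  funext l
  induction l generalizing F with
  | nil => rfl
  | cons a l ih =>
    simp only [T_cons, T_add]
    rw [ih, sub_right_comm]
    ring

/-- two `T`s acting on different lists commute -/
theorem T_swap (j k : ℤ) (F : List ℤ → List ℤ → ℂ) (u v : List ℤ) :
    T j (fun u' => T k (fun v' => F u' v') v) u = T k (fun v' => T j (fun u' => F u' v') u) v := by
  induction u generalizing F with
  | nil => simp
  | cons a u ih => simp only [T_cons, T_add, ih]

theorem exists_of_T {k : ℤ} {F : List ℤ → ℂ} {l : List ℤ} (h : T k F l ≠ 0) :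
    ∃ u a v, l = u ++ a :: v ∧ F (u ++ (a - k) :: v) ≠ 0 := by
  induction l generalizing F with
  | nil => exact absurd rfl h
  | cons a l ih =>
    by_cases h1 : F ((a - k) :: l) = 0
    · rw [T_cons, h1, zero_add] at h
      obtain ⟨u, b, v, rfl, h2⟩ := ih h
      exact ⟨a :: u, b, v, rfl, h2⟩
    · exact ⟨[], a, l, rfl, h1⟩

theorem T_ofFn {N : ℕ} (k : ℤ) (F : List ℤ → ℂ) (α : Fin N → ℤ) :
    T k F (List.ofFn α) = ∑ c, F (List.ofFn (α - ee c k)) := by
  induction N generalizing F with
  | zero => simp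
  | succ N ih =>
    rw [List.ofFn_succ, T_cons, ih, Fin.sum_univ_succ]
    congr 1
    · rw [List.ofFn_succ]
      simp [ee_apply, Fin.succ_ne_zero]
    · refine sum_congr rfl fun c _ => ?_
      rw [List.ofFn_succ]
      simp only [Pi.sub_apply, ee_apply, (Fin.succ_ne_zero c).symm, if_false, sub_zero,
        Fin.succ_inj]
      rfl

instance T_leftComm : LeftCommutative (fun (k : ℕ) (F : List ℤ → ℂ) => T k F) :=
  ⟨fun j k F => T_comm j k F⟩

/-- Morris' recursion: the Green functions at `t = -1`. -/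
def X (δ : List ℤ → ℂ) (μ : Multiset ℕ) : List ℤ → ℂ :=
  μ.foldr (fun (k : ℕ) (F : List ℤ → ℂ) => T k F) δ

@[simp] theorem X_zero (δ : List ℤ → ℂ) : X δ 0 = δ := rfl

theorem X_cons (δ : List ℤ → ℂ) (k : ℕ) (μ : Multiset ℕ) : X δ (k ::ₘ μ) = T k (X δ μ) :=
  Multiset.foldr_cons _ _ _ _

/-- Strict partitions. -/
def Str (l : List ℤ) : Prop := l.Pairwise (· > ·) ∧ ∀ a ∈ l, 0 < a

/-- One straightening move. -/
inductive Step : List ℤ → List ℤ → Prop
  | swap (u : List ℤ) (a b : ℤ) (v : List ℤ) : Step (u ++ a :: b :: v) (u ++ b :: a :: v)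
  | pair (u : List ℤ) (a : ℤ) (v : List ℤ) : Step (u ++ a :: (-a) :: v) (u ++ v)
  | zero (u : List ℤ) : Step (u ++ [0]) u

/-- Straightening. -/
abbrev Eqv : List ℤ → List ℤ → Prop := Relation.ReflTransGen Step

/-- `l.sum + Cq p l` is `p` times the bar weight. -/
def Cq (p : ℕ) : List ℤ → ℤ
  | [] => 0
  | a :: l => Cq p l - a % p - p * (l.map fun b =>
      (if (p : ℤ) ∣ a - b then (1 : ℤ) else 0) - if (p : ℤ) ∣ a + b then 1 else 0).sum

/-- The adjoint word. -/
def adj (l : List ℤ) : List ℤ := (l.map fun a => -a).reverse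

/-- The sum of the absolute values. -/
def nrm (l : List ℤ) : ℤ := (l.map fun a => |a|).sum

/-- The odd numbers up to `M`. -/
def odds (M : ℕ) : Finset ℕ := (Icc 1 M).filter Odd

/-- `2 ^ length` if all parts are odd, zero otherwise. -/
noncomputable def ww (μ : Multiset ℕ) : ℂ := (μ.map fun k => if Odd k then (2 : ℂ) else 0).prod

/-- The defect of the identity `m φ_m = 2 ∑ (H_{-j} φ_{m-j} + φ_{m+j} H_j)`. -/
noncomputable def RR (δ : List ℤ → ℂ) (M : ℕ) (u : List ℤ) (m : ℤ) (v : List ℤ) : ℂ :=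
  2 * ∑ j ∈ odds M, (T j (fun v' => δ (u ++ (m + j) :: v')) v -
    T (-j) (fun u' => δ (u' ++ (m - j) :: v)) u) - m * δ (u ++ m :: v)

/-! ### The double cover of the symmetric group -/

/-- The space of spinors. -/
abbrev Sv (Ω : Type*) [Fintype Ω] : Type := Fin (2 ^ Fintype.card Ω) → ℂ

/-- A double cover of the symmetric group with its Clifford representation. -/
structure Sp (G : Type*) [Group G] (Ω : Type*) [Fintype Ω] [DecidableEq Ω] where
  /-- the covering map -/
  π : G →* Perm Ω
  /-- the central involution -/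
  z : G
  /-- the lifts of the transpositions -/
  u : Ω → Ω → G
  /-- the gamma matrices -/
  Γ : Ω ⊕ Fin (Fintype.card Ω + 1) → Module.End ℂ (Sv Ω)
  /-- the representation -/
  ρ : Representation ℂ G (Sv Ω)
  surj : Function.Surjective π
  ker : ∀ g, π g = 1 ↔ g = 1 ∨ g = z
  π_u : ∀ i j, π (u i j) = swap i j
  ρ_z : ρ z = -1
  ρ_u : ∀ i j, i ≠ j → ρ (u i j) = ((Real.sqrt 2 : ℝ) : ℂ)⁻¹ • (Γ (.inl i) - Γ (.inl j))
  Γ_sq : ∀ a, Γ a * Γ a = 1
  Γ_anti : ∀ a b, a ≠ b → Γ a * Γ b = -(Γ b * Γ a)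

namespace Sp

variable {G : Type*} [Group G] {Ω : Type*} [Fintype Ω] [DecidableEq Ω] (S : Sp G Ω)

/-- The double cover of the alternating group. -/
def ev : Subgroup G := (alternatingGroup Ω).comap S.π

instance ev_normal : S.ev.Normal := Subgroup.Normal.comap inferInstance _

theorem mem_ev {g : G} : g ∈ S.ev ↔ Perm.sign (S.π g) = 1 := Iff.rfl

/-- The covering map onto the alternating group. -/
def πe : S.ev →* alternatingGroup Ω := (S.π.comp S.ev.subtype).codRestrict _ fun g => g.2

@[simp] theorem coe_πe (g : S.ev) : (S.πe g : Perm Ω) = S.π g := rfl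

/-- The normalised trace. -/
noncomputable def τ (g : G) : ℂ := S.ρ.character g / 2 ^ Fintype.card Ω

/-- The spin characters up to a power of two. -/
noncomputable def Y (δ : List ℤ → ℂ) (l : List ℤ) (g : G) : ℂ := S.τ g * X δ (ty (S.π g)) l

end Sp

end CfsgLib.Spn
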