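import Mathlib
import Cfsg.Agent.Lib.Spn.Defs
import Cfsg.Agent.Lib.SymChar.Syl

/-! Package AB: abelian `p`-groups of permutations; central elements of full support.  See `plans/SPN.md`. -/

set_option autoImplicit false
set_option linter.unusedSectionVars false

namespace CfsgLib.Spn

open Equiv Finset Cfsg CfsgLib.SymChar CfsgLib.Char CfsgLib.Fusion
open scoped Nat ComplexConjugate

variable {Ω : Type*} [Fintype Ω] [DecidableEq Ω] {p : ℕ} {M : Ideal AlgInt}

theorem ab_bound (hp : p.Prime) {A : Subgroup (Perm Ω)} (hA : IsPGroup p A)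
    (hc : IsMulCommutative A) {T : Finset Ω} (hT : A ≤ SymOn (T : Set Ω)) :
    p * (Nat.card A).factorization p ≤ #T := by
  have := Fact.mk hp
  induction T using Finset.strongInduction generalizing A with
  | H T ih =>
  rcases T.eq_empty_or_nonempty with rfl | ⟨ω, hω⟩
  · obtain rfl : A = ⊥ := eq_bot_iff.2 fun g hg => Perm.ext fun v => hT hg v (by simp)
    simp
  obtain ⟨k, hk⟩ := hA.index (MulAction.stabilizer A ω)
  set O := (Set.toFinite (MulAction.orbit A ω)).toFinset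
  have mO : ∀ {v}, v ∈ O ↔ ∃ g : A, g.1 ω = v := by
    intro v; rw [Set.Finite.mem_toFinset]; rfl
  have cO : #O = p ^ k := by rw [← hk, MulAction.index_stabilizer, Set.ncard_eq_toFinset_card]
  have le : O ⊆ T := fun v hv => by
    obtain ⟨g, rfl⟩ := mO.1 hv
    by_contra h
    exact h (by rwa [g.1.injective (hT g.2 _ h)])
  have hB : (MulAction.stabilizer A ω).map A.subtype ≤ A := Subgroup.map_subtype_le _
  have h1 := ih (T \ O) (sdiff_ssubset le ⟨ω, mO.2 ⟨1, rfl⟩⟩) (hA.to_le hB)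
    (Subgroup.le_centralizer_iff_isMulCommutative.1 fun a ha b hb =>
      congrArg Subtype.val (hc.is_comm.comm ⟨b, hB hb⟩ ⟨a, hB ha⟩)) (by
      rintro _ ⟨b, hb, rfl⟩ v hv
      by_cases h : v ∈ O
      · obtain ⟨g, rfl⟩ := mO.1 h
        exact (DFunLike.congr_fun (congrArg Subtype.val (hc.is_comm.comm b g)) ω).trans
          (congrArg g.1 hb)
      · exact hT b.2 v fun k => hv (mem_coe.2 (mem_sdiff.2 ⟨k, h⟩)))
  rw [Subgroup.card_map_of_injective A.subtype_injective, card_sdiff_of_subset le, cO] at h1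
  rw [← (MulAction.stabilizer A ω).index_mul_card, hk,
    Nat.factorization_mul (pow_ne_zero _ hp.ne_zero) Nat.card_pos.ne', hp.factorization_pow]
  have h2 := Nat.mul_le_pow hp.ne_one k
  have h3 := cO ▸ card_le_card le
  simp only [Finsupp.coe_add, Pi.add_apply, Finsupp.single_eq_same, mul_add]
  omega

theorem exists_central_full (hp : p.Prime) {y : Perm Ω} {D : Subgroup (Perm Ω)}
    (hD : SylIn p D (Subgroup.centralizer {y})) :
    ∃ x ∈ D, (∀ d ∈ D, d * x = x * d) ∧ ∀ ω, x ω = ω → ∀ d ∈ D, d ω = ω := by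
  classical
  have := Fact.mk hp
  have hy : ∀ d ∈ D, d * y = y * d := fun d hd =>
    Subgroup.mem_centralizer_singleton_iff.1 (hD.le hd)
  have hle : D ≤ D ⊔ Subgroup.zpowers y := le_sup_left
  have hK : loc hle = D := hD.eq_of_le (isPGroup_loc hle hD.isPGroup) (le_loc hle) fun g hg =>
    Subgroup.mem_centralizer_singleton_iff.2 (Perm.ext fun ω => by
      obtain ⟨d, hd, h⟩ := hg ω
      rw [Perm.mul_apply, Perm.mul_apply, h ω (self_mem_orb _ ω),
        h _ ⟨y, Subgroup.mem_sup_right (Subgroup.mem_zpowers y), rfl⟩, ← Perm.mul_apply, hy d hd,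
        Perm.mul_apply])
  have hZ : ∀ z ∈ D ⊓ Subgroup.centralizer (D : Set (Perm Ω)), ∀ ω, z ω = ω →
      ∀ x ∈ orb (D ⊔ Subgroup.zpowers y) ω, z x = x := by
    rintro z hz ω h _ ⟨g, hg, rfl⟩
    have : D ⊔ Subgroup.zpowers y ≤ Subgroup.centralizer {z} :=
      sup_le (fun d hd => Subgroup.mem_centralizer_singleton_iff.2 (hz.2 d hd))
        ((Subgroup.zpowers_le).2 (Subgroup.mem_centralizer_singleton_iff.2 (hy z hz.1).symm))
    rw [← Perm.mul_apply, ← Subgroup.mem_centralizer_singleton_iff.1 (this hg), Perm.mul_apply, h]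
  obtain ⟨x, hx, hmax⟩ := exists_max_image {z | z ∈ D ⊓ Subgroup.centralizer (D : Set (Perm Ω))}
    (fun z => #z.support) ⟨1, mem_filter.2 ⟨mem_univ _, Subgroup.one_mem _⟩⟩
  have hx := (mem_filter.1 hx).2
  refine ⟨x, hx.1, hx.2, fun ω hω d hd => by_contra fun hdω => ?_⟩
  set O := orb (D ⊔ Subgroup.zpowers y) ω
  have hn : ((SymOn O).subgroupOf D).Normal := ⟨fun a ha g v hv => by
    have : (a : Perm Ω) ((g : Perm Ω)⁻¹ v) = (g : Perm Ω)⁻¹ v :=
      ha _ (mt (apply_mem_orb (hle (D.inv_mem g.2)) ω v).1 hv)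
    change (g : Perm Ω) ((a : Perm Ω) ((g : Perm Ω)⁻¹ v)) = v
    rw [this]; simp⟩
  have := hD.isPGroup.isNilpotent
  obtain ⟨z, hz, hz1, hz2⟩ := PGroup.exists_mem_center_of_normal ((SymOn O).subgroupOf D) (by
    refine (Subgroup.ne_bot_iff_exists_ne_one).2 ⟨⟨⟨_, hK ▸ cut_mem_loc hle hd ω⟩,
      fun v hv => cut_of_notMem _ hv⟩, fun h => hdω ?_⟩
    rw [← cut_of_mem (apply_mem_orb (hle hd) ω) (self_mem_orb _ ω)]
    exact DFunLike.congr_fun (congrArg (fun t => t.1.1) h) ω)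
  have hz3 : z.1 ∈ D ⊓ Subgroup.centralizer (D : Set (Perm Ω)) :=
    ⟨z.2, fun g hg => congrArg Subtype.val (Subgroup.mem_center_iff.1 hz1 ⟨g, hg⟩)⟩
  have hz4 : z.1 ω ≠ ω := fun h => hz2 (Subtype.ext (Perm.ext fun v => by
    by_cases hv : v ∈ O
    exacts [hZ _ hz3 ω h v hv, hz v hv]))
  refine (hmax (x * z.1) (mem_filter.2 ⟨mem_univ _, Subgroup.mul_mem _ hx hz3⟩)).not_gt
    (card_lt_card ⟨fun v hv => ?_, fun h => ?_⟩)
  · rw [Perm.mem_support] at hv ⊢
    rwa [Perm.mul_apply, show z.1 v = v from hz v fun h => hv (hZ x hx ω hω v h)]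
  · refine Perm.mem_support.1 (h (Perm.mem_support.2 ?_)) hω
    rwa [Perm.mul_apply, hZ x hx ω hω _ ⟨_, hle z.2, rfl⟩]

end CfsgLib.Spn
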