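import Mathlib
import Cfsg.Agent.Lib.Spn.Defs
import Cfsg.Agent.Lib.Blk.BF
import Cfsg.Agent.Lib.Star.Gdn
import Cfsg.Agent.Lib.BrPair.Bridge
import Cfsg.Agent.Lib.Block.Span

/-! Package RED: reductions.  See `plans/SPN.md`. -/

set_option autoImplicit false
set_option linter.unusedSectionVars false

namespace CfsgLib.Spn

open Equiv Finset Cfsg CfsgLib.SymChar CfsgLib.Char
open scoped Nat ComplexConjugate

variable {G : Type*} [Group G] [Finite G] {p : ℕ} {M : Ideal AlgInt} {B : Set (IrrCharacter G)}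
  {D : Subgroup G} {χ : IrrCharacter G}

theorem red_center {D : Type*} [Group D] [Finite D] {p d : ℕ} (hp : p.Prime)
    (hD : Nat.card D = p ^ d) :
    ∃ z i, z + i = d ∧ Nat.card (Subgroup.center D) = p ^ z ∧
      ((Subgroup.center D).index).factorization p = i ∧
      (IsMulCommutative D ↔ i = 0) ∧ i ≠ 1 ∧ (d ≠ 0 → z ≠ 0) := by
  have := Fact.mk hp
  have h := (Subgroup.center D).card_mul_index
  rw [hD] at h
  obtain ⟨z, -, hz⟩ := (Nat.dvd_prime_pow hp).1 (Dvd.intro _ h)
  obtain ⟨i, -, hi⟩ := (Nat.dvd_prime_pow hp).1 (Dvd.intro_left _ h)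
  have hc : IsMulCommutative D ↔ i = 0 := by
    rw [← Subgroup.center_eq_top_iff, ← Subgroup.index_eq_one, hi]
    simp [hp.ne_one]
  refine ⟨z, i, ?_, hz, ?_, hc, ?_, fun hd => ?_⟩
  · rw [hz, hi, ← pow_add] at h
    exact Nat.pow_right_injective hp.two_le h
  · rw [hi, hp.factorization_pow]
    simp
  · rintro rfl
    have : IsCyclic (D ⧸ Subgroup.center D) :=
      isCyclic_of_prime_card (p := p) (by rw [← Subgroup.index_eq_card, hi, pow_one])
    exact one_ne_zero (hc.1 (isMulCommutative_of_isCyclic_quotient_center_self D))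
  · rintro rfl
    have : Nontrivial D := by
      rw [← Finite.one_lt_card_iff_nontrivial, hD]
      exact Nat.one_lt_pow hd hp.one_lt
    have := (IsPGroup.of_card hD).center_nontrivial
    rw [← Finite.one_lt_card_iff_nontrivial, hz] at this
    simp at this

theorem red_goal (hn : ¬ IsMulCommutative D)
    (h : blockHeight p B (χ : G → ℂ) < ((Subgroup.center D).index).factorization p) :
    Goal p B D (χ : G → ℂ) :=
  ⟨h.le, iff_of_false h.ne hn⟩

theorem height_add_df (hχ : χ ∈ B) :
    blockHeight p B (χ : G → ℂ) + df p (χ : G → ℂ) = blockDefect p B := by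
  have h1 := Block.factorization_charDegree_add_blockDefect (p := p) hχ
  have h2 := Block.factorization_charDegree_le (p := p) χ.2
  unfold df
  omega

theorem goal_of_lt (hM : IsPModular p M) (hB : IsPBlock M B) (hD : IsDefectGroup p M B D)
    (hχ : χ ∈ B) (hn : ¬ IsMulCommutative D)
    (h : (Nat.card (Subgroup.center D)).factorization p < df p (χ : G → ℂ)) :
    Goal p B D (χ : G → ℂ) := by
  obtain ⟨z, i, h1, h2, h3, -⟩ := red_center hM.1 (Block.card_eq_pow_blockDefect hM hB hD)
  have h4 := height_add_df (p := p) hχ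
  rw [h2, hM.1.factorization_pow] at h
  simp only [Finsupp.single_eq_same] at h
  exact red_goal hn (by omega)

theorem goal_of_ab (hM : IsPModular p M) (hB : IsPBlock M B) (hD : IsDefectGroup p M B D)
    (hχ : χ ∈ B) (h : ∀ A : Subgroup G, A ≤ D → IsMulCommutative A →
      (Nat.card A).factorization p ≤ df p (χ : G → ℂ)) : Goal p B D (χ : G → ℂ) := by
  have hc := Block.card_eq_pow_blockDefect hM hB hD
  obtain ⟨z, i, h1, h2, h3, h4, -⟩ := red_center hM.1 hc
  have h5 := height_add_df (p := p) hχ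
  by_cases hn : IsMulCommutative D
  · have h6 := h D le_rfl hn
    rw [hc, hM.1.factorization_pow] at h6
    simp only [Finsupp.single_eq_same] at h6
    have h7 := h4.1 hn
    exact ⟨by omega, iff_of_true (by omega) hn⟩
  · refine goal_of_lt hM hB hD hχ hn ?_
    obtain ⟨x, hx⟩ : ∃ x : D, x ∉ Subgroup.center D := by
      by_contra hx
      push Not at hx
      exact hn (Subgroup.center_eq_top_iff.1 (eq_top_iff.2 fun x _ => hx x))
    set A : Subgroup D := Subgroup.centralizer (Subgroup.centralizer ({x} : Set D) : Set D) with hA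
    have hxC : x ∈ Subgroup.centralizer ({x} : Set D) :=
      Subgroup.mem_centralizer_singleton_iff.2 rfl
    have hxA : x ∈ A := fun y hy => Subgroup.mem_centralizer_singleton_iff.1 hy
    have hAc : IsMulCommutative A := ⟨⟨fun a b => Subtype.ext
      (b.2 a (Subgroup.mem_centralizer_singleton_iff.2 (a.2 x hxC).symm))⟩⟩
    have hZ : Subgroup.center D ≤ A := Subgroup.center_le_centralizer _
    have h6 := h (A.map D.subtype) (Subgroup.map_subtype_le A) inferInstance
    rw [Subgroup.card_map_of_injective D.subtype_injective] at h6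
    obtain ⟨a, -, ha⟩ := (Nat.dvd_prime_pow hM.1).1 (hc ▸ A.card_subgroup_dvd_card)
    have h7 : Nat.card (Subgroup.center D) < Nat.card A := by
      by_contra h7
      exact hx (Subgroup.eq_of_le_of_card_ge hZ (not_lt.1 h7) ▸ hxA)
    rw [h2, ha, Nat.pow_lt_pow_iff_right hM.1.one_lt] at h7
    rw [ha, hM.1.factorization_pow] at h6
    rw [h2, hM.1.factorization_pow]
    simp only [Finsupp.single_eq_same] at h6 ⊢
    omega

theorem goal_of_sq (hM : IsPModular p M) (hB : IsPBlock M B) (hD : IsDefectGroup p M B D)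
    (hχ : χ ∈ B) (h : Nat.card D ≤ p ^ 2) : Goal p B D (χ : G → ℂ) := by
  have hc := Block.card_eq_pow_blockDefect hM hB hD
  obtain ⟨z, i, h1, h2, h3, h4, h5, h6⟩ := red_center hM.1 hc
  rw [hc, Nat.pow_le_pow_iff_right hM.1.one_lt] at h
  have := Fintype.ofFinite G
  have h7 := Blk.height_eq_zero_of_defect_le hM hB h hχ
  have h8 : i = 0 := by omega
  exact ⟨by omega, iff_of_true (by omega) (h4.2 h8)⟩

theorem goal_of_center (hM : IsPModular p M) (hB : IsPBlock M B) (hD : IsDefectGroup p M B D)
    (hχ : χ ∈ B) (hn : ¬ IsMulCommutative D) (h : Nat.card (Subgroup.center D) ≤ p) :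
    Goal p B D (χ : G → ℂ) := by
  have hc := Block.card_eq_pow_blockDefect hM hB hD
  obtain ⟨z, i, h1, h2, h3, h4, h5, -⟩ := red_center hM.1 hc
  have h6 : z ≤ 1 := by
    rw [← Nat.pow_le_pow_iff_right hM.1.one_lt, ← h2, pow_one]
    exact h
  have h7 : i ≠ 0 := fun h0 => hn (h4.2 h0)
  have := Fintype.ofFinite G
  refine red_goal hn ?_
  by_cases h0 : blockHeight p B (χ : G → ℂ) = 0
  · omega
  · have := Blk.height_add_two_le hM hB hχ h0
    omega

theorem goal_of_cube (hM : IsPModular p M) (hB : IsPBlock M B) (hD : IsDefectGroup p M B D)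
    (hχ : χ ∈ B) (hn : ¬ IsMulCommutative D) (h : Nat.card D ≤ p ^ 3) :
    Goal p B D (χ : G → ℂ) := by
  have hc := Block.card_eq_pow_blockDefect hM hB hD
  obtain ⟨z, i, h1, h2, h3, h4, h5, -⟩ := red_center hM.1 hc
  rw [hc, Nat.pow_le_pow_iff_right hM.1.one_lt] at h
  have h7 : i ≠ 0 := fun h0 => hn (h4.2 h0)
  refine goal_of_center hM hB hD hχ hn ?_
  rw [h2]
  exact (Nat.pow_le_pow_right hM.1.pos (by omega : z ≤ 1)).trans_eq (pow_one p)

theorem red_centralizer {H : Type*} [Group H] (e : H ≃* G) (g : H) :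
    (Subgroup.centralizer ({g} : Set H)).map e.toMonoidHom =
      Subgroup.centralizer ({e g} : Set G) := by
  ext x
  obtain ⟨x, rfl⟩ := e.surjective x
  rw [show e x = e.toMonoidHom x from rfl, Subgroup.mem_map_iff_mem e.injective]
  simp only [Subgroup.mem_centralizer_singleton_iff, MulEquiv.toMonoidHom_eq_coe,
    MonoidHom.coe_coe, ← map_mul, e.injective.eq_iff]

theorem red_centralChar {H : Type*} [Group H] [Finite H] (e : H ≃* G) (ξ : IrrCharacter H)
    (g : H) : centralChar (BrPair.irrMap e ξ : G → ℂ) (e g) = centralChar (ξ : H → ℂ) g := by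
  unfold centralChar
  rw [BrPair.irrMap_apply, ← map_one e, BrPair.irrMap_apply, ← red_centralizer,
    Subgroup.index_map_of_bijective (f := e.toMonoidHom) e.bijective]

theorem red_isDefectGroup {H : Type*} [Group H] [Finite H] (e : H ≃* G)
    {b : Set (IrrCharacter H)} {E : Subgroup H} (hE : IsDefectGroup p M b E) :
    IsDefectGroup p M (BrPair.irrMap e '' b) (E.map e.toMonoidHom) := by
  obtain ⟨g, ⟨h1, h2, h3⟩, h4⟩ := Block.isDefectGroup_iff.1 hE
  refine Block.isDefectGroup_iff.2 ⟨e g, ⟨?_, ?_, ?_⟩, ?_⟩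
  · rwa [BrPair.blockCoeff_irrMap]
  · rwa [BrPair.blockCoeff_irrMap]
  · rintro _ ⟨ξ, hξ, rfl⟩
    rw [red_centralChar]
    exact h3 ξ hξ
  · have := h4.map_equiv e
    rwa [red_centralizer] at this

theorem red_index_center {A A' : Type*} [Group A] [Group A'] (e : A ≃* A') :
    (Subgroup.center A').index = (Subgroup.center A).index := by
  rw [← Subgroup.index_comap_of_surjective (f := e.toMonoidHom) _ e.surjective]
  congr 1
  ext x
  simp only [Subgroup.mem_comap, Subgroup.mem_center_iff, MulEquiv.toMonoidHom_eq_coe,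
    MonoidHom.coe_coe, e.surjective.forall, ← map_mul, e.injective.eq_iff]

theorem All.of_equiv {H : Type*} [Group H] [Finite H] (hM : IsPModular p M) (h : All p M G)
    (e : H ≃* G) : All p M H := by
  intro b hb E hE ξ hξ
  have h1 := h _ (BrPair.isPBlock_irrMap hM e hb) _ (red_isDefectGroup e hE) _ ⟨ξ, hξ, rfl⟩
  have e' : E ≃* E.map e.toMonoidHom := e.subgroupMap E
  unfold Goal at h1 ⊢
  rw [Star.blockHeight_irrMap, red_index_center e', ← Subgroup.center_eq_top_iff,
    ← Subgroup.index_eq_one, red_index_center e', Subgroup.index_eq_one,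
    Subgroup.center_eq_top_iff] at h1
  exact h1

end CfsgLib.Spn
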