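import Mathlib
import Cfsg.Agent.Lib.Spn.Red
import Cfsg.Agent.Lib.Spn.Ab
import Cfsg.Agent.Lib.SymChar.AltBlk
import Cfsg.Agent.Lib.Cover.Graded
import Cfsg.Agent.Lib.ChDeg.Cliff

/-! Package ALTO: alternating groups, odd primes.  See `plans/SPN.md`. -/

set_option autoImplicit false
set_option linter.unusedSectionVars false

namespace CfsgLib.Spn

open Equiv Finset Cfsg CfsgLib.SymChar CfsgLib.Char CfsgLib.Fusion
open scoped Nat ComplexConjugate

variable {Ω : Type*} [Fintype Ω] [DecidableEq Ω] {p : ℕ} {M : Ideal AlgInt}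

theorem alt_setup [Nontrivial Ω] (hM : IsPModular p M)
    {b : Set (IrrCharacter (alternatingGroup Ω))} (hb : IsPBlock M b)
    {D : Subgroup (alternatingGroup Ω)} (hD : IsDefectGroup p M b D)
    {θ : IrrCharacter (alternatingGroup Ω)} (hθ : θ ∈ b) :
    ∃ (P : Subgroup (Perm Ω)) (T : Finset Ω) (w : ℕ),
      D.map (alternatingGroup Ω).subtype = P ⊓ alternatingGroup Ω ∧
      SylIn p P (SymOn (T : Set Ω)) ∧ #T = p * w ∧
      w ≤ df p (θ : alternatingGroup Ω → ℂ) + (2 : ℕ).factorization p := by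
  have hp := hM.1
  have := Fact.mk hp
  obtain ⟨B, hB, hc⟩ := Cover.exists_covers _ hM hb
  obtain ⟨P, hP, hPD⟩ := Cover.exists_isDefectGroup_inf_eq _ hM hB hb hc
    (Subgroup.map_subtype_le D) (by rwa [Subgroup.subgroupOf,
      Subgroup.comap_map_eq_self_of_injective (Subgroup.subtype_injective _)])
  obtain ⟨χ, hχ, hχθ⟩ := Cover.exists_over_of_covers _ hM hB hb hc hθ
  obtain ⟨β, h⟩ := exists_lab (N := Fintype.card Ω + p) (by omega) χ
  obtain ⟨T, h1, h2, -⟩ := h.exists_sylIn hM le_rfl hB hP hχ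
  refine ⟨P, T, hk p β, hPD.symm, h2, h1, ?_⟩
  obtain ⟨e, he, h3⟩ := ChDeg.exists_deg_eq_mul _ χ.2 θ.2 hχθ
  rw [alternatingGroup.index_eq_two] at he
  have h4 := h.degree_mul_HH
  have h5 := hk_le_factorization hp β
  have h6 : (Fintype.card Ω)! = 2 * Nat.card (alternatingGroup Ω) := by
    rw [two_mul_nat_card_alternatingGroup, Nat.card_eq_fintype_card, Fintype.card_perm]
  have he0 : e ≠ 0 := ne_zero_of_dvd_ne_zero two_ne_zero he
  have hd0 := (ChDeg.deg_pos θ.2).ne'
  have h7 := congrArg (fun n : ℕ => n.factorization p) (h4.trans h6)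
  simp only [h3] at h7
  rw [Nat.factorization_mul (mul_ne_zero he0 hd0) (HH_ne_zero β), Nat.factorization_mul he0 hd0,
    Nat.factorization_mul two_ne_zero Nat.card_pos.ne', Finsupp.add_apply, Finsupp.add_apply,
    Finsupp.add_apply] at h7
  unfold df
  omega

theorem all_alt_odd [Nontrivial Ω] (hM : IsPModular p M) (h2 : p ≠ 2) :
    All p M (alternatingGroup Ω) := by
  intro B hB D hD χ hχ
  have hp := hM.1
  obtain ⟨P, T, w, h1, h3, h4, h5⟩ := alt_setup hM hB hD hχ
  have h6 : (2 : ℕ).factorization p = 0 := Nat.factorization_eq_zero_of_not_dvd fun h =>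
    h2 ((Nat.prime_dvd_prime_iff_eq hp Nat.prime_two).1 h)
  refine goal_of_ab hM hB hD hχ fun A hA hc => ?_
  have h7 : A.map (alternatingGroup Ω).subtype ≤ P :=
    (Subgroup.map_mono hA).trans (h1.le.trans inf_le_left)
  have h8 := ab_bound hp (h3.isPGroup.to_le h7) (inferInstance) (h7.trans h3.le)
  rw [Subgroup.card_map_of_injective (Subgroup.subtype_injective _), h4] at h8
  have := Nat.le_of_mul_le_mul_left h8 hp.pos
  omega

end CfsgLib.Spn
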