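import Mathlib
import Cfsg.Agent.Lib.Spn.Defs
import Cfsg.Agent.Lib.SymChar.Syl

/-! Package PAIR: Sylow 2-subgroups of symmetric groups.  See `plans/SPN.md`. -/

set_option autoImplicit false
set_option linter.unusedSectionVars false

namespace CfsgLib.Spn

open Equiv Finset Cfsg CfsgLib.SymChar CfsgLib.Char CfsgLib.Fusion
open scoped Nat ComplexConjugate

variable {Ω : Type*} [Fintype Ω] [DecidableEq Ω] {p : ℕ} {M : Ideal AlgInt}
  {P : Subgroup (Perm Ω)} {T : Finset Ω}

/-- The permutations of the pairs that induce the identity or `swap 0 1` on the set of pairs. -/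
private def VV (m : ℕ) : Subgroup (Perm (Fin (m + 2) × Fin 2)) where
  carrier := {σ | (∀ a, (σ a).1 = a.1) ∨ ∀ a, (σ a).1 = swap 0 1 a.1}
  one_mem' := Or.inl fun _ => rfl
  mul_mem' := by
    rintro σ τ (h | h) (k | k)
    · exact Or.inl fun a => by rw [Perm.mul_apply, h, k]
    · exact Or.inr fun a => by rw [Perm.mul_apply, h, k]
    · exact Or.inr fun a => by rw [Perm.mul_apply, h, k]
    · exact Or.inl fun a => by rw [Perm.mul_apply, h, k, swap_apply_self]
  inv_mem' := by
    rintro σ (h | h)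
    · exact Or.inl fun a => by rw [← h (σ⁻¹ a)]; simp
    · refine Or.inr fun a => ?_
      have := h (σ⁻¹ a)
      rw [show σ (σ⁻¹ a) = a by simp] at this
      rw [this, swap_apply_self]

private theorem sq_eq_one_of_fst {m : ℕ} {τ : Perm (Fin (m + 2) × Fin 2)}
    (h : ∀ a, (τ a).1 = a.1) : τ * τ = 1 := by
  refine Perm.ext fun a => ?_
  rw [Perm.mul_apply, Perm.one_apply]
  by_cases h1 : τ a = a
  · rw [h1, h1]
  · have h2 : τ (τ a) ≠ τ a := fun e => h1 (τ.injective e)
    have h3 : (τ a).2 ≠ a.2 := fun e => h1 (Prod.ext (h a) e)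
    have h4 : (τ (τ a)).2 ≠ (τ a).2 := fun e => h2 (Prod.ext (h _) e)
    refine Prod.ext ((h _).trans (h a)) ?_
    omega

private theorem isPGroup_VV (m : ℕ) : IsPGroup 2 (VV m) := by
  rintro ⟨σ, hσ⟩
  refine ⟨2, Subtype.ext ?_⟩
  have h : ∀ a, ((σ * σ) a).1 = a.1 := by
    rcases hσ with h | h
    · exact fun a => by rw [Perm.mul_apply, h, h]
    · exact fun a => by rw [Perm.mul_apply, h, h, swap_apply_self]
  change σ ^ (2 ^ 2) = 1
  rw [show σ ^ (2 ^ 2) = (σ * σ) * (σ * σ) by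
    rw [show 2 ^ 2 = 2 + 2 by rfl, pow_add, sq]]
  exact sq_eq_one_of_fst h

private theorem via_swap {α : Type*} [DecidableEq α] (f : α ↪ Ω) (a b : α) :
    Perm.viaEmbedding (swap a b) f = swap (f a) (f b) :=
  viaEmbedding_eq _ _ (fun c => f.injective.swap_apply a b c)
    fun _ hx => swap_apply_of_ne_of_ne (fun h => hx ⟨a, h.symm⟩) fun h => hx ⟨b, h.symm⟩

theorem exists_pairs (hP : SylIn 2 P (SymOn (T : Set Ω))) {m : ℕ} (hT : #T = 2 * (m + 2)) :
    ∃ f : Fin (m + 2) × Fin 2 ↪ Ω, (∀ ω, ω ∈ T ↔ ω ∈ Set.range f) ∧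
      (∀ i, swap (f (i, 0)) (f (i, 1)) ∈ P) ∧
      swap (f (0, 0)) (f (1, 0)) * swap (f (0, 1)) (f (1, 1)) ∈ P := by
  obtain ⟨f, hf⟩ := exists_emb hP (isPGroup_VV m) (VV m).subtype (by
    rw [hT]; simp [mul_comm])
  have h1 : ∀ i, swap (f (i, 0)) (f (i, 1)) ∈ P := fun i => by
    have := hf ⟨swap (i, 0) (i, 1), Or.inl fun a => by
      rw [swap_apply_def]
      split_ifs with h h'
      · rw [h]
      · rw [h']
      · rfl⟩
    rwa [Subgroup.coe_subtype, via_swap] at this
  have h2 : swap (f (0, 0)) (f (1, 0)) * swap (f (0, 1)) (f (1, 1)) ∈ P := by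
    have := hf ⟨swap (0, 0) (1, 0) * swap (0, 1) (1, 1), Or.inr fun ⟨i, j⟩ => by
      have h01 : (0 : Fin (m + 2)) ≠ 1 := Fin.zero_ne_one
      rw [Perm.mul_apply]
      by_cases hi0 : i = 0
      · subst hi0
        fin_cases j <;> simp [swap_apply_def]
      · by_cases hi1 : i = 1
        · subst hi1
          fin_cases j <;> simp [swap_apply_def]
        · simp [swap_apply_def, hi0, hi1]⟩
    rwa [Subgroup.coe_subtype, ← Perm.viaEmbeddingHom_apply, map_mul, Perm.viaEmbeddingHom_apply,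
      Perm.viaEmbeddingHom_apply, via_swap, via_swap] at this
  have h3 : univ.map f ⊆ T := by
    intro ω hω
    obtain ⟨⟨i, j⟩, -, rfl⟩ := mem_map.1 hω
    by_contra h
    have := hP.le (h1 i) _ h
    fin_cases j
    · simp at this
    · simp at this
  have h4 : univ.map f = T := eq_of_subset_of_card_le h3 (by rw [hT]; simp [mul_comm])
  refine ⟨f, fun ω => ?_, h1, h2⟩
  rw [← h4]
  simp

/-- an element of `SymOn T` commuting with all products of two of the transpositions fixes each pair -/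
theorem fixes_pairs {m : ℕ} (hm : 1 ≤ m) {f : Fin (m + 2) × Fin 2 ↪ Ω} {x : Perm Ω}
    (hx : ∀ i j, i ≠ j → Commute x (swap (f (i, 0)) (f (i, 1)) * swap (f (j, 0)) (f (j, 1))))
    (i : Fin (m + 2)) :
    (x (f (i, 0)) = f (i, 0) ∧ x (f (i, 1)) = f (i, 1)) ∨
      (x (f (i, 0)) = f (i, 1) ∧ x (f (i, 1)) = f (i, 0)) := by
  have key : ∀ j, i ≠ j → (x (f (i, 0)) = f (i, 0) ∨ x (f (i, 0)) = f (i, 1) ∨
      x (f (i, 0)) = f (j, 0) ∨ x (f (i, 0)) = f (j, 1)) ∧
      x (f (i, 1)) = (swap (f (i, 0)) (f (i, 1)) * swap (f (j, 0)) (f (j, 1))) (x (f (i, 0))) := by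
    intro j hj
    have h1 := DFunLike.congr_fun (hx i j hj).eq (f (i, 0))
    have h2 : (swap (f (i, 0)) (f (i, 1)) * swap (f (j, 0)) (f (j, 1))) (f (i, 0)) = f (i, 1) := by
      rw [Perm.mul_apply, swap_apply_of_ne_of_ne (x := f (i, 0)) (by simp [hj]) (by simp),
        swap_apply_left]
    rw [Perm.mul_apply, h2, Perm.mul_apply] at h1
    refine ⟨?_, h1⟩
    by_contra h
    push Not at h
    rw [Perm.mul_apply, swap_apply_of_ne_of_ne h.2.2.1 h.2.2.2, swap_apply_of_ne_of_ne h.1 h.2.1]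
      at h1
    simp at h1
  obtain ⟨j, k, hj, hk, hjk⟩ : ∃ j k : Fin (m + 2), i ≠ j ∧ i ≠ k ∧ j ≠ k := by
    by_cases h0 : i.val = 0
    · exact ⟨⟨1, by omega⟩, ⟨2, by omega⟩, Fin.ne_of_val_ne (by simp [h0]),
        Fin.ne_of_val_ne (by simp [h0]), Fin.ne_of_val_ne (by simp)⟩
    · by_cases h1 : i.val = 1
      · exact ⟨⟨0, by omega⟩, ⟨2, by omega⟩, Fin.ne_of_val_ne (by simp [h1]),
          Fin.ne_of_val_ne (by simp [h1]), Fin.ne_of_val_ne (by simp)⟩
      · exact ⟨⟨0, by omega⟩, ⟨1, by omega⟩, Fin.ne_of_val_ne (by simpa using h0),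
          Fin.ne_of_val_ne (by simpa using h1), Fin.ne_of_val_ne (by simp)⟩
  obtain ⟨h1, h2⟩ := key j hj
  obtain ⟨h3, -⟩ := key k hk
  have h4 : x (f (i, 0)) = f (i, 0) ∨ x (f (i, 0)) = f (i, 1) := by
    rcases h1 with h | h | h | h
    · exact Or.inl h
    · exact Or.inr h
    · rw [h] at h3
      simp [hjk, hj.symm] at h3
    · rw [h] at h3
      simp [hjk, hj.symm] at h3
  rcases h4 with h | h
  · refine Or.inl ⟨h, ?_⟩
    rw [h2, h, Perm.mul_apply, swap_apply_of_ne_of_ne (x := f (i, 0)) (by simp [hj]) (by simp),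
      swap_apply_left]
  · refine Or.inr ⟨h, ?_⟩
    rw [h2, h, Perm.mul_apply, swap_apply_of_ne_of_ne (x := f (i, 1)) (by simp) (by simp [hj]),
      swap_apply_right]

theorem zc_alt (hP : SylIn 2 P (SymOn (T : Set Ω))) {w : ℕ} (hT : #T = 2 * w) (hw : 3 ≤ w) :
    ¬ IsMulCommutative ↥(P ⊓ alternatingGroup Ω) ∧
      Nat.card (Subgroup.center ↥(P ⊓ alternatingGroup Ω)) ≤ 2 ^ (w - 2) := by
  obtain ⟨m, rfl⟩ : ∃ m, w = m + 2 := ⟨w - 2, by omega⟩
  have hm : 1 ≤ m := by omega
  obtain ⟨f, hf, h1, h2⟩ := exists_pairs hP hT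
  have hs : ∀ i, Perm.sign (swap (f (i, 0)) (f (i, 1))) = -1 := fun i =>
    Perm.sign_swap (by simp)
  have ht : ∀ i j, swap (f (i, 0)) (f (i, 1)) * swap (f (j, 0)) (f (j, 1)) ∈
      P ⊓ alternatingGroup Ω := fun i j =>
    ⟨P.mul_mem (h1 i) (h1 j), by
      change Perm.sign _ = 1
      rw [map_mul, hs, hs]; simp⟩
  have h01 : (0 : Fin (m + 2)) ≠ 1 := Fin.zero_ne_one
  have hg : swap (f (0, 0)) (f (1, 0)) * swap (f (0, 1)) (f (1, 1)) ∈ P ⊓ alternatingGroup Ω :=
    ⟨h2, by
      change Perm.sign _ = 1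
      rw [map_mul, Perm.sign_swap (by simp), Perm.sign_swap (by simp)]; simp⟩
  have hg0 : (swap (f (0, 0)) (f (1, 0)) * swap (f (0, 1)) (f (1, 1))) (f (0, 0)) = f (1, 0) := by
    rw [Perm.mul_apply, swap_apply_of_ne_of_ne (x := f (0, 0)) (by simp) (by simp), swap_apply_left]
  have hg1 : (swap (f (0, 0)) (f (1, 0)) * swap (f (0, 1)) (f (1, 1))) (f (0, 1)) = f (1, 1) := by
    rw [Perm.mul_apply, swap_apply_left, swap_apply_of_ne_of_ne (by simp) (by simp)]
  constructor
  · intro h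
    have h2' : (⟨2, by omega⟩ : Fin (m + 2)) ≠ 0 := Fin.ne_of_val_ne (by simp)
    have h2'' : (⟨2, by omega⟩ : Fin (m + 2)) ≠ 1 := Fin.ne_of_val_ne (by simp)
    have h3 := congrArg Subtype.val (h.is_comm.comm ⟨_, ht 0 ⟨2, by omega⟩⟩ ⟨_, hg⟩)
    have h4 := DFunLike.congr_fun h3 (f (0, 0))
    simp only [Subgroup.coe_mul] at h4
    rw [Perm.mul_apply, hg0, Perm.mul_apply,
      swap_apply_of_ne_of_ne (x := f (1, 0)) (by simp [h2''.symm]) (by simp),
      swap_apply_of_ne_of_ne (x := f (1, 0)) (by simp) (by simp), Perm.mul_apply,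
      Perm.mul_apply _ _ (f (0, 0)),
      swap_apply_of_ne_of_ne (x := f (0, 0)) (by simp [h2'.symm]) (by simp), swap_apply_left,
      hg1] at h4
    simp at h4
  · have hc : ∀ x : Subgroup.center ↥(P ⊓ alternatingGroup Ω), ∀ y ∈ P ⊓ alternatingGroup Ω,
        Commute (x.1.1 : Perm Ω) y := fun x y hy =>
      (congrArg Subtype.val (Subgroup.mem_center_iff.1 x.2 ⟨y, hy⟩)).symm
    have hfix : ∀ x : Subgroup.center ↥(P ⊓ alternatingGroup Ω), ∀ i,
        (x.1.1 (f (i, 0)) = f (i, 0) ∧ x.1.1 (f (i, 1)) = f (i, 1)) ∨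
          (x.1.1 (f (i, 0)) = f (i, 1) ∧ x.1.1 (f (i, 1)) = f (i, 0)) := fun x i =>
      fixes_pairs hm (fun i j _ => hc x _ (ht i j)) i
    have key : ∀ u : Subgroup.center ↥(P ⊓ alternatingGroup Ω),
        (∀ i : Fin m, u.1.1 (f (i.succ.castSucc, 0)) = f (i.succ.castSucc, 0)) → u = 1 := by
      intro u hu
      have k1 : u.1.1 (f (1, 0)) = f (1, 0) := by
        have := hu ⟨0, hm⟩
        exact this
      have k0 : u.1.1 (f (0, 0)) = f (0, 0) := by
        have := DFunLike.congr_fun (hc u _ hg).eq (f (0, 0))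
        rw [Perm.mul_apply, hg0, k1, Perm.mul_apply] at this
        exact (Equiv.injective _ (hg0.trans this)).symm
      have k2 : ∀ i, i ≠ Fin.last (m + 1) → ∀ j, u.1.1 (f (i, j)) = f (i, j) := by
        intro i hi j
        have : u.1.1 (f (i, 0)) = f (i, 0) := by
          by_cases h0 : i = 0
          · rw [h0]; exact k0
          · have hi' : i.val ≠ m + 1 := fun h => hi (Fin.ext h)
            have h0' : i.val ≠ 0 := fun h => h0 (Fin.ext h)
            have := hu ⟨i.val - 1, by omega⟩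
            rwa [show (⟨i.val - 1, by omega⟩ : Fin m).succ.castSucc = i from
              Fin.ext (by simp; omega)] at this
        rcases hfix u i with h | h
        · fin_cases j
          exacts [h.1, h.2]
        · rw [this] at h
          simp at h
      have k3 : ∀ ω, ω ∉ Set.range f → u.1.1 ω = ω := fun ω hω =>
        hP.le u.1.2.1 ω fun h => hω ((hf ω).1 h)
      rcases hfix u (Fin.last (m + 1)) with h | h
      · refine Subtype.ext (Subtype.ext (Perm.ext fun ω => ?_))
        by_cases hω : ω ∈ Set.range f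
        · obtain ⟨⟨i, j⟩, rfl⟩ := hω
          by_cases hi : i = Fin.last (m + 1)
          · subst hi
            fin_cases j
            exacts [h.1, h.2]
          · exact k2 i hi j
        · exact k3 ω hω
      · exfalso
        have k4 : u.1.1 = swap (f (Fin.last (m + 1), 0)) (f (Fin.last (m + 1), 1)) := by
          refine Perm.ext fun ω => ?_
          by_cases hω : ω ∈ Set.range f
          · obtain ⟨⟨i, j⟩, rfl⟩ := hω
            by_cases hi : i = Fin.last (m + 1)
            · subst hi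
              fin_cases j
              · exact h.1.trans (swap_apply_left _ _).symm
              · exact h.2.trans (swap_apply_right _ _).symm
            · rw [k2 i hi j, swap_apply_of_ne_of_ne (by simp [hi]) (by simp [hi])]
          · rw [k3 ω hω, swap_apply_of_ne_of_ne (fun h => hω ⟨_, h.symm⟩) fun h => hω ⟨_, h.symm⟩]
        have k5 : Perm.sign u.1.1 = 1 := u.1.2.2
        rw [k4, hs] at k5
        exact absurd k5 (by decide)
    have hinj : Function.Injective fun (x : Subgroup.center ↥(P ⊓ alternatingGroup Ω))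
        (i : Fin m) => decide (x.1.1 (f (i.succ.castSucc, 0)) = f (i.succ.castSucc, 0)) := by
      intro x y hxy
      refine inv_mul_eq_one.1 (key _ fun i => ?_)
      have := congrFun hxy i
      simp only [decide_eq_decide] at this
      change (x.1.1⁻¹ * y.1.1) _ = _
      rw [Perm.mul_apply, Perm.inv_eq_iff_eq]
      rcases hfix x i.succ.castSucc with h | h <;> rcases hfix y i.succ.castSucc with h' | h'
      · rw [h.1, h'.1]
      · rw [this.1 h.1] at h'
        simp at h'
      · rw [this.2 h'.1] at h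
        simp at h
      · rw [h.1, h'.1]
    simpa using Nat.card_le_card_of_injective _ hinj

theorem card_inf_le (hP : SylIn 2 P (SymOn (T : Set Ω))) {w : ℕ} (hT : #T = 2 * w) :
    (w ≤ 1 → P ⊓ alternatingGroup Ω = ⊥) ∧ (w ≤ 2 → Nat.card ↥(P ⊓ alternatingGroup Ω) ≤ 2 ^ 2) := by
  have h1 : w ≤ 1 → P ⊓ alternatingGroup Ω = ⊥ := fun hw => by
    refine (Subgroup.eq_bot_iff_forall _).2 fun x hx => ?_
    have h2 : x.support ⊆ T := fun ω hω => by
      by_contra h
      exact Perm.mem_support.1 hω (hP.le hx.1 ω h)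
    have h3 := card_le_card h2
    by_cases h4 : #x.support = 2
    · have h5 : Perm.sign x = 1 := hx.2
      rw [(Perm.card_support_eq_two.1 h4).sign_eq] at h5
      exact absurd h5 (by decide)
    · exact Perm.card_support_le_one.1 (by omega)
  refine ⟨h1, fun hw => ?_⟩
  by_cases hw' : w ≤ 1
  · rw [h1 hw']; simp
  · obtain rfl : w = 0 + 2 := by omega
    obtain ⟨f, -, h2, -⟩ := exists_pairs hP hT
    have h3 : Nat.card P = 8 := by
      rw [SylIn_card_eq hP, card_SymOn, hT]
      have : Nat.factorization (2 * (0 + 2))! 2 = 3 := by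
        rw [show (2 * (0 + 2))! = 2 ^ 3 * 3 by decide, Nat.factorization_mul (by decide) (by decide),
          Nat.Prime.factorization_pow Nat.prime_two, Nat.Prime.factorization Nat.prime_three]
        simp
      rw [this]; rfl
    have h4 : Nat.card ↥(P ⊓ alternatingGroup Ω) ∣ 8 := h3 ▸ Subgroup.card_dvd_of_le inf_le_left
    have h5 : Nat.card ↥(P ⊓ alternatingGroup Ω) ≠ 8 := fun h => by
      have h6 : P ⊓ alternatingGroup Ω = P :=
        Subgroup.eq_of_le_of_card_ge inf_le_left (by rw [h, h3])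
      have h7 : Perm.sign (swap (f (0, 0)) (f (0, 1))) = 1 := (h6.ge (h2 0)).2
      rw [Perm.sign_swap (by simp)] at h7
      exact absurd h7 (by decide)
    have h8 := Nat.le_of_dvd (by decide) h4
    generalize Nat.card ↥(P ⊓ alternatingGroup Ω) = c at h4 h5 h8 ⊢
    interval_cases c <;> simp_all

end CfsgLib.Spn
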