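import Mathlib
import Cfsg.Agent.Lib.Spn.AltO
import Cfsg.Agent.Lib.Spn.Pair

/-! Package ALT2: alternating groups, the prime two.  See `plans/SPN.md`. -/

set_option autoImplicit false
set_option linter.unusedSectionVars false

namespace CfsgLib.Spn

open Equiv Finset Cfsg CfsgLib.SymChar CfsgLib.Char CfsgLib.Fusion
open scoped Nat ComplexConjugate

variable {Ω : Type*} [Fintype Ω] [DecidableEq Ω] {p : ℕ} {M : Ideal AlgInt}

theorem all_alt_two [Nontrivial Ω] (hM : IsPModular 2 M) : All 2 M (alternatingGroup Ω) := by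
  intro b hb D hD θ hθ
  obtain ⟨P, T, w, hP, hS, hT, hw⟩ := alt_setup hM hb hD hθ
  let e : D ≃* ↥(P ⊓ alternatingGroup Ω) :=
    (D.equivMapOfInjective _ (alternatingGroup Ω).subtype_injective).trans (MulEquiv.subgroupCongr hP)
  by_cases h : w ≤ 2
  · exact goal_of_sq hM hb hD hθ ((Nat.card_congr e.toEquiv).trans_le ((card_inf_le hS hT).2 h))
  obtain ⟨h1, h2⟩ := zc_alt hS hT (by omega)
  refine goal_of_lt hM hb hD hθ (fun hc => h1 ⟨⟨fun x y => e.symm.injective ?_⟩⟩) ?_
  · rw [map_mul, map_mul, mul_comm']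
  · rw [← Nat.card_congr (Subgroup.centerCongr e).toEquiv] at h2
    have h3 := (Nat.ordProj_le 2 (Nat.card_pos (α := Subgroup.center D)).ne').trans h2
    rw [Nat.pow_le_pow_iff_right (by norm_num)] at h3
    rw [Nat.prime_two.factorization_self] at hw
    omega

end CfsgLib.Spn
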