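import Mathlib
import Cfsg.Agent.Lib.Spn.Defs
import Cfsg.Agent.Lib.Char.Induce

/-! Package ORB: orbitwise induction and the link with set partitions.  See `plans/SPN.md`. -/

set_option autoImplicit false
set_option linter.unusedSectionVars false

namespace CfsgLib.Spn

open Equiv Finset Cfsg CfsgLib.SymChar CfsgLib.Char
open scoped Nat ComplexConjugate

variable {Ω : Type*} [Fintype Ω] [DecidableEq Ω] {p : ℕ} {M : Ideal AlgInt}

theorem card_smul_eq {K A : Type*} [Group K] [Fintype K] [DecidableEq A] [MulAction K A]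
    (a : A) (y : K) :
    #{x : K | x • a = y • a} = Nat.card (MulAction.stabilizer K a) := by
  rw [← Nat.card_eq_finsetCard]
  refine Nat.card_congr ⟨fun x => ⟨y⁻¹ * x.1, ?_⟩, fun h => ⟨y * h.1, ?_⟩, fun x => ?_,
    fun h => ?_⟩
  · rw [MulAction.mem_stabilizer_iff, mul_smul, (mem_filter.1 x.2).2, inv_smul_smul]
  · refine mem_filter.2 ⟨mem_univ _, ?_⟩
    rw [mul_smul, MulAction.mem_stabilizer_iff.1 h.2]
  · simp
  · simp

open Classical in
theorem sum_smul_eq {K A : Type*} [Group K] [Fintype K] [Fintype A] [DecidableEq A]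
    [MulAction K A] (a : A) (F : A → ℂ) :
    ∑ x : K, F (x • a) = Nat.card (MulAction.stabilizer K a) *
      ∑ b, if b ∈ MulAction.orbit K a then F b else 0 := by
  rw [← sum_fiberwise (s := univ) (g := fun x : K => x • a), mul_sum]
  refine sum_congr rfl fun b _ => ?_
  rw [sum_congr rfl (g := fun _ => F b) fun x hx => by rw [(mem_filter.1 hx).2], sum_const,
    nsmul_eq_mul]
  split_ifs with hb
  · obtain ⟨y, rfl⟩ := hb
    rw [card_smul_eq]
  · rw [filter_eq_empty_iff.2 fun x _ hx => hb ⟨x, hx⟩]
    simp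

theorem isGenChar_orb {K A : Type*} [Group K] [Finite K] [Fintype A] [DecidableEq A]
    [MulAction K A] {ξ : K → ℂ} (hξ : IsClassFunction K ξ) (c : A → ℂ)
    (hc : ∀ (g : K) (a : A), c (g • a) = c a)
    (h : ∀ a : A, IsGeneralizedCharacter (MulAction.stabilizer K a) fun g => c a * ξ g) :
    IsGeneralizedCharacter K fun g => ξ g * ∑ a with g • a = a, c a := by
  classical
  letI := Fintype.ofFinite K
  letI := Fintype.ofFinite (MulAction.orbitRel.Quotient K A)
  have h1 := isGenChar_sum (G := K) (univ : Finset (MulAction.orbitRel.Quotient K A))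
    fun ω _ => isGenChar_indFun _ (h ω.out)
  convert h1 using 1
  funext g
  rw [Finset.sum_apply]
  have h2 : ∀ a : A, indFun (MulAction.stabilizer K a) (fun g => c a * ξ g) g =
      ∑ b, if b ∈ MulAction.orbit K a then (if g • b = b then c b * ξ g else 0) else 0 := by
    intro a
    have h3 : ∀ x : K, extendByZero (MulAction.stabilizer K a) (fun g => c a * ξ g)
        (x⁻¹ * g * x) = if g • x • a = x • a then c (x • a) * ξ g else 0 := by
      intro x
      have h4 : x⁻¹ * g * x ∈ MulAction.stabilizer K a ↔ g • x • a = x • a := by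
        rw [MulAction.mem_stabilizer_iff, mul_smul, mul_smul, inv_smul_eq_iff]
      rw [extendByZero_eq_dite]
      by_cases hx : g • x • a = x • a
      · rw [dif_pos (h4.2 hx), if_pos hx, hc]
        have := hξ g x⁻¹
        rw [inv_inv] at this
        exact congrArg _ this
      · rw [dif_neg (fun h5 => hx (h4.1 h5)), if_neg hx]
    rw [indFun_apply, sum_congr rfl fun x _ => h3 x,
      sum_smul_eq a fun b => if g • b = b then c b * ξ g else 0,
      inv_mul_cancel_left₀ (by exact_mod_cast Nat.card_pos.ne')]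
  rw [sum_congr rfl fun ω _ => h2 _, sum_comm, sum_filter, mul_sum]
  refine sum_congr rfl fun b _ => ?_
  rw [sum_eq_single (Quotient.mk _ b)]
  · have hb : b ∈ MulAction.orbit K
        (Quotient.out (Quotient.mk _ b : MulAction.orbitRel.Quotient K A)) :=
      MulAction.orbitRel_apply.1 (Quotient.exact (Quotient.out_eq _).symm)
    rw [if_pos hb]
    split_ifs <;> ring
  · intro ω _ hω
    rw [if_neg]
    intro hb
    exact hω ((Quotient.out_eq ω).symm.trans
      (Quotient.sound (MulAction.orbitRel_apply.2 hb)).symm)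
  · simp

/-- The pairing of a Laurent polynomial with a function. -/
noncomputable def pairLP {N : ℕ} (F : (Fin N → ℤ) → ℂ) : LP N →ₗ[ℂ] ℂ :=
  (Finsupp.linearCombination ℂ F).comp (AddMonoidAlgebra.coeffLinearEquiv ℂ).toLinearMap

theorem pairLP_single {N : ℕ} (F : (Fin N → ℤ) → ℂ) (γ : Fin N → ℤ) (c : ℂ) :
    pairLP F (AddMonoidAlgebra.single γ c) = c * F γ := by
  simp [pairLP]

theorem pairLP_single_mul {N : ℕ} (F : (Fin N → ℤ) → ℂ) (γ : Fin N → ℤ) (P : LP N) :
    pairLP F (AddMonoidAlgebra.single γ 1 * P) = pairLP (fun γ' => F (γ + γ')) P := by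
  induction P using AddMonoidAlgebra.induction_linear with
  | zero => simp
  | add P Q hP hQ => simp only [mul_add, map_add, hP, hQ]
  | single γ' c => rw [AddMonoidAlgebra.single_mul_single, pairLP_single, pairLP_single, one_mul]

theorem X_eq_pairLP (δ : List ℤ → ℂ) {N : ℕ} (μ : Multiset ℕ) (α : Fin N → ℤ) :
    X δ μ (List.ofFn α) = pairLP (fun γ => δ (List.ofFn (α - γ))) (μ.map (ps N)).prod := by
  induction μ using Multiset.induction_on generalizing α with
  | empty =>
    rw [X_zero, Multiset.map_zero, Multiset.prod_zero, AddMonoidAlgebra.one_def, pairLP_single,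
      one_mul, sub_zero]
  | cons k μ ih =>
    rw [X_cons, T_ofFn, Multiset.map_cons, Multiset.prod_cons, ps, sum_mul, map_sum]
    refine sum_congr rfl fun c _ => ?_
    rw [ih, pairLP_single_mul]
    simp only [sub_sub]

theorem X_ty (δ : List ℤ → ℂ) {N : ℕ} (σ : Perm Ω) (α : Fin N → ℤ) :
    X δ (ty σ) (List.ofFn α) = ∑ f : Ω → Fin N with f ∘ σ = f, δ (List.ofFn (α - fib f)) := by
  rw [X_eq_pairLP, prod_ps_ty, map_sum]
  simp only [pairLP_single, one_mul]

end CfsgLib.Spn
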