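import Mathlib
import Cfsg.Agent.Lib.Spn.Defs

/-! Package STR: straightening.  See `plans/SPN.md`. -/

set_option autoImplicit false
set_option linter.unusedSectionVars false

namespace CfsgLib.Spn

open Equiv Finset Cfsg CfsgLib.SymChar CfsgLib.Char
open scoped Nat ComplexConjugate

variable {F δ : List ℤ → ℂ} {l l' : List ℤ}

theorem Cov.pre (hF : Cov F) (u : List ℤ) : Cov fun l => F (u ++ l) := by
  refine ⟨fun w a b v => ?_, fun w a ha => ?_, fun w => ?_⟩
  · simpa only [List.append_assoc] using hF.anti (u ++ w) a b v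
  · simpa only [List.append_assoc] using hF.neg (u ++ w) a ha
  · simpa only [List.append_assoc] using hF.zero (u ++ w)

theorem Cov.swap (hF : Cov F) (u : List ℤ) {a b : ℤ} (h : a + b ≠ 0) (v : List ℤ) :
    F (u ++ a :: b :: v) = -F (u ++ b :: a :: v) := by
  have := hF.anti u a b v
  rw [if_neg h] at this
  exact eq_neg_of_add_eq_zero_left this

private theorem neg_one_zpow_neg' (a : ℤ) : (-1 : ℂ) ^ (-a) = (-1) ^ a := by
  rcases Int.even_or_odd a with h | h
  · rw [h.neg_one_zpow, h.neg.neg_one_zpow]
  · rw [h.neg_one_zpow, h.neg.neg_one_zpow]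

private theorem neg_one_zpow_sub_odd (a : ℤ) {k : ℤ} (hk : Odd k) : (-1 : ℂ) ^ (a - k) = -(-1) ^ a := by
  rw [zpow_sub₀ (by norm_num), hk.neg_one_zpow]
  ring

theorem Cov.T (hF : Cov F) {k : ℤ} (hk : Odd k) (h0 : 0 < k) : Cov (T k F) := by
  refine ⟨fun u a b v => ?_, fun u a ha => ?_, fun u => ?_⟩
  · have h1 := hF.anti u (a - k) b v
    have h2 := hF.anti u a (b - k) v
    have e : a - k + b = a + (b - k) := by ring
    rw [e, neg_one_zpow_sub_odd a hk] at h1
    have h3 : F (u ++ (a - k) :: b :: v) + F (u ++ b :: (a - k) :: v) +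
        (F (u ++ a :: (b - k) :: v) + F (u ++ (b - k) :: a :: v)) = 0 := by
      rw [h1, h2]
      split_ifs <;> ring
    have h4 : Spn.T k (fun u' => F (u' ++ a :: b :: v)) u +
        Spn.T k (fun u' => F (u' ++ b :: a :: v)) u =
        if a + b = 0 then 2 * (-1) ^ a * Spn.T k (fun u' => F (u' ++ v)) u else 0 := by
      rw [← T_add]
      simp only [hF.anti]
      split_ifs
      · rw [T_mul]
      · rw [T_zero]
    have h5 : Spn.T k (fun v' => F (u ++ a :: b :: v')) v +
        Spn.T k (fun v' => F (u ++ b :: a :: v')) v =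
        if a + b = 0 then 2 * (-1) ^ a * Spn.T k (fun v' => F (u ++ v')) v else 0 := by
      rw [← T_add]
      simp only [hF.anti]
      split_ifs
      · rw [T_mul]
      · rw [T_zero]
    simp only [T_append, T_cons]
    split_ifs at h4 h5 ⊢
    · linear_combination h3 + h4 + h5
    · linear_combination h3 + h4 + h5
  · rw [T_append, T_cons, T_nil, hF.neg u (a - k) (by omega)]
    simp only [hF.neg _ a ha, T_zero, add_zero]
  · rw [T_append, T_cons, T_nil, hF.neg u (0 - k) (by omega)]
    simp only [hF.zero, add_zero]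

theorem Cov.X (hF : Cov F) {μ : Multiset ℕ} (hμ : ∀ k ∈ μ, Odd k) : Cov (X F μ) := by
  induction μ using Multiset.induction_on with
  | empty => exact hF
  | cons k μ ih =>
    rw [X_cons]
    have hk : Odd k := hμ k (Multiset.mem_cons_self _ _)
    exact (ih fun j hj => hμ j (Multiset.mem_cons_of_mem hj)).T (by exact_mod_cast hk)
      (by exact_mod_cast hk.pos)

theorem Cov.sum {ι : Type*} (s : Finset ι) (c : ι → ℂ) (F : ι → List ℤ → ℂ)
    (h : ∀ i ∈ s, c i ≠ 0 → Cov (F i)) : Cov fun l => ∑ i ∈ s, c i * F i l := by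
  refine ⟨fun u a b v => ?_, fun u a ha => ?_, fun u => ?_⟩
  · rw [← sum_add_distrib]
    have : ∀ i ∈ s, c i * F i (u ++ a :: b :: v) + c i * F i (u ++ b :: a :: v) =
        if a + b = 0 then 2 * (-1) ^ a * (c i * F i (u ++ v)) else 0 := by
      intro i hi
      by_cases hc : c i = 0
      · simp [hc]
      · rw [← mul_add, (h i hi hc).anti]
        split_ifs <;> ring
    rw [sum_congr rfl this]
    split_ifs
    · rw [mul_sum]
    · simp
  · refine sum_eq_zero fun i hi => ?_
    by_cases hc : c i = 0
    · simp [hc]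
    · rw [(h i hi hc).neg u a ha, mul_zero]
  · refine sum_congr rfl fun i hi => ?_
    by_cases hc : c i = 0
    · simp [hc]
    · rw [(h i hi hc).zero u]

private theorem Step.cons (a : ℤ) (h : Step l l') : Step (a :: l) (a :: l') := by
  cases h with
  | swap u b c v => exact Step.swap (a :: u) b c v
  | pair u b v => exact Step.pair (a :: u) b v
  | zero => exact Step.zero (a :: l')

private theorem Eqv.cons (a : ℤ) (h : Eqv l l') : Eqv (a :: l) (a :: l') := by
  induction h with
  | refl => exact Relation.ReflTransGen.refl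
  | tail _ h2 ih => exact ih.tail (h2.cons a)

private theorem str_nil : Str [] := ⟨List.Pairwise.nil, by simp⟩

private theorem Str.tail {a : ℤ} (h : Str (a :: l)) : Str l :=
  ⟨h.1.of_cons, fun b hb => h.2 b (List.mem_cons_of_mem _ hb)⟩

private theorem Str.head_pos {a : ℤ} (h : Str (a :: l)) : 0 < a := h.2 a List.mem_cons_self

private theorem Str.lt_head {a b : ℤ} (h : Str (a :: l)) (hb : b ∈ l) : b < a :=
  List.rel_of_pairwise_cons h.1 hb

private theorem Str.cons {a : ℤ} (h : Str l) (ha : 0 < a) (hl : ∀ b ∈ l, b < a) : Str (a :: l) :=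
  ⟨List.Pairwise.cons hl h.1, fun b hb => by
    rcases List.mem_cons.1 hb with rfl | hb
    · exact ha
    · exact h.2 b hb⟩

private theorem Cov.insert (hl : Str l) (hF : Cov F) {a : ℤ} (h : F (a :: l) ≠ 0) :
    ∃ l', Str l' ∧ F l' ≠ 0 ∧ Eqv (a :: l) l' ∧ ∀ x ∈ l', x ∈ a :: l := by
  induction l generalizing F with
  | nil =>
    rcases lt_trichotomy a 0 with ha | rfl | ha
    · exact absurd (hF.neg [] a ha) h
    · refine ⟨[], str_nil, ?_, Relation.ReflTransGen.single (Step.zero []), by simp⟩
      rw [← hF.zero []]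
      exact h
    · exact ⟨[a], str_nil.cons ha (by simp), h, Relation.ReflTransGen.refl, fun x hx => hx⟩
  | cons b l ih =>
    have hb := hl.head_pos
    rcases lt_trichotomy a b with hab | rfl | hab
    · by_cases h1 : F (b :: a :: l) = 0
      · have h2 := hF.anti [] a b l
        simp only [List.nil_append] at h2
        rw [h1, add_zero] at h2
        have h3 : a + b = 0 := by
          by_contra h3
          rw [if_neg h3] at h2
          exact h h2
        rw [if_pos h3] at h2
        obtain rfl : b = -a := by omega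
        refine ⟨l, hl.tail, fun h4 => h ?_, Relation.ReflTransGen.single (Step.pair [] a l),
          fun x hx => List.mem_cons_of_mem _ (List.mem_cons_of_mem _ hx)⟩
        rw [h2, h4, mul_zero]
      · obtain ⟨l', h2, h3, h4, h5⟩ := ih hl.tail (hF.pre [b]) h1
        refine ⟨b :: l', h2.cons hb fun x hx => ?_, h3,
          Relation.ReflTransGen.head (Step.swap [] a b l) (Eqv.cons b h4), fun x hx => ?_⟩
        · rcases List.mem_cons.1 (h5 x hx) with rfl | hx
          · exact hab
          · exact hl.lt_head hx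
        · rcases List.mem_cons.1 hx with rfl | hx
          · simp
          · rcases List.mem_cons.1 (h5 x hx) with rfl | hx
            · simp
            · simp [hx]
    · have h2 := hF.swap [] (a := a) (b := a) (by omega) l
      simp only [List.nil_append] at h2
      exact absurd (by linear_combination (1 / 2 : ℂ) * h2) h
    · refine ⟨a :: b :: l, hl.cons (by omega) fun x hx => ?_, h, Relation.ReflTransGen.refl,
        fun x hx => hx⟩
      rcases List.mem_cons.1 hx with rfl | hx
      · exact hab
      · exact (hl.lt_head hx).trans hab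

theorem Cov.str (hF : Cov F) (h : F l ≠ 0) : ∃ l', Str l' ∧ F l' ≠ 0 ∧ Eqv l l' := by
  induction l generalizing F with
  | nil => exact ⟨[], str_nil, h, Relation.ReflTransGen.refl⟩
  | cons a l ih =>
    obtain ⟨l1, h1, h2, h3⟩ := ih (hF.pre [a]) h
    obtain ⟨l2, h4, h5, h6, -⟩ := Cov.insert h1 hF (a := a) h2
    exact ⟨l2, h4, h5, (Eqv.cons a h3).trans h6⟩

private theorem Step.sum_eq (h : Step l l') : l'.sum = l.sum := by
  cases h with
  | swap u b c v => simp only [List.sum_append, List.sum_cons]; ring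
  | pair u b v => simp only [List.sum_append, List.sum_cons]; ring
  | zero => simp

theorem Eqv.sum_eq (h : Eqv l l') : l'.sum = l.sum := by
  induction h with
  | refl => rfl
  | tail _ h2 ih => exact h2.sum_eq.trans ih

theorem Str.length_le (hl : Str l) : (l.length : ℤ) ≤ l.sum := by
  induction l with
  | nil => simp
  | cons a l ih =>
    have h1 := ih hl.tail
    have h2 := hl.head_pos
    simp only [List.length_cons, List.sum_cons]
    push_cast
    omega

theorem Cov.eq_zero_of_sum_neg (hF : Cov F) (u : List ℤ) {v : List ℤ} (h : v.sum < 0) :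
    F (u ++ v) = 0 := by
  by_contra h1
  obtain ⟨l', h2, -, h4⟩ := (hF.pre u).str (l := v) h1
  have h5 := h2.length_le
  rw [h4.sum_eq] at h5
  omega

theorem Vac.sum_eq_zero (hδ : Vac δ) (h : δ l ≠ 0) : l.sum = 0 := by
  obtain ⟨l', h2, h3, h4⟩ := hδ.cov.str h
  rw [← h4.sum_eq]
  cases l' with
  | nil => rfl
  | cons a l' => exact absurd (hδ.pos a l' h2.head_pos) h3

theorem Vac.X_sum (hδ : Vac δ) {μ : Multiset ℕ} (h : X δ μ l ≠ 0) : l.sum = (μ.sum : ℕ) := by
  induction μ using Multiset.induction_on generalizing l with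
  | empty => simpa using hδ.sum_eq_zero h
  | cons k μ ih =>
    rw [X_cons] at h
    obtain ⟨u, a, v, rfl, h2⟩ := exists_of_T h
    have h3 := ih h2
    simp only [List.sum_append, List.sum_cons, Multiset.sum_cons] at h3 ⊢
    rw [Nat.cast_add]
    omega

private theorem T_int (k : ℤ) (h : ∀ l, ∃ c : ℤ, F l = c) (l : List ℤ) : ∃ c : ℤ, T k F l = c := by
  induction l generalizing F with
  | nil => exact ⟨0, by simp⟩
  | cons a l ih =>
    obtain ⟨c, hc⟩ := h ((a - k) :: l)
    obtain ⟨d, hd⟩ := ih (F := fun l' => F (a :: l')) fun l' => h (a :: l')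
    exact ⟨c + d, by rw [T_cons, hc, hd]; push_cast; rfl⟩

theorem Vac.X_int (hδ : Vac δ) (μ : Multiset ℕ) (l : List ℤ) : ∃ c : ℤ, X δ μ l = c := by
  induction μ using Multiset.induction_on generalizing l with
  | empty =>
    obtain ⟨c, hc⟩ := hδ.int l
    exact ⟨2 ^ (l.countP fun a => decide (0 < a)) * c, by rw [X_zero, hc]; push_cast; rfl⟩
  | cons k μ ih =>
    rw [X_cons]
    exact T_int k ih l

private theorem Cov.neg_notMem (hF : Cov F) {a : ℤ} (ha : 0 < a) (hl : a ∉ l) (u : List ℤ) :
    F (u ++ (-a) :: l) = 0 := by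
  induction l generalizing u with
  | nil => exact hF.neg u (-a) (by omega)
  | cons b l ih =>
    have hb : a ≠ b := fun e => hl (e ▸ List.mem_cons_self)
    rw [hF.swap u (by omega) l]
    have := ih (fun e => hl (List.mem_cons_of_mem _ e)) (u ++ [b])
    rw [List.append_assoc] at this
    exact neg_eq_zero.2 this

private theorem adj_cons (a : ℤ) (l : List ℤ) : adj (a :: l) = adj l ++ [-a] := by
  simp [adj]

theorem Vac.adj_self (hδ : Vac δ) (hl : Str l) :
    δ (adj l ++ l) = (-1) ^ l.sum * 2 ^ l.length := by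
  induction l with
  | nil => simpa [adj] using hδ.nil
  | cons a l ih =>
    have h1 := hδ.cov.anti (adj l) (-a) a l
    have h2 := hδ.cov.neg_notMem hl.head_pos (fun e => lt_irrefl _ (hl.lt_head e)) (adj l ++ [a])
    rw [List.append_assoc] at h2
    rw [if_pos (by ring), ih hl.tail, neg_one_zpow_neg'] at h1
    rw [adj_cons, List.append_assoc, List.sum_cons, List.length_cons,
      zpow_add₀ (by norm_num), pow_succ]
    simp only [List.cons_append, List.nil_append] at h2 ⊢
    linear_combination h1 - h2

theorem Vac.replicate_zero (hδ : Vac δ) (k : ℕ) : δ (List.replicate k 0) = 1 := by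
  induction k with
  | zero => exact hδ.nil
  | succ k ih => rw [List.replicate_succ, hδ.zero, ih]

theorem Str.exists_ofFn (hl : Str l) :
    ∃ β : Fin l.length → ℤ, l = List.ofFn β ∧ StrictAnti β ∧ ∀ i, 0 < β i := by
  refine ⟨l.get, (List.ofFn_get l).symm, fun i j hij => ?_, fun i => hl.2 _ (List.get_mem l i)⟩
  exact List.pairwise_iff_get.1 hl.1 i j hij

theorem str_ofFn {N : ℕ} {β : Fin N → ℤ} (h : StrictAnti β) (h0 : ∀ i, 0 < β i) :
    Str (List.ofFn β) := by
  refine ⟨List.pairwise_ofFn.2 fun i j hij => h hij, fun a ha => ?_⟩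
  obtain ⟨i, rfl⟩ := List.mem_ofFn.1 ha
  exact h0 i

end CfsgLib.Spn
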