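import Mathlib
import Cfsg.Agent.Lib.Spn.Defs

/-! Package SPB: basic facts on the double cover.  See `plans/SPN.md`. -/

set_option autoImplicit false
set_option linter.unusedSectionVars false

namespace CfsgLib.Spn

open Equiv Finset Cfsg CfsgLib.SymChar CfsgLib.Char
open scoped Nat ComplexConjugate

variable {G : Type*} [Group G] [Finite G] {Ω : Type*} [Fintype Ω] [DecidableEq Ω] (S : Sp G Ω) {g h : G} {i j k l : Ω}

section aux
variable {A : Type*} [Ring A] [Algebra ℂ A] {x x' y y' y'' D a b a' b' : A} {s r : ℂ}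

theorem spb_aux1 (h : x * y = s • (y' * x)) : (-x) * y = s • (y' * (-x)) := by
  rw [neg_mul, h, mul_neg, smul_neg]

theorem spb_aux2 (h : x * y = s • (y' * x)) (h2 : D * y' = -(y'' * D)) :
    (r • D * x) * y = (-s) • (y'' * (r • D * x)) := by
  rw [mul_assoc, h, mul_smul_comm, ← mul_assoc, smul_mul_assoc, h2]
  simp [mul_assoc]

theorem spb_aux3 (e : x * x' = 1) (ha : x * a = s • (a' * x)) (hb : x * b = s • (b' * x)) :
    x * (r • (a - b)) * x' = s • r • (a' - b') := by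
  rw [mul_smul_comm, mul_sub, ha, hb, ← smul_sub, ← sub_mul, smul_mul_assoc, smul_mul_assoc, mul_assoc, e,
    mul_one, smul_comm]

end aux

namespace Sp

theorem ρ_z_mul (g : G) : S.ρ (S.z * g) = -S.ρ g := by
  rw [map_mul, S.ρ_z]; exact neg_one_mul (S.ρ g)

theorem π_z : S.π S.z = 1 := by
  exact (S.ker _).2 (.inr rfl)

theorem z_ne_one : S.z ≠ 1 := by
  intro h
  have h1 := S.ρ_z
  rw [h, map_one] at h1
  have h2 := congrArg (fun f : Module.End ℂ (Sv Ω) => f (fun _ => 1) ⟨0, by positivity⟩) h1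
  norm_num at h2

theorem z_mul_z : S.z * S.z = 1 := by
  refine ((S.ker _).1 (by rw [map_mul, S.π_z, one_mul])).resolve_right fun h => S.z_ne_one ?_
  exact mul_left_cancel (h.trans (mul_one _).symm)

theorem z_comm (g : G) : g * S.z = S.z * g := by
  have := ((S.ker (g * S.z * g⁻¹)).1 (by simp [S.π_z])).resolve_left fun h => S.z_ne_one (by simpa using h)
  exact mul_inv_eq_iff_eq_mul.1 this

theorem z_mem_ev : S.z ∈ S.ev := by
  rw [mem_ev, S.π_z, map_one]

theorem eq_or_eq (h1 : S.π g = S.π h) : g = h ∨ g = S.z * h := by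
  exact ((S.ker (g * h⁻¹)).1 (by simp [h1])).imp mul_inv_eq_one.1 mul_inv_eq_iff_eq_mul.1

theorem ext' (h1 : S.π g = S.π h) (h2 : S.ρ g = S.ρ h) : g = h := by
  refine (S.eq_or_eq h1).resolve_right fun e => S.z_ne_one ?_
  have h3 : S.ρ (S.z * h * h⁻¹) = S.ρ (h * h⁻¹) := by rw [← e, map_mul, map_mul, h2]
  rw [mul_inv_cancel_right, mul_inv_cancel, map_one, S.ρ_z] at h3
  have h4 := congrArg (fun f : Module.End ℂ (Sv Ω) => f (fun _ => 1) ⟨0, by positivity⟩) h3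
  norm_num at h4

theorem ker_eq : S.π.ker = Subgroup.zpowers S.z := by
  refine le_antisymm (fun g hg => ?_) (Subgroup.zpowers_le.2 S.π_z)
  rcases (S.ker g).1 hg with rfl | rfl
  · exact one_mem _
  · exact Subgroup.mem_zpowers _

theorem card_ker : Nat.card S.π.ker = 2 := by
  have : Fact (Nat.Prime 2) := ⟨Nat.prime_two⟩
  rw [S.ker_eq, Nat.card_zpowers, orderOf_eq_prime (by rw [pow_two, S.z_mul_z]) S.z_ne_one]

include S in
theorem card_eq : Nat.card G = 2 * (Fintype.card Ω)! := by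
  rw [← S.π.ker.card_mul_index, S.card_ker, Subgroup.index_ker, MonoidHom.range_eq_top.2 S.surj,
    Subgroup.card_top, Nat.card_eq_fintype_card, Fintype.card_perm]

theorem index_ev [Nontrivial Ω] : S.ev.index = 2 := by
  rw [ev, Subgroup.index_comap_of_surjective _ S.surj, alternatingGroup.index_eq_two]

theorem sum_π [Fintype G] (F : Perm Ω → ℂ) : ∑ g, F (S.π g) = 2 * ∑ σ, F σ := by
  classical
  rw [← Finset.sum_fiberwise_of_maps_to (s := univ) (t := univ) (g := S.π) fun _ _ => mem_univ _, mul_sum]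
  refine sum_congr rfl fun σ _ => ?_
  obtain ⟨g, rfl⟩ := S.surj σ
  have e : univ.filter (fun x => S.π x = S.π g) = {g, S.z * g} := by
    ext x
    simp only [mem_filter, mem_univ, true_and, mem_insert, mem_singleton]
    refine ⟨S.eq_or_eq, ?_⟩
    rintro (rfl | rfl)
    · rfl
    · rw [map_mul, S.π_z, one_mul]
  rw [e, sum_pair fun h => S.z_ne_one (by simpa using h), map_mul, S.π_z, one_mul, two_mul]

theorem induction_on {P : G → Prop} (h1 : P 1) (hz : ∀ g, P g → P (S.z * g))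
    (hu : ∀ i j g, i ≠ j → P g → P (S.u i j * g)) (g : G) : P g := by
  have key : ∀ σ : Perm Ω, ∀ g, S.π g = σ → P g := fun σ => by
    induction σ using Perm.swap_induction_on with
    | one =>
      intro g hg
      rcases (S.ker g).1 hg with rfl | rfl
      · exact h1
      · simpa using hz 1 h1
    | swap_mul f x y hxy ih =>
      intro g hg
      have := hu x y _ hxy (ih ((S.u x y)⁻¹ * g) (by rw [map_mul, map_inv, S.π_u, hg, inv_mul_cancel_left]))
      rwa [mul_inv_cancel_left] at this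
  exact key _ g rfl

theorem Γ_swap {a b : Ω ⊕ Fin (Fintype.card Ω + 1)} (c : Ω ⊕ Fin (Fintype.card Ω + 1)) :
    (S.Γ a - S.Γ b) * S.Γ c = -(S.Γ (swap a b c) * (S.Γ a - S.Γ b)) := by
  by_cases h1 : c = a
  · rw [h1, swap_apply_left, sub_mul, mul_sub, S.Γ_sq, S.Γ_sq, neg_sub]
  by_cases h2 : c = b
  · rw [h2, swap_apply_right, sub_mul, mul_sub, S.Γ_sq, S.Γ_sq, neg_sub]
  rw [swap_apply_of_ne_of_ne h1 h2, sub_mul, mul_sub, S.Γ_anti c a h1, S.Γ_anti c b h2]
  abel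

theorem ρ_Γ_gen (g : G) (c : Ω ⊕ Fin (Fintype.card Ω + 1)) : S.ρ g * S.Γ c =
    ((Perm.sign (S.π g) : ℤ) : ℂ) • (S.Γ (Sum.map (S.π g) id c) * S.ρ g) := by
  induction g using S.induction_on with
  | h1 => simp
  | hz g ih => rw [S.ρ_z_mul, map_mul, S.π_z, one_mul]; exact spb_aux1 ih
  | hu i j g hij ih =>
    have e : Sum.map (swap i j * S.π g) id c = swap (.inl i) (.inl j) (Sum.map (S.π g) id c) := by
      rcases c with c | c
      · exact (Sum.inl_injective.swap_apply i j _).symm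
      · exact (swap_apply_of_ne_of_ne (by simp) (by simp)).symm
    rw [map_mul, map_mul, S.π_u, e, S.ρ_u i j hij, map_mul, Perm.sign_swap hij, neg_one_mul, Units.val_neg,
      Int.cast_neg]
    exact spb_aux2 ih (S.Γ_swap _)

theorem ρ_Γ (g : G) (i : Ω) : S.ρ g * S.Γ (.inl i) =
    ((Perm.sign (S.π g) : ℤ) : ℂ) • (S.Γ (.inl (S.π g i)) * S.ρ g) := by
  exact S.ρ_Γ_gen g (.inl i)

theorem ρ_Γ' (g : G) (e : Fin (Fintype.card Ω + 1)) : S.ρ g * S.Γ (.inr e) =
    ((Perm.sign (S.π g) : ℤ) : ℂ) • (S.Γ (.inr e) * S.ρ g) := by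
  exact S.ρ_Γ_gen g (.inr e)

theorem u_mul_self (hij : i ≠ j) : S.u i j * S.u i j = 1 := by
  refine S.ext' (by rw [map_mul, S.π_u, swap_mul_self, map_one]) ?_
  have h2 : ((Real.sqrt 2 : ℝ) : ℂ)⁻¹ * ((Real.sqrt 2 : ℝ) : ℂ)⁻¹ = 2⁻¹ := by
    rw [← mul_inv, ← Complex.ofReal_mul, Real.mul_self_sqrt zero_le_two]; norm_num
  rw [map_mul, S.ρ_u i j hij, map_one, smul_mul_smul_comm, h2, sub_mul, mul_sub, mul_sub, S.Γ_sq, S.Γ_sq,
    S.Γ_anti (.inl i) (.inl j) (by simpa using hij)]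
  module

theorem u_symm (hij : i ≠ j) : S.u j i = S.z * S.u i j := by
  refine S.ext' (by rw [map_mul, S.π_z, one_mul, S.π_u, S.π_u, swap_comm]) ?_
  rw [S.ρ_z_mul, S.ρ_u i j hij, S.ρ_u j i hij.symm]
  module

theorem ρ_conj_u (g : G) (hij : i ≠ j) : S.ρ (g * S.u i j * g⁻¹) =
    ((Perm.sign (S.π g) : ℤ) : ℂ) • S.ρ (S.u (S.π g i) (S.π g j)) := by
  have e : S.ρ g * S.ρ g⁻¹ = 1 := by rw [← map_mul, mul_inv_cancel, map_one]
  rw [map_mul, map_mul, S.ρ_u i j hij, S.ρ_u _ _ ((S.π g).injective.ne hij)]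
  exact spb_aux3 e (S.ρ_Γ g i) (S.ρ_Γ g j)

theorem conj_u_of_mem (hg : g ∈ S.ev) (hij : i ≠ j) :
    g * S.u i j * g⁻¹ = S.u (S.π g i) (S.π g j) := by
  refine S.ext' (by rw [map_mul, map_mul, map_inv, S.π_u, S.π_u, swap_apply_apply]) ?_
  rw [S.ρ_conj_u g hij, (S.mem_ev).1 hg]
  simp

theorem conj_u_of_notMem (hg : g ∉ S.ev) (hij : i ≠ j) :
    g * S.u i j * g⁻¹ = S.z * S.u (S.π g i) (S.π g j) := by
  refine S.ext' (by rw [map_mul, map_mul, map_mul, map_inv, S.π_z, one_mul, S.π_u, S.π_u, swap_apply_apply]) ?_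
  rw [S.ρ_conj_u g hij, (Int.units_eq_one_or _).resolve_left hg, S.ρ_z_mul]
  refine LinearMap.ext fun v => ?_
  simp

theorem u_anti (hij : i ≠ j) (hkl : k ≠ l) (h1 : k ≠ i) (h2 : k ≠ j) (h3 : l ≠ i) (h4 : l ≠ j) :
    S.u i j * S.u k l = S.z * (S.u k l * S.u i j) := by
  have := S.conj_u_of_notMem (g := S.u i j) (by rw [mem_ev, S.π_u, Perm.sign_swap hij]; decide) hkl
  rw [S.π_u, swap_apply_of_ne_of_ne h1 h2, swap_apply_of_ne_of_ne h3 h4] at this
  rw [← mul_assoc, ← this, inv_mul_cancel_right]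

theorem τ_one : S.τ 1 = 1 := by
  rw [τ, Representation.char_one, Module.finrank_fin_fun, Nat.cast_pow, Nat.cast_ofNat, div_self (pow_ne_zero _ two_ne_zero)]

theorem τ_z_mul (g : G) : S.τ (S.z * g) = -S.τ g := by
  rw [τ, τ, Representation.character, Representation.character, S.ρ_z_mul, map_neg, neg_div]

theorem τ_conj (g h : G) : S.τ (h * g * h⁻¹) = S.τ g := by
  rw [τ, τ, Representation.char_conj]

theorem τ_of_notMem (hg : g ∉ S.ev) : S.τ g = 0 := by
  have h1 := S.ρ_Γ' g 0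
  rw [(Int.units_eq_one_or _).resolve_left hg] at h1
  have h2 : LinearMap.trace ℂ _ (S.ρ g) = -LinearMap.trace ℂ _ (S.ρ g) := by
    conv_lhs => rw [← mul_one (S.ρ g), ← S.Γ_sq (.inr 0), ← mul_assoc, h1, smul_mul_assoc, map_smul,
      LinearMap.trace_mul_comm, ← mul_assoc, S.Γ_sq, one_mul]
    simp
  rw [τ, Representation.character, self_eq_neg.1 h2, zero_div]

theorem Y_conj (δ : List ℤ → ℂ) (l : List ℤ) (g h : G) : S.Y δ l (h * g * h⁻¹) = S.Y δ l g := by
  rw [Y, Y, S.τ_conj, map_mul, map_mul, map_inv, ty_conj]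

theorem Y_of_notMem (δ : List ℤ → ℂ) (l : List ℤ) (hg : g ∉ S.ev) : S.Y δ l g = 0 := by
  rw [Y, S.τ_of_notMem hg, zero_mul]

theorem πe_surj : Function.Surjective S.πe := by
  rintro ⟨σ, hσ⟩
  obtain ⟨g, rfl⟩ := S.surj σ
  exact ⟨⟨g, hσ⟩, rfl⟩

theorem mem_ker_πe {g : S.ev} : g ∈ S.πe.ker ↔ (g : G) = 1 ∨ (g : G) = S.z := by
  rw [MonoidHom.mem_ker, ← S.ker, Subtype.ext_iff]
  rfl

theorem card_ker_πe : Nat.card S.πe.ker = 2 := by
  rw [← S.card_ker, ← Subgroup.card_map_of_injective (f := S.ev.subtype) Subtype.coe_injective]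
  congr 2
  ext g
  rw [MonoidHom.mem_ker, S.ker]
  refine ⟨fun ⟨x, hx, e⟩ => e ▸ (S.mem_ker_πe).1 hx, ?_⟩
  rintro (rfl | rfl)
  · exact one_mem _
  · exact ⟨⟨_, S.z_mem_ev⟩, (S.mem_ker_πe).2 (.inr rfl), rfl⟩

end Sp

end CfsgLib.Spn
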