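import Mathlib
import Cfsg.Agent.Lib.Spn.SpB

/-! Package TAU: the values of the basic spin character.  See `plans/SPN.md`. -/

set_option autoImplicit false
set_option linter.unusedSectionVars false

namespace CfsgLib.Spn

open Equiv Finset Cfsg CfsgLib.SymChar CfsgLib.Char
open scoped Nat ComplexConjugate

variable {G : Type*} [Group G] [Finite G] {Ω : Type*} [Fintype Ω] [DecidableEq Ω] (S : Sp G Ω)

namespace Tau

theorem nm (a b : Module.End ℂ (Sv Ω)) : -a * b = -(a * b) := LinearMap.neg_comp b a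

theorem mn (a b : Module.End ℂ (Sv Ω)) : a * -b = -(a * b) := LinearMap.comp_neg b a

theorem tr_zero {C P : Module.End ℂ (Sv Ω)} (h1 : C * C = -1) (h2 : C * P = -(P * C)) :
    LinearMap.trace ℂ _ (C * (C * P)) = 0 ∧ LinearMap.trace ℂ _ P = 0 := by
  have e : LinearMap.trace ℂ _ (C * (P * C)) = LinearMap.trace ℂ _ (P * C * C) := LinearMap.trace_mul_comm _ _ _
  rw [← mul_assoc, h2, nm, map_neg, mul_assoc P, h1, mn, mul_one, map_neg, neg_neg] at e
  have e' : LinearMap.trace ℂ _ P = 0 := by linear_combination e / 2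
  exact ⟨by rw [← mul_assoc, h1, nm, one_mul, map_neg, e', neg_zero], e'⟩

/-- the element that detects `Γ x` -/
noncomputable def C (x : Ω) : Module.End ℂ (Sv Ω) := S.Γ (.inl x) * S.Γ (.inr 0)

theorem C_self (x : Ω) : C S x * S.Γ (.inl x) = -(S.Γ (.inl x) * C S x) := by
  rw [C, mul_assoc, S.Γ_anti (.inr 0) (.inl x) (by simp), mn]

theorem C_sq (x : Ω) : C S x * C S x = -1 := by
  conv_lhs => enter [2]; rw [C]
  rw [← mul_assoc, C_self, C, ← mul_assoc, S.Γ_sq, one_mul, nm, S.Γ_sq]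

theorem C_ne {x y : Ω} (h : x ≠ y) : C S x * S.Γ (.inl y) = S.Γ (.inl y) * C S x := by
  rw [C, mul_assoc, S.Γ_anti (.inr 0) (.inl y) (by simp), mn, ← mul_assoc,
    S.Γ_anti (.inl x) (.inl y) (by simpa using h), nm, neg_neg, mul_assoc]

theorem C_ρ {x : Ω} {h : G} (hx : S.π h x = x) : C S x * S.ρ h = S.ρ h * C S x := by
  rw [C, ← mul_assoc, S.ρ_Γ, hx, smul_mul_assoc, mul_assoc _ (S.ρ h), S.ρ_Γ', mul_smul_comm, smul_smul, ← Int.cast_mul,
    ← Units.val_mul, Int.units_mul_self, Units.val_one, Int.cast_one, one_smul, mul_assoc]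

theorem tr_one {x : Ω} {h : G} (hx : S.π h x = x) : LinearMap.trace ℂ _ (S.Γ (.inl x) * S.ρ h) = 0 :=
  (tr_zero (C_sq S x) (by rw [← mul_assoc, C_self, nm, mul_assoc, C_ρ S hx, mul_assoc])).2

theorem tr_two {x y : Ω} {h : G} (hx : S.π h x = x) (ne : x ≠ y) :
    LinearMap.trace ℂ _ (S.Γ (.inl x) * S.Γ (.inl y) * S.ρ h) = 0 :=
  (tr_zero (C_sq S x) (by
    rw [← mul_assoc, ← mul_assoc, C_self, nm, nm, mul_assoc _ (C S x), C_ne S ne, mul_assoc, mul_assoc, C_ρ S hx]
    simp only [mul_assoc])).2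

theorem one_step {x y : Ω} {h : G} (hx : S.π h x = x) (hy : S.π h y = y) (ne : x ≠ y) : S.τ (S.u x y * h) = 0 := by
  rw [Sp.τ, Representation.character, map_mul S.ρ, S.ρ_u x y ne, smul_mul_assoc, map_smul, sub_mul, map_sub, tr_one S hx,
    tr_one S hy, sub_zero, smul_zero, zero_div]

theorem two_step {x y w : Ω} {h : G} (hx : S.π h x = x) (hy : S.π h y = y) (n1 : x ≠ y) (n2 : y ≠ w) (n3 : x ≠ w) :
    S.τ (S.u x y * S.u y w * h) = -S.τ h / 2 := by
  have e : ((Real.sqrt 2 : ℝ) : ℂ)⁻¹ * ((Real.sqrt 2 : ℝ) : ℂ)⁻¹ = 2⁻¹ := by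
    rw [← mul_inv, ← Complex.ofReal_mul, Real.mul_self_sqrt (by norm_num)]
    norm_num
  rw [Sp.τ, Sp.τ, Representation.character, Representation.character, map_mul S.ρ, map_mul S.ρ, S.ρ_u x y n1, S.ρ_u y w n2,
    smul_mul_smul_comm, e, smul_mul_assoc, map_smul]
  simp only [sub_mul, mul_sub, map_sub]
  rw [tr_two S hx n1, tr_two S hx n3, tr_two S hy n2, S.Γ_sq, one_mul, smul_eq_mul]
  ring

/-- the square of the absolute value -/
noncomputable def N (g : G) : ℂ := S.τ g * conj (S.τ g)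

theorem N_congr {g h : G} (e : S.π g = S.π h) : N S g = N S h := by
  rcases S.eq_or_eq e with rfl | rfl
  · rfl
  · rw [N, N, S.τ_z_mul, map_neg, neg_mul_neg]

theorem N_cycle (k : ℕ) : ∀ c : Perm Ω, c.IsCycle → #c.support = k → ∀ σ : Perm Ω, c.Disjoint σ → ∀ g h : G,
    S.π g = c * σ → S.π h = σ → N S g = (if Odd k then 2 else 0) / 2 ^ k * N S h := by
  induction k using Nat.strong_induction_on with | _ k ih => ?_
  intro c hc hk σ hd g h hg hh
  obtain ⟨x, hx, -⟩ := id hc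
  have hy : c (c x) ≠ c x := fun e => hx (c.injective e)
  have sx : σ x = x := (hd x).resolve_left hx
  have sy : σ (c x) = c x := (hd _).resolve_left hy
  by_cases h2 : c (c x) = x
  · have e := hc.eq_swap_of_apply_apply_eq_self hx h2
    have k2 : k = 2 := by rw [← hk, e, Perm.card_support_swap hx.symm]
    rw [N_congr S (h := S.u x (c x) * h) (by rw [map_mul, S.π_u, ← e, hg, hh]), N,
      one_step S (hh ▸ sx) (hh ▸ sy) hx.symm, k2, if_neg (by decide)]
    simp
  obtain ⟨c1, e1⟩ : ∃ c1, c1 = swap x (c x) * c := ⟨_, rfl⟩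
  have h3 : c1.IsCycle := e1 ▸ hc.swap_mul hx h2
  have h4 : c1.support = c.support \ {x} := e1 ▸ Perm.support_swap_mul_eq c x h2
  have h5 : c1 (c x) = c (c x) := by rw [e1, Perm.mul_apply, swap_apply_of_ne_of_ne h2 hy]
  have h6 : c1 x = x := by rw [e1, Perm.mul_apply, swap_apply_right]
  have k1 : #c1.support + 1 = k := by
    rw [h4, ← hk, sdiff_singleton_eq_erase, card_erase_add_one (Perm.mem_support.2 hx)]
  obtain ⟨c2, e2⟩ : ∃ c2, c2 = swap (c x) (c1 (c x)) * c1 := ⟨_, rfl⟩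
  obtain ⟨g', hg'⟩ := S.surj (c2 * σ)
  have step : N S g = N S g' / 4 := by
    rw [N_congr S (h := S.u x (c x) * S.u (c x) (c (c x)) * g') (by
      rw [map_mul, map_mul, S.π_u, S.π_u, hg', e2, h5, e1, hg]
      simp only [← mul_assoc, mul_assoc _ (swap _ _) (swap _ _), swap_mul_self, mul_one, one_mul]), N, N,
      two_step S (by rw [hg', Perm.mul_apply, sx, e2, Perm.mul_apply, h6, h5, swap_apply_of_ne_of_ne hx.symm (Ne.symm h2)])
        (by rw [hg', Perm.mul_apply, sy, e2, Perm.mul_apply, swap_apply_right]) hx.symm hy.symm (Ne.symm h2)]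
    simp only [map_div₀, map_neg, map_ofNat]
    ring
  have h7 : c1 (c x) ≠ c x := h5 ▸ hy
  rw [step]
  by_cases h8 : c1 (c1 (c x)) = c x
  · have e := h3.eq_swap_of_apply_apply_eq_self h7 h8
    have k3 : k = 3 := by rw [← k1, e, Perm.card_support_swap h7.symm]
    rw [N_congr S (g := g') (h := h) (by rw [hg', hh, e2, ← e, e, swap_mul_self, one_mul]), k3, if_pos (by decide)]
    ring
  · have h9 : c2.support = c1.support \ {c x} := e2 ▸ Perm.support_swap_mul_eq c1 _ h8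
    have k2 : #c2.support + 2 = k := by
      rw [h9, ← k1, sdiff_singleton_eq_erase, ← card_erase_add_one (Perm.mem_support.2 h7)]
    rw [ih _ (by omega) c2 (e2 ▸ h3.swap_mul h7 h8) rfl σ
      (hd.mono (by rw [h9, h4]; exact sdiff_subset.trans sdiff_subset) le_rfl) g' h hg' hh, ← k2]
    simp only [Nat.odd_add, even_two, iff_true]
    ring

theorem ww_add (μ ν : Multiset ℕ) : ww (μ + ν) = ww μ * ww ν := by rw [ww, Multiset.map_add, Multiset.prod_add, ww, ww]

theorem N_eq (σ : Perm Ω) : ∀ g, S.π g = σ → N S g = ww σ.cycleType / 2 ^ #σ.support := by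
  have h1 : N S 1 = 1 := by rw [N, S.τ_one, map_one, mul_one]
  refine Perm.cycle_induction_on (fun σ => ∀ g, S.π g = σ → N S g = ww σ.cycleType / 2 ^ #σ.support) σ
    (fun g hg => ?_) (fun c hc g hg => ?_) fun c σ hd hc _ ih g hg => ?_
  · rw [N_congr S (h := 1) (by rw [hg, map_one]), h1]
    simp [ww]
  · rw [N_cycle S _ c hc rfl 1 (Perm.disjoint_one_right c) g 1 (by rw [hg, mul_one]) (map_one _), h1, hc.cycleType]
    simp [ww]
  · obtain ⟨h, hh⟩ := S.surj σ
    rw [N_cycle S _ c hc rfl σ hd g h hg hh, ih h hh, hd.cycleType_mul, hd.card_support_mul, ww_add, hc.cycleType, pow_add,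
      div_mul_div_comm]
    simp [ww]

end Tau

theorem Sp.τ_mul_conj (g : G) :
    S.τ g * conj (S.τ g) = ww (ty (S.π g)) / 2 ^ Fintype.card Ω := by
  have h := Tau.N_eq S _ g rfl
  obtain ⟨m, hm⟩ := Nat.exists_eq_add_of_le (card_le_univ (S.π g).support)
  rw [Tau.N] at h
  rw [h, ty_eq, Tau.ww_add, hm, Nat.add_sub_cancel_left, pow_add]
  have : ww (Multiset.replicate m 1) = 2 ^ m := by simp [ww]
  rw [this, mul_div_mul_right _ _ (pow_ne_zero m two_ne_zero)]

theorem Sp.odd_of_τ {g : G} (h : S.τ g ≠ 0) : ∀ k ∈ ty (S.π g), Odd k := by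
  intro k hk
  by_contra hn
  have e := S.τ_mul_conj g
  rw [ww, Multiset.prod_eq_zero (Multiset.mem_map.2 ⟨k, hk, if_neg hn⟩), zero_div, mul_eq_zero, map_eq_zero, or_self] at e
  exact h e

end CfsgLib.Spn
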