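import Mathlib
import Cfsg.Agent.Lib.Spn.Orb
import Cfsg.Agent.Lib.Spn.Str
import Cfsg.Agent.Lib.Spn.Tau

/-! Package CMP: completeness.  See `plans/SPN.md`. -/

set_option autoImplicit false
set_option linter.unusedSectionVars false

namespace CfsgLib.Spn

open Equiv Finset Cfsg CfsgLib.SymChar CfsgLib.Char
open scoped Nat ComplexConjugate

variable {G : Type*} [Group G] [Finite G] {Ω : Type*} [Fintype Ω] [DecidableEq Ω] (S : Sp G Ω)
  {δ : List ℤ → ℂ}

theorem cmp_weight_aux {N : ℕ} (α : Fin N → ℤ) (h : ∀ k, 0 ≤ ((List.ofFn α).drop k).sum) :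
    0 ≤ ∑ i : Fin N, ((i : ℕ) : ℤ) * α i ∧
      (∑ i : Fin N, ((i : ℕ) : ℤ) * α i = 0 → ∑ i, α i = 0 → α = 0) := by
  induction N with
  | zero => exact ⟨by simp, fun _ _ => Subsingleton.elim _ _⟩
  | succ N ih =>
    have h1 : ∀ k, 0 ≤ ((List.ofFn fun i : Fin N => α i.succ).drop k).sum := fun k => by
      have := h (k + 1)
      rwa [List.ofFn_succ, List.drop_succ_cons] at this
    obtain ⟨i1, i2⟩ := ih (fun i => α i.succ) h1
    have h2 : 0 ≤ ∑ i : Fin N, α i.succ := by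
      have := h1 0
      rwa [List.drop_zero, List.sum_ofFn] at this
    have h3 : ∑ i : Fin (N + 1), ((i : ℕ) : ℤ) * α i =
        ∑ i : Fin N, ((i : ℕ) : ℤ) * α i.succ + ∑ i : Fin N, α i.succ := by
      rw [Fin.sum_univ_succ, ← sum_add_distrib]
      simp only [Fin.val_zero, Nat.cast_zero, zero_mul, zero_add, Fin.val_succ, Nat.cast_add,
        Nat.cast_one]
      exact sum_congr rfl fun i _ => by ring
    refine ⟨by rw [h3]; omega, fun h4 h5 => ?_⟩
    rw [h3] at h4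
    have h6 := i2 (by omega) (by omega)
    rw [Fin.sum_univ_succ] at h5
    funext i
    refine Fin.cases ?_ (fun j => congrFun h6 j) i
    change α 0 = 0
    omega

theorem Vac.weight_nonneg (hδ : Vac δ) {N : ℕ} {α : Fin N → ℤ} (h : δ (List.ofFn α) ≠ 0)
    (h0 : α ≠ 0) : 0 < ∑ i : Fin N, ((i : ℕ) : ℤ) * α i := by
  obtain ⟨h1, h2⟩ := cmp_weight_aux α fun k => by
    by_contra hk
    refine h ?_
    rw [← List.take_append_drop k (List.ofFn α)]
    exact hδ.cov.eq_zero_of_sum_neg _ (not_le.1 hk)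
  refine lt_of_le_of_ne h1 fun h3 => h0 (h2 h3.symm ?_)
  rw [← List.sum_ofFn]
  exact hδ.sum_eq_zero h

theorem cmp_eq_one_of_fib_eq {N : ℕ} (f₀ : Ω ↪ Fin N) {f : Ω → Fin N} (hf : fib f = fib f₀)
    {σ : Perm Ω} (hσ : f ∘ σ = f) : σ = 1 := by
  refine Perm.ext fun ω => ?_
  have h4 := congrFun hf (f ω)
  rw [fib_apply, fib_apply, Nat.cast_inj] at h4
  have h5 : #{ω' | f₀ ω' = f ω} ≤ 1 := card_le_one.2 fun a ha b hb =>
    f₀.injective ((mem_filter.1 ha).2.trans (mem_filter.1 hb).2.symm)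
  rw [← h4] at h5
  exact card_le_one.1 h5 _ (mem_filter.2 ⟨mem_univ _, congrFun hσ ω⟩) _ (by simp)

theorem Vac.cmp_exists_sum_ne_zero (hδ : Vac δ) {N : ℕ} {A : Type*} [Fintype A] (φ₀ : A → Fin N → ℤ)
    (d : A → ℂ) {γ₀ : Fin N → ℤ} (h : ∑ a with φ₀ a = γ₀, d a ≠ 0) :
    ∃ α : Fin N → ℤ, ∑ a, d a * δ (List.ofFn (α - φ₀ a)) ≠ 0 := by
  classical
  set s : Finset (Fin N → ℤ) := {γ ∈ univ.image φ₀ | ∑ a with φ₀ a = γ, d a ≠ 0} with hs
  have hne : s.Nonempty := by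
    obtain ⟨a, ha, -⟩ := exists_ne_zero_of_sum_ne_zero h
    exact ⟨γ₀, mem_filter.2 ⟨mem_image.2 ⟨a, mem_univ _, (mem_filter.1 ha).2⟩, h⟩⟩
  obtain ⟨γ, hγ, hmin⟩ := exists_min_image s (fun γ => ∑ i : Fin N, ((i : ℕ) : ℤ) * γ i) hne
  refine ⟨γ, ?_⟩
  have h1 : ∑ a, d a * δ (List.ofFn (γ - φ₀ a)) = ∑ γ' ∈ univ.image φ₀,
      (∑ a with φ₀ a = γ', d a) * δ (List.ofFn (γ - γ')) := by
    rw [← sum_fiberwise_of_maps_to (s := univ) (t := univ.image φ₀) (g := φ₀)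
      fun a _ => mem_image_of_mem _ (mem_univ a)]
    refine sum_congr rfl fun γ' _ => ?_
    rw [sum_mul]
    exact sum_congr rfl fun a ha => by rw [(mem_filter.1 ha).2]
  rw [h1, sum_eq_single γ (fun γ' h2 h3 => ?_) fun h2 => absurd (mem_filter.1 hγ).1 h2]
  · rw [sub_self, show List.ofFn (0 : Fin N → ℤ) = List.replicate N 0 from List.ofFn_const N 0,
      hδ.replicate_zero, mul_one]
    exact (mem_filter.1 hγ).2
  · by_contra h4
    have h5 := hδ.weight_nonneg (right_ne_zero_of_mul h4) (sub_ne_zero.2 h3.symm)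
    have h6 := hmin γ' (mem_filter.2 ⟨h2, left_ne_zero_of_mul h4⟩)
    simp only [Pi.sub_apply, mul_sub, sum_sub_distrib] at h5
    omega

theorem Sp.exists_inner_ne_zero [Fintype G] (hδ : Vac δ) {Θ : G → ℂ} (h1 : Θ 1 ≠ 0)
    (hz : Θ S.z = -Θ 1) :
    ∃ l, Str l ∧ l.sum = Fintype.card Ω ∧ classInner (S.Y δ l) Θ ≠ 0 := by
  classical
  set c : G → ℂ := fun g => (Nat.card G : ℂ)⁻¹ * (S.τ g * conj (Θ g)) with hc
  have hΦ : ∀ l, classInner (S.Y δ l) Θ = ∑ g, c g * X δ (ty (S.π g)) l := fun l => by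
    rw [classInner, mul_sum]
    exact sum_congr rfl fun g _ => by simp only [hc, Sp.Y]; ring
  have hcov : Cov fun l => ∑ g, c g * X δ (ty (S.π g)) l :=
    Cov.sum univ c (fun g => X δ (ty (S.π g))) fun g _ hg =>
      hδ.cov.X (S.odd_of_τ (left_ne_zero_of_mul (right_ne_zero_of_mul hg)))
  obtain ⟨f₀⟩ : Nonempty (Ω ↪ Fin (Fintype.card Ω)) :=
    Function.Embedding.nonempty_of_card_le (by simp)
  set d : (Ω → Fin (Fintype.card Ω)) → ℂ := fun f => ∑ g with f ∘ S.π g = f, c g with hd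
  have hm : ∑ f with fib f = fib f₀, d f ≠ 0 := by
    have h2 : ∀ f ∈ ({f | fib f = fib f₀} : Finset (Ω → Fin (Fintype.card Ω))),
        d f = (Nat.card G : ℂ)⁻¹ * (2 * conj (Θ 1)) := fun f hf => by
      have h3 : ({g | f ∘ S.π g = f} : Finset G) = {1, S.z} := by
        ext g
        simp only [mem_filter, mem_univ, true_and, mem_insert, mem_singleton, ← S.ker]
        exact ⟨cmp_eq_one_of_fib_eq f₀ (mem_filter.1 hf).2, fun h => by rw [h]; rfl⟩
      have h4 : S.τ S.z = -1 := by rw [← mul_one S.z, S.τ_z_mul, S.τ_one]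
      simp only [hd, h3, sum_pair S.z_ne_one.symm, hc, S.τ_one, h4, hz, map_neg]
      ring
    rw [sum_congr rfl h2, sum_const, nsmul_eq_mul]
    refine mul_ne_zero ?_ (mul_ne_zero ?_ (mul_ne_zero two_ne_zero (by simpa using h1)))
    · exact_mod_cast card_ne_zero.2 ⟨⇑f₀, by simp⟩
    · exact inv_ne_zero (by exact_mod_cast Nat.card_pos.ne')
  obtain ⟨α, hα⟩ := hδ.cmp_exists_sum_ne_zero fib d hm
  have h5 : ∑ g, c g * X δ (ty (S.π g)) (List.ofFn α) ≠ 0 := by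
    convert hα using 1
    simp only [X_ty, hd, mul_sum, sum_mul, sum_filter]
    rw [sum_comm]
    refine sum_congr rfl fun f _ => sum_congr rfl fun g _ => ?_
    split_ifs <;> simp
  obtain ⟨l, hl, h6, -⟩ := hcov.str h5
  refine ⟨l, hl, ?_, by rwa [hΦ]⟩
  obtain ⟨g, -, hg⟩ := exists_ne_zero_of_sum_ne_zero h6
  rw [hδ.X_sum (right_ne_zero_of_mul hg), ty_sum]

end CfsgLib.Spn
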