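import Mathlib
import Cfsg.Agent.Lib.Spn.Str

/-! Package DEG: Schur's degree formula.  See `plans/SPN.md`. -/

set_option autoImplicit false
set_option linter.unusedSectionVars false

namespace CfsgLib.Spn

open Equiv Finset Cfsg CfsgLib.SymChar CfsgLib.Char
open scoped Nat ComplexConjugate

variable {F δ : List ℤ → ℂ} {l l' : List ℤ}

namespace Deg

theorem zero_of_mem (hF : Cov F) {a : ℤ} {v : List ℤ} (h1 : a ∈ v) (h2 : ∀ b ∈ v, a + b ≠ 0) (u : List ℤ) :
    F (u ++ a :: v) = 0 := by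
  induction v generalizing u with
  | nil => simp at h1
  | cons b v ih =>
    have e := hF.swap u (h2 b List.mem_cons_self) v
    rcases List.mem_cons.1 h1 with rfl | h3
    · linear_combination e / 2
    · have := ih h3 (fun c hc => h2 c (List.mem_cons_of_mem _ hc)) (u ++ [b])
      rw [List.append_assoc, List.singleton_append] at this
      rw [e, this, neg_zero]

theorem zero_of_dup (hF : Cov F) (h1 : l.Pairwise fun a b => a + b ≠ 0) (h2 : ¬ l.Nodup) : F l = 0 := by
  induction l generalizing F with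
  | nil => simp at h2
  | cons a l ih =>
    rw [List.pairwise_cons] at h1
    by_cases h3 : a ∈ l
    · exact zero_of_mem hF h3 h1.1 []
    · exact ih (hF.pre [a]) h1.2 fun k => h2 (List.nodup_cons.2 ⟨h3, k⟩)

/-- product over pairs -/
noncomputable def PP {N : ℕ} (f : Fin N → Fin N → ℂ) : ℂ := ∏ i, ∏ j ∈ Ioi i, f i j

theorem PP_mul {N : ℕ} (f g : Fin N → Fin N → ℂ) : PP f * PP g = PP fun i j => f i j * g i j := by
  simp only [PP, prod_mul_distrib]

theorem PP_congr {N : ℕ} {f g : Fin N → Fin N → ℂ} (h : ∀ i j, i < j → f i j = g i j) : PP f = PP g :=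
  prod_congr rfl fun i _ => prod_congr rfl fun j hj => h i j (mem_Ioi.1 hj)

theorem PP_ne_zero {N : ℕ} {f : Fin N → Fin N → ℂ} (h : ∀ i j, i < j → f i j ≠ 0) : PP f ≠ 0 :=
  prod_ne_zero_iff.2 fun i _ => prod_ne_zero_iff.2 fun j hj => h i j (mem_Ioi.1 hj)

theorem PP_last {N : ℕ} (f : Fin (N + 1) → Fin (N + 1) → ℂ) :
    PP f = PP (fun i j => f i.castSucc j.castSucc) * ∏ i : Fin N, f i.castSucc (Fin.last N) := by
  simp only [PP, ← filter_lt_eq_Ioi, prod_filter, Fin.prod_univ_castSucc, Fin.castSucc_lt_castSucc_iff,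
    Fin.castSucc_lt_last, if_true, lt_self_iff_false, if_false, (Fin.castSucc_lt_last _).not_gt,
    prod_const_one, mul_one, prod_mul_distrib]

theorem prod_erase_eq {N : ℕ} (c : Fin N) (g : Fin N → ℂ) : ∏ j ∈ univ.erase c, g j =
    PP fun i j => (if i = c then g j else 1) * if j = c then g i else 1 := by
  rw [← PP_mul]
  have e1 : (PP fun i j => if i = c then g j else 1) = ∏ j ∈ Ioi c, g j := by
    rw [PP, prod_eq_single c (fun i _ hi => by simp [hi]) (by simp)]; simp
  have e2 : (PP fun i j => if j = c then g i else 1) = ∏ j ∈ Iio c, g j := by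
    simp only [PP, prod_ite_eq', mem_Ioi, ← prod_filter, filter_gt_eq_Iio]
  rw [e1, e2, ← prod_union (disjoint_left.2 fun a h1 h2 => lt_asymm (mem_Ioi.1 h1) (mem_Iio.1 h2))]
  congr 1; ext a; simp [lt_or_lt_iff_ne, eq_comm]

theorem ratio {N : ℕ} (x y : Fin N → ℂ) (c : Fin N) (hy : ∀ i, y i = x i - if i = c then 1 else 0) :
    PP (fun i j => y i - y j) * PP (fun i j => x i + x j) *
        ∏ j ∈ univ.erase c, (x c * (x c - 1) - x j * (x j - 1)) =
      PP (fun i j => x i - x j) * PP (fun i j => y i + y j) *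
        ∏ j ∈ univ.erase c, (x c * (x c - 1) - x j * (x j + 1)) := by
  rw [prod_erase_eq, prod_erase_eq, PP_mul, PP_mul, PP_mul, PP_mul]
  refine PP_congr fun i j hij => ?_
  rw [hy, hy]
  by_cases hi : i = c
  · subst hi
    simp only [if_true, if_neg hij.ne']; ring
  · by_cases hj : j = c
    · subst hj
      simp only [if_true, if_neg hi]; ring
    · simp only [if_neg hi, if_neg hj]; ring

open Polynomial in
theorem ident {N : ℕ} (hN : 0 < N) (x : Fin N → ℂ) (h : Function.Injective fun i => x i * (x i - 1)) :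
    ∑ c, x c * ((∏ j ∈ univ.erase c, (x c * (x c - 1) - x j * (x j + 1))) /
      ∏ j ∈ univ.erase c, (x c * (x c - 1) - x j * (x j - 1))) = ∑ c, x c := by
  have h1 := Lagrange.coeff_eq_sum (s := univ) h.injOn
    (P := Lagrange.nodal univ (fun i => x i * (x i + 1)) - Lagrange.nodal univ fun i => x i * (x i - 1)) (by
      rw [← Lagrange.degree_nodal (v := fun i => x i * (x i + 1))]
      exact degree_sub_lt_left (by rw [Lagrange.degree_nodal, Lagrange.degree_nodal]) Lagrange.nodal_ne_zero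
        (by rw [Lagrange.nodal_monic.leadingCoeff, Lagrange.nodal_monic.leadingCoeff]))
  have hc : 0 < (univ : Finset (Fin N)).card := by simpa using hN
  rw [coeff_sub, Lagrange.nodal_eq, Lagrange.nodal_eq, prod_X_sub_C_coeff_card_pred _ _ hc,
    prod_X_sub_C_coeff_card_pred _ _ hc] at h1
  have h2 : ∀ c, eval (x c * (x c - 1)) (∏ i, (Polynomial.X - C (x i * (x i + 1))) -
      ∏ i, (Polynomial.X - C (x i * (x i - 1)))) =
      -2 * x c * ∏ j ∈ univ.erase c, (x c * (x c - 1) - x j * (x j + 1)) := fun c => by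
    simp only [eval_sub, eval_prod, eval_X, eval_C]
    rw [prod_eq_zero (mem_univ c) (f := fun i => x c * (x c - 1) - x i * (x i - 1)) (sub_self _),
      ← mul_prod_erase _ _ (mem_univ c)]
    ring
  simp only [h2] at h1
  refine mul_left_cancel₀ (show (-2 : ℂ) ≠ 0 by norm_num) ?_
  rw [mul_sum, mul_sum]
  calc _ = _ := sum_congr rfl fun c _ => by ring
    _ = _ := h1.symm
    _ = _ := by
      rw [neg_sub_neg, ← sum_sub_distrib]
      exact sum_congr rfl fun c _ => by ring

/-- the degree formula -/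
def Fm (δ : List ℤ → ℂ) (n : ℕ) {N : ℕ} (β : Fin N → ℤ) : Prop :=
  X δ (Multiset.replicate n 1) (List.ofFn β) *
      ((∏ i, ((β i).toNat ! : ℂ)) * PP fun i j => (β i + β j : ℂ)) = n ! * PP fun i j => (β i - β j : ℂ)

theorem cov (hδ : Vac δ) (n : ℕ) : Cov (X δ (Multiset.replicate n 1)) :=
  hδ.cov.X fun k hk => by rw [Multiset.eq_of_mem_replicate hk]; exact odd_one

theorem weak (hδ : Vac δ) {n : ℕ}
    (ih : ∀ {N : ℕ} {β : Fin N → ℤ}, StrictAnti β → (∀ i, 0 < β i) → ∑ i, β i = n → Fm δ n β)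
    {N : ℕ} {γ : Fin N → ℤ} (h1 : Antitone γ) (h2 : ∀ i, 0 ≤ γ i) (h3 : ∀ i j, i < j → γ i + γ j ≠ 0)
    (hn : ∑ i, γ i = n) : Fm δ n γ := by
  by_cases hi : Function.Injective γ
  swap
  · obtain ⟨i, j, e, hij⟩ := Function.not_injective_iff.1 hi
    have : PP (fun i j => (γ i - γ j : ℂ)) = 0 := by
      rcases lt_or_gt_of_ne hij with k | k
      · exact prod_eq_zero (mem_univ i) (prod_eq_zero (mem_Ioi.2 k) (by simp [e]))
      · exact prod_eq_zero (mem_univ j) (prod_eq_zero (mem_Ioi.2 k) (by simp [e]))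
    rw [Fm, this, zero_of_dup (cov hδ n) (List.pairwise_ofFn.2 fun i j k => h3 i j k)
      fun k => hi (List.nodup_ofFn.1 k), zero_mul, mul_zero]
  have h4 := h1.strictAnti_of_injective hi
  by_cases h5 : ∀ i, 0 < γ i
  · exact ih h4 h5 hn
  obtain ⟨i, h6⟩ := not_forall.1 h5
  obtain ⟨N, rfl⟩ : ∃ M, N = M + 1 := ⟨N - 1, by have := i.2; omega⟩
  have h7 : γ (Fin.last N) = 0 := le_antisymm ((h1 (Fin.le_last i)).trans (not_lt.1 h6)) (h2 _)
  have h8 := ih (β := fun i : Fin N => γ i.castSucc) (fun a b k => h4 (Fin.castSucc_lt_castSucc_iff.2 k))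
    (fun a => h7 ▸ h4 (Fin.castSucc_lt_last a)) (by rw [← hn, Fin.sum_univ_castSucc, h7, add_zero])
  rw [Fm] at h8 ⊢
  rw [List.ofFn_succ_last, h7, (cov hδ n).zero, PP_last, PP_last fun i j => (γ i - γ j : ℂ),
    Fin.prod_univ_castSucc, h7]
  simp only [Int.cast_zero, add_zero, sub_zero, Int.toNat_zero, Nat.factorial_zero, Nat.cast_one, mul_one]
  linear_combination (∏ i : Fin N, (γ i.castSucc : ℂ)) * h8

theorem main (hδ : Vac δ) (n : ℕ) : ∀ {N : ℕ} {β : Fin N → ℤ}, StrictAnti β → (∀ i, 0 < β i) →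
    ∑ i, β i = n → Fm δ n β := by
  induction n with
  | zero =>
    intro N β _ h0 hn
    rcases N with _ | N
    · simp [Fm, PP, hδ.nil]
    · exact absurd hn (sum_pos (fun i _ => h0 i) univ_nonempty).ne'
  | succ n ih =>
    intro N β h h0 hn
    have hN : 0 < N := Nat.pos_of_ne_zero (by rintro rfl; simp at hn; omega)
    have hinj : Function.Injective fun i => (β i : ℂ) * (β i - 1) := fun i j e => by
      have e1 : (β i - β j) * (β i + β j - 1) = 0 := by
        have : ((β i - β j) * (β i + β j - 1) : ℂ) = 0 := by linear_combination e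
        exact_mod_cast this
      have := h0 i; have := h0 j
      exact h.injective (sub_eq_zero.1 ((mul_eq_zero.1 e1).resolve_right (by omega)))
    have key : ∀ c, X δ (Multiset.replicate n 1) (List.ofFn (β - ee c 1)) *
        ((∏ i, ((β i).toNat ! : ℂ)) * PP fun i j => (β i + β j : ℂ)) =
        n ! * PP (fun i j => (β i - β j : ℂ)) * (β c *
          ((∏ j ∈ univ.erase c, ((β c : ℂ) * (β c - 1) - β j * (β j + 1))) /
            ∏ j ∈ univ.erase c, ((β c : ℂ) * (β c - 1) - β j * (β j - 1)))) := fun c => by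
      have b1 : ∀ i, β i - 1 ≤ (β - ee c 1) i ∧ (β - ee c 1) i ≤ β i := fun i => by
        rw [Pi.sub_apply, ee_apply]; split_ifs <;> omega
      have b2 : ∀ i j, i < j → (β - ee c 1) i + (β - ee c 1) j ≠ 0 := fun i j k => by
        have := b1 i; have := b1 j; have := h k; have := h0 j; omega
      have h1 := weak hδ ih (γ := β - ee c 1) (antitone_iff_forall_lt.2 fun i j k => by
          have := b1 i; have := b1 j; have := h k; omega)
        (fun i => by have := b1 i; have := h0 i; omega) b2 (by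
          simp only [Pi.sub_apply, sum_sub_distrib, hn, ee_apply, sum_ite_eq', mem_univ, if_true]
          push_cast; ring)
      have h2 := ratio (fun i => (β i : ℂ)) (fun i => ((β - ee c 1) i : ℂ)) c fun i => by
        rw [Pi.sub_apply, ee_apply]; split_ifs <;> simp
      have h3 : ∏ i, ((β i).toNat ! : ℂ) = β c * ∏ i, (((β - ee c 1) i).toNat ! : ℂ) := by
        rw [← mul_prod_erase _ _ (mem_univ c), ← mul_prod_erase _ _ (mem_univ c), ← mul_assoc]
        congr 1
        · obtain ⟨m, hm⟩ : ∃ m : ℕ, β c = m + 1 := ⟨(β c - 1).toNat, by have := h0 c; omega⟩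
          rw [Pi.sub_apply, ee_self, hm, add_sub_cancel_right, Int.toNat_natCast, Int.toNat_natCast_add_one,
            Nat.factorial_succ]
          push_cast; ring
        · exact prod_congr rfl fun j hj => by rw [Pi.sub_apply, ee_apply, if_neg (mem_erase.1 hj).1, sub_zero]
      have h4 : PP (fun i j => (((β - ee c 1) i : ℤ) + ((β - ee c 1) j : ℤ) : ℂ)) ≠ 0 :=
        PP_ne_zero fun i j k => by exact_mod_cast b2 i j k
      have h5 : ∏ j ∈ univ.erase c, ((β c : ℂ) * (β c - 1) - β j * (β j - 1)) ≠ 0 :=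
        prod_ne_zero_iff.2 fun j hj e => (mem_erase.1 hj).1 (hinj (sub_eq_zero.1 e)).symm
      rw [Fm] at h1
      rw [h3, ← mul_div_assoc, ← mul_div_assoc, eq_div_iff h5]
      refine mul_right_cancel₀ h4 ?_
      linear_combination ((β c : ℂ) * PP (fun i j => (β i + β j : ℂ)) *
        ∏ j ∈ univ.erase c, ((β c : ℂ) * (β c - 1) - β j * (β j - 1))) * h1 + (β c : ℂ) * n ! * h2
    rw [Fm, Multiset.replicate_succ, X_cons, T_ofFn, sum_mul, Nat.cast_one, sum_congr rfl fun c _ => key c,
      ← mul_sum, ident hN _ hinj, ← Int.cast_sum, hn, Nat.factorial_succ]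
    push_cast; ring

end Deg

theorem Vac.deg (hδ : Vac δ) {n N : ℕ} {β : Fin N → ℤ} (h : StrictAnti β) (h0 : ∀ i, 0 < β i)
    (hn : ∑ i, β i = n) :
    X δ (Multiset.replicate n 1) (List.ofFn β) *
        ((∏ i, ((β i).toNat ! : ℂ)) * ∏ i, ∏ j ∈ Ioi i, (β i + β j : ℂ)) =
      n ! * ∏ i, ∏ j ∈ Ioi i, (β i - β j : ℂ) := by
  exact Deg.main hδ n h h0 hn

end CfsgLib.Spn
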