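import Mathlib
import Cfsg.Agent.Lib.Spn.Defs

/-! Package FOCK: neutral fermions exist.  See `plans/SPN.md`. -/

set_option autoImplicit false
set_option linter.unusedSectionVars false

namespace CfsgLib.Spn

open Equiv Finset Cfsg CfsgLib.SymChar CfsgLib.Char
open scoped Nat ComplexConjugate

namespace Fock

/-- The Fock space. -/
abbrev Lam : Type := CliffordAlgebra (0 : QuadraticForm ℤ (ℤ →₀ ℤ))

/-- The creation operators. -/
noncomputable def cr (m : ℤ) : Module.End ℤ Lam :=
  LinearMap.mulLeft ℤ (CliffordAlgebra.ι (0 : QuadraticForm ℤ (ℤ →₀ ℤ)) (Finsupp.single m 1))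

/-- The annihilation operators. -/
noncomputable def an (m : ℤ) : Module.End ℤ Lam :=
  CliffordAlgebra.contractLeft (Q := (0 : QuadraticForm ℤ (ℤ →₀ ℤ))) (Finsupp.lapply m)

/-- The parity operator. -/
noncomputable def par : Module.End ℤ Lam :=
  (CliffordAlgebra.involute (Q := (0 : QuadraticForm ℤ (ℤ →₀ ℤ)))).toLinearMap

theorem cr_apply (m : ℤ) (x : Lam) :
    cr m x = CliffordAlgebra.ι (0 : QuadraticForm ℤ (ℤ →₀ ℤ)) (Finsupp.single m 1) * x := rfl

theorem an_apply (m : ℤ) (x : Lam) :
    an m x = CliffordAlgebra.contractLeft (Q := (0 : QuadraticForm ℤ (ℤ →₀ ℤ)))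
      (Finsupp.lapply m) x := rfl

theorem par_apply (x : Lam) : par x = CliffordAlgebra.involute x := rfl

theorem cr_cr (a b : ℤ) : cr a * cr b + cr b * cr a = 0 := by
  refine LinearMap.ext fun x => ?_
  simp only [LinearMap.add_apply, Module.End.mul_apply, cr_apply, LinearMap.zero_apply]
  rw [← mul_assoc, ← mul_assoc, ← add_mul, CliffordAlgebra.ι_mul_ι_add_swap]
  simp [QuadraticMap.polar]

theorem an_an (a b : ℤ) : an a * an b + an b * an a = 0 := by
  refine LinearMap.ext fun x => ?_
  simp only [LinearMap.add_apply, Module.End.mul_apply, an_apply, LinearMap.zero_apply]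
  rw [CliffordAlgebra.contractLeft_comm]
  exact neg_add_cancel _

theorem cr_an (a b : ℤ) : cr a * an b + an b * cr a = if a = b then 1 else 0 := by
  refine LinearMap.ext fun x => ?_
  simp only [LinearMap.add_apply, Module.End.mul_apply, an_apply, cr_apply]
  rw [CliffordAlgebra.contractLeft_ι_mul]
  split_ifs with h
  · subst h
    simp
  · simp [Finsupp.single_apply, h]

theorem par_par : par * par = 1 := by
  refine LinearMap.ext fun x => ?_
  simp only [Module.End.mul_apply, par_apply, CliffordAlgebra.involute_involute,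
    Module.End.one_apply]

theorem cr_par (a : ℤ) : cr a * par + par * cr a = 0 := by
  refine LinearMap.ext fun x => ?_
  simp only [LinearMap.add_apply, Module.End.mul_apply, par_apply, cr_apply, map_mul,
    CliffordAlgebra.involute_ι, LinearMap.zero_apply]
  simp

theorem contract_involute (d : Module.Dual ℤ (ℤ →₀ ℤ)) (x : Lam) :
    CliffordAlgebra.contractLeft (Q := (0 : QuadraticForm ℤ (ℤ →₀ ℤ))) d
        (CliffordAlgebra.involute x) =
      -CliffordAlgebra.involute
        (CliffordAlgebra.contractLeft (Q := (0 : QuadraticForm ℤ (ℤ →₀ ℤ))) d x) := by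
  induction x using CliffordAlgebra.left_induction with
  | algebraMap r =>
    rw [AlgHom.commutes, CliffordAlgebra.contractLeft_algebraMap, map_zero, neg_zero]
  | add x y hx hy => simp only [map_add, hx, hy, neg_add]
  | ι_mul x m hx =>
    rw [map_mul, CliffordAlgebra.involute_ι, neg_mul, map_neg,
      CliffordAlgebra.contractLeft_ι_mul, CliffordAlgebra.contractLeft_ι_mul, hx, map_sub,
      map_smul, map_mul, CliffordAlgebra.involute_ι]
    simp

theorem an_par (a : ℤ) : an a * par + par * an a = 0 := by
  refine LinearMap.ext fun x => ?_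
  simp only [LinearMap.add_apply, Module.End.mul_apply, par_apply, an_apply,
    LinearMap.zero_apply]
  rw [contract_involute]
  exact neg_add_cancel _

/-- The neutral fermions. -/
noncomputable def ff (m : ℤ) : Module.End ℤ Lam :=
  if 0 < m then (2 : ℤ) • cr m else if m = 0 then par else ((m.negOnePow : ℤˣ) : ℤ) • an (-m)

theorem ff_pos {m : ℤ} (h : 0 < m) : ff m = (2 : ℤ) • cr m := if_pos h

theorem ff_zero : ff 0 = par := by simp [ff]

theorem ff_neg {m : ℤ} (h : m < 0) : ff m = ((m.negOnePow : ℤˣ) : ℤ) • an (-m) := by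
  rw [ff, if_neg (by omega), if_neg (by omega)]

theorem smul_anti (r s : ℤ) (x y : Module.End ℤ Lam) :
    (r • x) * (s • y) + (s • y) * (r • x) = (r * s) • (x * y + y * x) := by
  simp only [smul_mul_smul_comm, smul_add, mul_comm s r]

theorem ff_anti (a b : ℤ) :
    ff a * ff b + ff b * ff a =
      (if a + b = 0 then 2 * ((a.negOnePow : ℤˣ) : ℤ) else 0 : ℤ) • (1 : Module.End ℤ Lam) := by
  have key : ∀ a b : ℤ, b ≤ a → ff a * ff b + ff b * ff a =
      (if a + b = 0 then 2 * ((a.negOnePow : ℤˣ) : ℤ) else 0 : ℤ) • (1 : Module.End ℤ Lam) := by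
    intro a b hab
    rcases lt_trichotomy a 0 with ha | rfl | ha
    · rw [ff_neg ha, ff_neg (by omega : b < 0), smul_anti, an_an, smul_zero, if_neg (by omega),
        zero_smul]
    · rcases hab.lt_or_eq with hb | rfl
      · rw [ff_zero, ff_neg hb, ← one_smul ℤ par, smul_anti, add_comm, an_par, smul_zero,
          if_neg (by omega), zero_smul]
      · rw [ff_zero, par_par, if_pos (by simp)]
        simp [two_smul]
    · rcases lt_trichotomy b 0 with hb | rfl | hb
      · rw [ff_pos ha, ff_neg hb, smul_anti, cr_an]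
        by_cases h : a + b = 0
        · have hb' : b = -a := by omega
          rw [if_pos (by omega), if_pos h, hb', Int.negOnePow_neg]
        · rw [if_neg (by omega), if_neg h, smul_zero, zero_smul]
      · rw [ff_pos ha, ff_zero, ← one_smul ℤ par, smul_anti, cr_par, smul_zero,
          if_neg (by omega), zero_smul]
      · rw [ff_pos ha, ff_pos hb, smul_anti, cr_cr, smul_zero, if_neg (by omega), zero_smul]
  rcases le_total b a with h | h
  · exact key a b h
  · rw [add_comm, key b a h]
    by_cases h0 : a + b = 0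
    · have hb' : b = -a := by omega
      rw [if_pos (by omega), if_pos h0, hb', Int.negOnePow_neg]
    · rw [if_neg (by omega), if_neg h0]

/-- The augmentation. -/
noncomputable def aug : Lam →ₐ[ℤ] ℤ :=
  CliffordAlgebra.lift (0 : QuadraticForm ℤ (ℤ →₀ ℤ)) ⟨0, fun m => by simp⟩

theorem aug_ι (m : ℤ →₀ ℤ) : aug (CliffordAlgebra.ι _ m) = 0 := by
  simp [aug]

theorem aug_involute (x : Lam) : aug (CliffordAlgebra.involute x) = aug x := by
  have h : aug.comp CliffordAlgebra.involute = aug := by
    refine CliffordAlgebra.hom_ext ?_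
    refine LinearMap.ext fun m => ?_
    simp [aug_ι]
  exact AlgHom.congr_fun h x

/-- The operator attached to a word. -/
noncomputable def op (l : List ℤ) : Module.End ℤ Lam := (l.map ff).prod

theorem op_nil : op [] = 1 := rfl

theorem op_cons (a : ℤ) (l : List ℤ) : op (a :: l) = ff a * op l := by simp [op]

theorem op_append (u v : List ℤ) : op (u ++ v) = op u * op v := by simp [op]

/-- The integral vacuum expectation value. -/
noncomputable def dz (l : List ℤ) : ℤ := aug (op l 1)

theorem dz_anti (u : List ℤ) (a b : ℤ) (v : List ℤ) :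
    dz (u ++ a :: b :: v) + dz (u ++ b :: a :: v) =
      (if a + b = 0 then 2 * ((a.negOnePow : ℤˣ) : ℤ) else 0 : ℤ) * dz (u ++ v) := by
  have h : op (u ++ a :: b :: v) + op (u ++ b :: a :: v) =
      (if a + b = 0 then 2 * ((a.negOnePow : ℤˣ) : ℤ) else 0 : ℤ) • op (u ++ v) := by
    simp only [op_append, op_cons]
    rw [← mul_add, ← mul_assoc (ff a), ← mul_assoc (ff b), ← add_mul, ff_anti, smul_mul_assoc,
      one_mul, mul_smul_comm]
  unfold dz
  rw [← map_add, ← LinearMap.add_apply, h, LinearMap.smul_apply, map_smul, smul_eq_mul]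

theorem op_int (l : List ℤ) : ∃ y : Module.End ℤ Lam,
    op l = ((2 : ℤ) ^ (l.countP fun a => decide (0 < a))) • y := by
  induction l with
  | nil => exact ⟨1, by simp [op_nil]⟩
  | cons a l ih =>
    obtain ⟨y, hy⟩ := ih
    by_cases ha : 0 < a
    · refine ⟨cr a * y, ?_⟩
      rw [op_cons, hy, ff_pos ha, smul_mul_smul_comm, List.countP_cons_of_pos (by simpa using ha),
        pow_succ']
    · refine ⟨ff a * y, ?_⟩
      rw [op_cons, hy, mul_smul_comm, List.countP_cons_of_neg (by simpa using ha)]

end Fock

open Fock in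
theorem exists_vac : ∃ δ : List ℤ → ℂ, Vac δ := by
  refine ⟨fun l => (dz l : ℂ), ⟨?_, ?_, ?_⟩, ?_, ?_, ?_, ?_⟩
  · intro u a b v
    rw [← Int.cast_add, dz_anti]
    split_ifs with h
    · rw [Int.cast_mul, Int.cast_mul, Int.cast_negOnePow]
      norm_num
    · simp
  · intro u a ha
    have h : dz (u ++ [a]) = 0 := by
      unfold dz
      rw [op_append, op_cons, op_nil, mul_one, Module.End.mul_apply, ff_neg ha,
        LinearMap.smul_apply, an_apply, CliffordAlgebra.contractLeft_one, smul_zero, map_zero,
        map_zero]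
    simp [h]
  · intro u
    have h : dz (u ++ [0]) = dz u := by
      unfold dz
      rw [op_append, op_cons, op_nil, mul_one, Module.End.mul_apply, ff_zero, par_apply, map_one]
    simp [h]
  · intro a v ha
    have h : dz (a :: v) = 0 := by
      unfold dz
      rw [op_cons, Module.End.mul_apply, ff_pos ha, LinearMap.smul_apply, cr_apply, map_smul,
        map_mul, aug_ι, zero_mul, smul_zero]
    simp [h]
  · intro v
    have h : dz (0 :: v) = dz v := by
      unfold dz
      rw [op_cons, Module.End.mul_apply, ff_zero, par_apply, aug_involute]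
    simp [h]
  · have h : dz [] = 1 := by
      unfold dz
      rw [op_nil, Module.End.one_apply, map_one]
    simp [h]
  · intro l
    obtain ⟨y, hy⟩ := op_int l
    refine ⟨aug (y 1), ?_⟩
    have h : dz l = 2 ^ (l.countP fun a => decide (0 < a)) * aug (y 1) := by
      unfold dz
      rw [hy, LinearMap.smul_apply, map_smul, smul_eq_mul]
    simp [h]

end CfsgLib.Spn
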