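import Mathlib
import Cfsg.Agent.Lib.Spn.SpB
import Cfsg.Agent.Lib.Char.Square

/-! Package HALF: halving the Clifford representation.  See `plans/SPN.md`. -/

set_option autoImplicit false
set_option linter.unusedSectionVars false

namespace CfsgLib.Spn

open Equiv Finset Cfsg CfsgLib.SymChar CfsgLib.Char
open scoped Nat ComplexConjugate

variable {G : Type*} [Group G] [Finite G] {Ω : Type*} [Fintype Ω] [DecidableEq Ω] (S : Sp G Ω)

theorem half_trace_zero {V : Type*} [AddCommGroup V] [Module ℂ V] [FiniteDimensional ℂ V]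
    {x c : Module.End ℂ V} (hc : c * c = 1) (h : x * c = -(c * x)) :
    LinearMap.trace ℂ V x = 0 := by
  have h1 : LinearMap.trace ℂ V x = -LinearMap.trace ℂ V x := by
    conv_lhs => rw [← mul_one x, ← hc, ← mul_assoc, LinearMap.trace_mul_comm, h, mul_neg,
      ← mul_assoc, hc, one_mul, map_neg]
  linear_combination (2⁻¹ : ℂ) * h1

theorem half_idem {K V : Type*} [Group K] [AddCommGroup V] [Module ℂ V]
    [FiniteDimensional ℂ V] (ρ : Representation ℂ K V) {m k : ℕ} (c : Fin m → Module.End ℂ V)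
    (hsq : ∀ a, c a * c a = 1) (hanti : ∀ a b, a ≠ b → c a * c b = -(c b * c a)) (hk : 2 * k ≤ m)
    (hρ : ∀ g, (∀ a, ρ g * c a = c a * ρ g) ∨ (2 * k < m ∧ ∀ a, ρ g * c a = -(c a * ρ g)))
    (j : ℕ) (hj : j ≤ k) : ∃ e : Module.End ℂ V, e * e = e ∧ (∀ g, Commute (ρ g) e) ∧
      (∀ a : Fin m, 2 * j ≤ (a : ℕ) → Commute (c a) e) ∧
      ∀ g, LinearMap.trace ℂ V (ρ g * e) = ρ.character g / 2 ^ j := by
  induction j with
  | zero =>
    exact ⟨1, one_mul 1, fun g => Commute.one_right _, fun a _ => Commute.one_right _,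
      fun g => by simp [Representation.character]⟩
  | succ j ih =>
    obtain ⟨e, he, heρ, hec, htr⟩ := ih (by omega)
    obtain ⟨a, ha⟩ : ∃ a : Fin m, (a : ℕ) = 2 * j := ⟨⟨2 * j, by omega⟩, rfl⟩
    obtain ⟨b, hb⟩ : ∃ b : Fin m, (b : ℕ) = 2 * j + 1 := ⟨⟨2 * j + 1, by omega⟩, rfl⟩
    have hab : b ≠ a := fun h => by rw [h] at hb; omega
    have hanti2 : ∀ x : Module.End ℂ V, x * c a = -(c a * x) → x * c b = -(c b * x) →
        Commute x (c a * c b) := fun x h1 h2 => by
      change x * (c a * c b) = c a * c b * x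
      rw [← mul_assoc, h1, neg_mul, mul_assoc, h2, mul_neg, neg_neg, mul_assoc]
    set J : Module.End ℂ V := Complex.I • (c a * c b) with hJ
    have hJJ : J * J = 1 := by
      rw [hJ, smul_mul_smul_comm, Complex.I_mul_I, mul_assoc, ← mul_assoc (c b), hanti b a hab,
        neg_mul, mul_neg, mul_assoc (c a) (c b), hsq, mul_one, hsq]
      simp
    have hJρ : ∀ g, Commute (ρ g) J := fun g => by
      refine Commute.smul_right ?_ _
      rcases hρ g with h | ⟨-, h⟩
      · exact Commute.mul_right (h a) (h b)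
      · exact hanti2 _ (h a) (h b)
    have hJe : Commute e J :=
      ((hec a ha.ge).symm.mul_right (hec b (by omega)).symm).smul_right _
    have hJc : ∀ x : Fin m, 2 * (j + 1) ≤ (x : ℕ) → Commute (c x) J := fun x hx =>
      (hanti2 _ (hanti _ _ fun h => by rw [h] at hx; omega)
        (hanti _ _ fun h => by rw [h] at hx; omega)).smul_right _
    have hJa : J * c a = -(c a * J) := by
      rw [hJ, smul_mul_assoc, mul_smul_comm, mul_assoc, hanti b a hab, mul_neg, smul_neg]
    have h0 : ∀ g, LinearMap.trace ℂ V (ρ g * e * J) = 0 := fun g => by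
      rcases hρ g with h | ⟨hm, h⟩
      · refine half_trace_zero (hsq a) ?_
        rw [mul_assoc, hJa, mul_neg, ← mul_assoc, mul_assoc (ρ g), ← (hec a ha.ge).eq,
          ← mul_assoc, h a]
        simp only [mul_assoc]
      · refine half_trace_zero (hsq ⟨2 * k, hm⟩) ?_
        rw [mul_assoc, ← (hJc ⟨2 * k, hm⟩ (by simp only; omega)).eq, ← mul_assoc, mul_assoc (ρ g),
          ← (hec ⟨2 * k, hm⟩ (by simp only; omega)).eq, ← mul_assoc, h]
        simp only [mul_assoc, neg_mul]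
    have hP : ((2⁻¹ : ℂ) • (1 + J)) * ((2⁻¹ : ℂ) • (1 + J)) = (2⁻¹ : ℂ) • (1 + J) := by
      rw [smul_mul_smul_comm, add_mul, mul_add, mul_add, hJJ]
      simp only [one_mul, mul_one]
      module
    have hcm : ∀ x : Module.End ℂ V, Commute x J → Commute x ((2⁻¹ : ℂ) • (1 + J)) :=
      fun x hx => ((Commute.one_right x).add_right hx).smul_right _
    refine ⟨e * ((2⁻¹ : ℂ) • (1 + J)), ?_, fun g => (heρ g).mul_right (hcm _ (hJρ g)),
      fun x hx => (hec x (by omega)).mul_right (hcm _ (hJc x hx)), fun g => ?_⟩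
    · rw [(hcm e hJe).symm.mul_mul_mul_comm, he, hP]
    · rw [← mul_assoc, mul_smul_comm, mul_add, mul_one, map_smul, map_add, h0, htr, add_zero,
        smul_eq_mul, pow_succ]
      field_simp

theorem isCharacter_half {K V : Type*} [Group K] [AddCommGroup V] [Module ℂ V]
    [FiniteDimensional ℂ V] (ρ : Representation ℂ K V) {m k : ℕ} (c : Fin m → Module.End ℂ V)
    (hsq : ∀ a, c a * c a = 1) (hanti : ∀ a b, a ≠ b → c a * c b = -(c b * c a)) (hk : 2 * k ≤ m)
    (hρ : ∀ g, (∀ a, ρ g * c a = c a * ρ g) ∨ (2 * k < m ∧ ∀ a, ρ g * c a = -(c a * ρ g))) :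
    IsCharacter K fun g => ρ.character g / 2 ^ k := by
  obtain ⟨e, he, heρ, -, htr⟩ := half_idem ρ c hsq hanti hk hρ k le_rfl
  have := isCharacter_trace_comp_idempotent (ρ := ρ) ⟨e, fun g => (heρ g).symm.eq⟩
    fun v => congrArg (fun x : Module.End ℂ V => x v) he
  rw [← funext htr]
  exact this

theorem half_family {ι κ R : Type*} [Fintype ι] [DecidableEq κ] [Ring R] [Algebra ℂ R]
    (Γ : ι → R) (hsq : ∀ a, Γ a * Γ a = 1) (hanti : ∀ a b, a ≠ b → Γ a * Γ b = -(Γ b * Γ a))
    (ψ : ι → κ) : ∃ c : κ → R, (∀ t ∈ univ.image ψ, c t * c t = 1) ∧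
      (∀ s t, s ≠ t → c s * c t = -(c t * c s)) ∧
      ∀ (x : R) (ε : ℂ) (σ : Perm ι), ψ ∘ σ = ψ → (∀ a, x * Γ a = ε • (Γ (σ a) * x)) →
        ∀ t, x * c t = ε • (c t * x) := by
  classical
  have key : ∀ F F' : Finset ι, (∑ a ∈ F, Γ a) * (∑ a ∈ F', Γ a) +
      (∑ a ∈ F', Γ a) * (∑ a ∈ F, Γ a) = ((2 * #(F ∩ F') : ℕ) : ℂ) • (1 : R) := fun F F' => by
    rw [sum_mul_sum, sum_mul_sum, sum_comm (s := F'), ← sum_add_distrib]
    simp only [← sum_add_distrib]
    have : ∀ a b, Γ a * Γ b + Γ b * Γ a = if a = b then (2 : ℂ) • (1 : R) else 0 := fun a b => by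
      split_ifs with h
      · rw [h, hsq, two_smul]
      · rw [hanti a b h, neg_add_cancel]
    simp only [this, sum_ite_eq]
    rw [← sum_filter, sum_const, filter_mem_eq_inter, ← Nat.cast_smul_eq_nsmul ℂ, smul_smul]
    push_cast
    rw [mul_comm]
  refine ⟨fun t => ((Real.sqrt #(univ.filter fun a => ψ a = t) : ℝ) : ℂ)⁻¹ •
    ∑ a ∈ univ.filter fun a => ψ a = t, Γ a, fun t ht => ?_, fun s t hst => ?_,
    fun x ε σ h1 h2 t => ?_⟩
  · have h1 := key (univ.filter fun a => ψ a = t) (univ.filter fun a => ψ a = t)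
    rw [inter_self, ← two_smul ℂ] at h1
    have h2 : 0 < #(univ.filter fun a => ψ a = t) := by
      obtain ⟨a, -, ha⟩ := mem_image.1 ht
      exact card_pos.2 ⟨a, by simp [ha]⟩
    beta_reduce
    generalize #(univ.filter fun a => ψ a = t) = n at h1 h2 ⊢
    have h3 := congrArg (fun y : R => (2⁻¹ : ℂ) • y) h1
    simp only [smul_smul] at h3
    rw [inv_mul_cancel₀ two_ne_zero, one_smul] at h3
    rw [smul_mul_smul_comm, h3, smul_smul, ← mul_inv, ← Complex.ofReal_mul,
      Real.mul_self_sqrt (Nat.cast_nonneg n)]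
    have : (n : ℂ) ≠ 0 := Nat.cast_ne_zero.2 h2.ne'
    rw [show (((n : ℝ) : ℂ))⁻¹ * (2⁻¹ * ((2 * n : ℕ) : ℂ)) = 1 by push_cast; field_simp, one_smul]
  · have h1 := key (univ.filter fun a => ψ a = s) (univ.filter fun a => ψ a = t)
    rw [show (univ.filter fun a => ψ a = s) ∩ (univ.filter fun a => ψ a = t) = ∅ by
      ext a
      simp only [mem_inter, mem_filter, mem_univ, true_and, notMem_empty, iff_false, not_and]
      exact fun h1 h2 => hst (h1.symm.trans h2)] at h1
    simp only [card_empty, mul_zero, Nat.cast_zero, zero_smul] at h1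
    rw [smul_mul_smul_comm, smul_mul_smul_comm, eq_neg_of_add_eq_zero_left h1, smul_neg, mul_comm]
  · rw [mul_smul_comm, smul_mul_assoc, smul_comm, mul_sum, sum_mul]
    simp only [h2]
    rw [← smul_sum]
    congr 2
    refine sum_equiv σ (fun a => ?_) fun a _ => rfl
    simp only [mem_filter, mem_univ, true_and]
    rw [show ψ (σ a) = ψ a from congrFun h1 a]

theorem Sp.half_exists {N : ℕ} (f : Ω → Fin N) :
    ∃ c : Fin (#(univ.image f) + (Fintype.card Ω + 1)) → Module.End ℂ (Sv Ω),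
      (∀ a, c a * c a = 1) ∧ (∀ a b, a ≠ b → c a * c b = -(c b * c a)) ∧
      ∀ g, f ∘ S.π g = f → ∀ a, S.ρ g * c a = ((Perm.sign (S.π g) : ℤ) : ℂ) • (c a * S.ρ g) := by
  obtain ⟨c, h1, h2, h3⟩ := half_family S.Γ S.Γ_sq S.Γ_anti (Sum.map f id)
  have hT : (univ.image f).disjSum (univ : Finset (Fin (Fintype.card Ω + 1))) ⊆
      univ.image (Sum.map f id) := by
    rintro (t | t) ht
    · obtain ⟨a, -, rfl⟩ := mem_image.1 (inl_mem_disjSum.1 ht)
      exact mem_image.2 ⟨.inl a, mem_univ _, rfl⟩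
    · exact mem_image.2 ⟨.inr t, mem_univ _, rfl⟩
  have e := ((univ.image f).disjSum (univ : Finset (Fin (Fintype.card Ω + 1)))).equivFinOfCardEq
    (n := #(univ.image f) + (Fintype.card Ω + 1)) (by simp)
  refine ⟨fun a => c (e.symm a), fun a => h1 _ (hT (e.symm a).2),
    fun a b hab => h2 _ _ fun h => hab (e.symm.injective (Subtype.ext h)), fun g hg a => ?_⟩
  refine h3 _ _ (Equiv.sumCongr (S.π g) 1) (funext ?_) ?_ _
  · rintro (t | t)
    · exact congrArg Sum.inl (congrFun hg t)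
    · rfl
  · rintro (t | t)
    · exact S.ρ_Γ g t
    · exact S.ρ_Γ' g t

theorem Sp.half_eq {j k : ℕ} (h : j + k = Fintype.card Ω) (H : Subgroup G) :
    (fun g : H => 2 ^ j * S.τ g) =
      fun g : H => Representation.character (S.ρ.comp H.subtype) g / 2 ^ k := by
  funext g
  rw [Sp.τ, show (2 : ℂ) ^ Fintype.card Ω = 2 ^ j * 2 ^ k by rw [← pow_add, h]]
  change _ = S.ρ.character g / 2 ^ k
  field_simp

theorem Sp.isCharacter_τ {N : ℕ} (f : Ω → Fin N) (H : Subgroup G)
    (hH : ∀ g ∈ H, f ∘ S.π g = f) :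
    IsCharacter H fun g => 2 ^ ((Fintype.card Ω - #(univ.image f) + 1) / 2) * S.τ g := by
  obtain ⟨c, h1, h2, h3⟩ := S.half_exists f
  have hr : #(univ.image f) ≤ Fintype.card Ω := card_image_le
  rw [S.half_eq (k := Fintype.card Ω - (Fintype.card Ω - #(univ.image f) + 1) / 2) (by omega)]
  refine isCharacter_half (S.ρ.comp H.subtype) c h1 h2 (by omega) fun g => ?_
  have h4 := h3 g (hH g g.2)
  rcases Int.units_eq_one_or (Perm.sign (S.π g)) with h | h
  · exact Or.inl fun a => by simpa [h] using h4 a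
  · refine Or.inr ⟨by omega, fun a => ?_⟩
    have h5 := h4 a
    rw [h, Units.val_neg, Units.val_one, Int.cast_neg, Int.cast_one] at h5
    exact h5.trans (neg_one_smul ℂ (c a * S.ρ g))

theorem Sp.isCharacter_τ_ev {N : ℕ} (f : Ω → Fin N) (H : Subgroup G)
    (hH : ∀ g ∈ H, f ∘ S.π g = f) (he : H ≤ S.ev) :
    IsCharacter H fun g => 2 ^ ((Fintype.card Ω - #(univ.image f)) / 2) * S.τ g := by
  obtain ⟨c, h1, h2, h3⟩ := S.half_exists f
  have hr : #(univ.image f) ≤ Fintype.card Ω := card_image_le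
  rw [S.half_eq (k := Fintype.card Ω - (Fintype.card Ω - #(univ.image f)) / 2) (by omega)]
  refine isCharacter_half (S.ρ.comp H.subtype) c h1 h2 (by omega) fun g => ?_
  have h4 := h3 g (hH g g.2)
  have h : Perm.sign (S.π g) = 1 := he g.2
  exact Or.inl fun a => by simpa [h] using h4 a

end CfsgLib.Spn
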