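import Mathlib
import Cfsg.Agent.Lib.Spn.Half
import Cfsg.Agent.Lib.Spn.Orb
import Cfsg.Agent.Lib.Spn.Str

/-! Package GEN: the spin functions are generalized characters.  See `plans/SPN.md`. -/

set_option autoImplicit false
set_option linter.unusedSectionVars false

namespace CfsgLib.Spn

open Equiv Finset Cfsg CfsgLib.SymChar CfsgLib.Char
open scoped Nat ComplexConjugate

variable {G : Type*} [Group G] [Finite G] {Ω : Type*} [Fintype Ω] [DecidableEq Ω] (S : Sp G Ω)
  {δ : List ℤ → ℂ} {l : List ℤ}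

theorem gen_countP {N : ℕ} (α : Fin N → ℤ) :
    (List.ofFn α).countP (fun a => decide (0 < a)) = #{i | 0 < α i} := by
  induction N with
  | zero => simp
  | succ N ih =>
    rw [List.ofFn_succ, List.countP_cons, ih, Fin.card_filter_univ_succ']
    simp only [decide_eq_true_eq]
    omega

theorem gen_count_le {N : ℕ} {β : Fin N → ℤ} (h0 : ∀ i, 0 < β i) (f : Ω → Fin N) :
    N - #(univ.image f) ≤ (List.ofFn (β - fib f)).countP (fun a => decide (0 < a)) := by
  rw [gen_countP]
  have h1 : (univ.image f)ᶜ ⊆ ({i | 0 < (β - fib f) i} : Finset (Fin N)) := by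
    intro i hi
    rw [mem_compl] at hi
    rw [mem_filter]
    refine ⟨mem_univ _, ?_⟩
    have : (({ω | f ω = i} : Finset Ω)) = ∅ := by
      rw [filter_eq_empty_iff]
      intro ω _ h
      exact hi (mem_image.2 ⟨ω, mem_univ _, h⟩)
    rw [Pi.sub_apply, fib_apply, this]
    simpa using h0 i
  have h2 := card_le_card h1
  rwa [card_compl, Fintype.card_fin] at h2

/-- the action on colourings -/
@[reducible] def Sp.genAct {K : Type*} [Group K] (ι : K →* G) (N : ℕ) : MulAction K (Ω → Fin N) where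
  smul g f := f ∘ ⇑(S.π (ι g))⁻¹
  one_smul f := by
    change f ∘ ⇑(S.π (ι 1))⁻¹ = f
    simp
  mul_smul g h f := by
    change f ∘ ⇑(S.π (ι (g * h)))⁻¹ = (f ∘ ⇑(S.π (ι h))⁻¹) ∘ ⇑(S.π (ι g))⁻¹
    rw [map_mul, map_mul, mul_inv_rev]
    rfl

theorem gen_fix {N : ℕ} (f : Ω → Fin N) (σ : Perm Ω) : f ∘ ⇑σ⁻¹ = f ↔ f ∘ ⇑σ = f := by
  constructor
  · intro h
    funext ω
    have := congrFun h (σ ω)
    simpa using this.symm
  · intro h
    funext ω
    have := congrFun h (σ⁻¹ ω)
    simpa using this.symm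

theorem Sp.gen_main (hδ : Vac δ) (hl : Str l) {K : Type*} [Group K] [Finite K] (ι : K →* G)
    (ex : ℕ → ℕ)
    (hch : ∀ (f : Ω → Fin l.length) (H : Subgroup G), (∀ g ∈ H, f ∘ S.π g = f) → H ≤ ι.range →
      IsCharacter H fun g => 2 ^ ex #(univ.image f) * S.τ g)
    (hex : ∀ r, r ≤ l.length → ex r ≤ (Fintype.card Ω - l.length) / 2 + (l.length - r)) :
    IsGeneralizedCharacter K fun g => 2 ^ ((Fintype.card Ω - l.length) / 2) * S.Y δ l (ι g) := by
  classical
  obtain ⟨β, hβ, -, h0⟩ := hl.exists_ofFn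
  letI := S.genAct ι l.length
  have hsm : ∀ (g : K) (f : Ω → Fin l.length), g • f = f ∘ ⇑(S.π (ι g))⁻¹ := fun _ _ => rfl
  have key := isGenChar_orb (K := K) (A := Ω → Fin l.length) (ξ := fun g => S.τ (ι g))
    (fun g h => by simp only [map_mul, map_inv]; exact S.τ_conj _ _)
    (fun f => 2 ^ ((Fintype.card Ω - l.length) / 2) * δ (List.ofFn (β - fib f)))
    (fun g f => by rw [hsm, fib_comp]) (fun f => ?_)
  · convert key using 2 with g
    rw [Sp.Y]
    conv_lhs => rw [hβ]
    rw [List.length_ofFn, X_ty, ← mul_sum]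
    have : (univ.filter fun f : Ω → Fin l.length => g • f = f) =
        univ.filter fun f => f ∘ S.π (ι g) = f := filter_congr fun f _ => by rw [hsm, gen_fix]
    rw [this]
    ring
  · obtain ⟨c, hc⟩ := hδ.int (List.ofFn (β - fib f))
    have hr : #(univ.image f) ≤ l.length := (card_le_univ _).trans (by simp)
    have h1 := gen_count_le h0 f
    have h2 := hex _ hr
    obtain ⟨k, hk⟩ : ∃ k, (Fintype.card Ω - l.length) / 2 +
        (List.ofFn (β - fib f)).countP (fun a => decide (0 < a)) = ex #(univ.image f) + k :=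
      Nat.exists_eq_add_of_le (by omega)
    let H : Subgroup G := (MulAction.stabilizer K f).map ι
    have hH := hch f H (by
      rintro _ ⟨g, hg, rfl⟩
      exact (gen_fix f _).1 hg) (by
      rintro _ ⟨g, -, rfl⟩
      exact ⟨g, rfl⟩)
    have h3 := isGenChar_intCast_smul (2 ^ k * c) (isGenChar_of_isCharacter
      (isCharacter_comp (ι.subgroupMap (MulAction.stabilizer K f)) hH))
    convert h3 using 2 with g
    rw [hc, ← mul_assoc, ← pow_add, hk]
    simp only [Pi.smul_apply, smul_eq_mul]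
    push_cast
    change _ = _ * (_ * S.τ (ι g))
    ring

theorem Sp.isGenChar_Y (hδ : Vac δ) (hl : Str l) (hn : l.sum = Fintype.card Ω)
    (he : Even (Fintype.card Ω - l.length)) :
    IsGeneralizedCharacter G fun g => 2 ^ ((Fintype.card Ω - l.length) / 2) * S.Y δ l g := by
  have h1 := hl.length_le
  rw [hn] at h1
  have h2 : l.length ≤ Fintype.card Ω := by exact_mod_cast h1
  obtain ⟨m, hm⟩ := he
  exact S.gen_main hδ hl (MonoidHom.id G) (fun r => (Fintype.card Ω - r + 1) / 2)
    (fun f H hH _ => S.isCharacter_τ f H hH) (fun r hr => by omega)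

theorem Sp.isGenChar_Y_ev (hδ : Vac δ) (hl : Str l) (hn : l.sum = Fintype.card Ω) :
    IsGeneralizedCharacter S.ev fun g => 2 ^ ((Fintype.card Ω - l.length) / 2) * S.Y δ l g := by
  have h1 := hl.length_le
  rw [hn] at h1
  have h2 : l.length ≤ Fintype.card Ω := by exact_mod_cast h1
  exact S.gen_main hδ hl S.ev.subtype (fun r => (Fintype.card Ω - r) / 2)
    (fun f H hH he => S.isCharacter_τ_ev f H hH (by rwa [Subgroup.range_subtype] at he))
    (fun r hr => by omega)

end CfsgLib.Spn
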