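import Mathlib
import Cfsg.Agent.Lib.Spn.Str

/-! Package L0A: the bilinear operators `K_s`.  See `plans/SPN.md`. -/

set_option autoImplicit false
set_option linter.unusedSectionVars false

namespace CfsgLib.Spn

open Equiv Finset Cfsg CfsgLib.SymChar CfsgLib.Char
open scoped Nat ComplexConjugate

variable {F δ : List ℤ → ℂ} {l l' : List ℤ}

namespace L0a

theorem sg_even {a b : ℤ} (h : Even (a - b)) : (-1 : ℂ) ^ a = (-1) ^ b := by
  rw [← sub_add_cancel a b, zpow_add₀ (by norm_num), h.neg_one_zpow, one_mul]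

theorem sg_odd {a b : ℤ} (h : Odd (a - b)) : (-1 : ℂ) ^ a = -(-1) ^ b := by
  rw [← sub_add_cancel a b, zpow_add₀ (by norm_num), h.neg_one_zpow, neg_one_mul]

theorem move (hF : Cov F) (u v : List ℤ) (s t b : ℤ) :
    F (u ++ t :: (s - t) :: b :: v) = F (u ++ b :: t :: (s - t) :: v) +
      2 * (-1) ^ (-b) * F (u ++ (s + b) :: v) * ((if t = s + b then 1 else 0) - if t = -b then 1 else 0) := by
  have h1 := hF.anti (u ++ [t]) (s - t) b v
  have h2 := hF.anti u t b ((s - t) :: v)
  simp only [List.append_assoc, List.singleton_append] at h1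
  have e1 : (if s - t + b = 0 then 2 * (-1) ^ (s - t) * F (u ++ t :: v) else 0) =
      2 * (-1) ^ (-b) * F (u ++ (s + b) :: v) * if t = s + b then 1 else 0 := by
    by_cases h : t = s + b
    · rw [if_pos h, if_pos (by omega), mul_one, h, show s - (s + b) = -b by ring]
    · rw [if_neg h, if_neg (by omega), mul_zero]
  have e2 : (if t + b = 0 then 2 * (-1) ^ t * F (u ++ (s - t) :: v) else 0) =
      2 * (-1) ^ (-b) * F (u ++ (s + b) :: v) * if t = -b then 1 else 0 := by
    by_cases h : t = -b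
    · rw [if_pos h, if_pos (by omega), mul_one, h, sub_neg_eq_add]
    · rw [if_neg h, if_neg (by omega), mul_zero]
  rw [e1] at h1
  rw [e2] at h2
  linear_combination h1 - h2

theorem sum_move (hF : Cov F) {s : ℤ} (hs : Odd s) {e : ℤ} {I : Finset ℤ} (hI : ∀ t ∈ I, Even (t - e))
    (u v : List ℤ) {b : ℤ} (h : (Even (s + b - e) → s + b ∈ I) ∧ (Even (-b - e) → -b ∈ I)) :
    ∑ t ∈ I, F (u ++ t :: (s - t) :: b :: v) =
      ∑ t ∈ I, F (u ++ b :: t :: (s - t) :: v) - 2 * (-1) ^ e * F (u ++ (s + b) :: v) := by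
  simp only [move hF u v s _ b, sum_add_distrib, ← mul_sum, sum_sub_distrib, sum_ite_eq']
  rcases Int.even_or_odd (-b - e) with k | k
  · rw [if_pos (h.2 k), if_neg fun k' => by have := hI _ k'; grind, sg_even k]
    ring
  · rw [if_pos (h.1 (by grind)), if_neg fun k' => by have := hI _ k'; grind, sg_odd k]
    ring

theorem sum_le_nrm (v : List ℤ) : v.sum ≤ nrm v := by
  induction v with
  | nil => simp [nrm]
  | cons a v ih =>
    simp only [nrm, List.map_cons, List.sum_cons] at ih ⊢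
    exact add_le_add (le_abs_self a) ih

theorem sum_odds (G : ℕ → ℂ) {M K : ℕ} (hK : M ≤ K) (h : ∀ j, M < j → G j = 0) :
    ∑ j ∈ odds M, G j = ∑ i ∈ range K, G (2 * i + 1) := by
  rw [← sum_image (g := fun i => 2 * i + 1) (f := G) (fun a _ b _ h => by simpa using h)]
  refine sum_subset (fun j hj => ?_) fun j h1 h2 => h j ?_
  · obtain ⟨h1, i, rfl⟩ := mem_filter.1 hj
    exact mem_image.2 ⟨i, mem_range.2 (by have := (mem_Icc.1 h1).2; omega), rfl⟩
  · obtain ⟨i, -, rfl⟩ := mem_image.1 h1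
    by_contra! k
    exact h2 (mem_filter.2 ⟨mem_Icc.2 ⟨by omega, k⟩, i, rfl⟩)

theorem even_le (hF : Cov F) {M : ℕ} {u v : List ℤ} {m b : ℤ} (hs : Even (m + b)) (hle : m ≤ b)
    (hM : |m| + |b| + nrm v ≤ M) :
    ∑ j ∈ odds M, (F (u ++ (m + j) :: (b - j) :: v) - F (u ++ (b + j) :: (m - j) :: v)) =
      if m + b = 0 then m * (-1) ^ m * F (u ++ v) else 0 := by
  obtain ⟨d, hd⟩ : ∃ d : ℕ, b = m + 2 * d := ⟨((b - m) / 2).toNat, by obtain ⟨k, hk⟩ := hs; omega⟩
  set g : ℤ → ℂ := fun t => F (u ++ t :: (m + b - t) :: v) with hg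
  have h0 : ∀ t, m + b + v.sum < t → g t = 0 := fun t ht => by
    have := hF.eq_zero_of_sum_neg (u ++ [t]) (v := (m + b - t) :: v) (by rw [List.sum_cons]; omega)
    simpa using this
  have h1 := sum_le_nrm v
  have h2 := le_abs_self m
  have h3 := le_abs_self b
  have h4 := abs_nonneg m
  have h5 := abs_nonneg b
  have e1 : ∑ j ∈ odds M, F (u ++ (m + j) :: (b - j) :: v) = ∑ i ∈ range (d + M), g (m + (2 * i + 1 : ℕ)) := by
    rw [← sum_odds (fun j => g (m + j)) (Nat.le_add_left M d) fun j hj => h0 _ (by omega)]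
    exact sum_congr rfl fun j _ => by simp only [hg, add_sub_add_left_eq_sub]
  have e2 : ∑ j ∈ odds M, F (u ++ (b + j) :: (m - j) :: v) = ∑ i ∈ range M, g (m + (2 * (d + i) + 1 : ℕ)) := by
    rw [sum_congr rfl fun (i : ℕ) _ => congrArg g (show m + (2 * (d + i) + 1 : ℕ) = b + (2 * i + 1 : ℕ) by
      push_cast; omega), ← sum_odds (fun j => g (b + j)) le_rfl fun j hj => h0 _ (by omega)]
    exact sum_congr rfl fun j _ => by simp only [hg, add_comm m b, add_sub_add_left_eq_sub]
  rw [sum_sub_distrib, e1, e2, sum_range_add, add_sub_cancel_right]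
  have e3 : ∀ i ∈ range d, g (m + (2 * i + 1 : ℕ)) + g (m + (2 * (d - 1 - i) + 1 : ℕ)) =
      if m + b = 0 then -2 * (-1) ^ m * F (u ++ v) else 0 := fun i hi => by
    have hi := mem_range.1 hi
    rw [show m + (2 * (d - 1 - i) + 1 : ℕ) = m + b - (m + (2 * i + 1 : ℕ)) by omega]
    simp only [hg, sub_sub_cancel]
    rw [hF.anti, add_sub_cancel, sg_odd (b := m) ⟨i, by push_cast; ring⟩]
    split_ifs <;> ring
  have e4 := sum_congr rfl e3
  rw [sum_add_distrib, sum_range_reflect (fun i => g (m + (2 * i + 1 : ℕ))), sum_const, card_range,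
    nsmul_eq_mul] at e4
  split_ifs at e4 ⊢ with h
  · have : (m : ℂ) = -d := by exact_mod_cast (by omega : m = -d)
    linear_combination e4 / 2 - (-1) ^ m * F (u ++ v) * this
  · linear_combination e4 / 2

end L0a

open L0a

theorem Vac.K_neg (hδ : Vac δ) {s : ℤ} (hs : Odd s) (h0 : s < 0) (e : ℤ) (I : Finset ℤ)
    (hI : ∀ t ∈ I, Even (t - e)) (u v : List ℤ)
    (h : ∀ b ∈ v, (Even (s + b - e) → s + b ∈ I) ∧ (Even (-b - e) → -b ∈ I)) :
    ∑ t ∈ I, δ (u ++ t :: (s - t) :: v) = -2 * (-1) ^ e * T (-s) (fun v' => δ (u ++ v')) v := by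
  induction v generalizing u with
  | nil =>
    rw [T_nil, mul_zero]
    refine Finset.sum_eq_zero fun t _ => ?_
    by_cases k : s - t < 0
    · simpa using hδ.cov.neg (u ++ [t]) _ k
    · rw [hδ.cov.swap u (by omega), neg_eq_zero]
      simpa using hδ.cov.neg (u ++ [s - t]) t (by omega)
  | cons b v ih =>
    have := ih (u ++ [b]) fun c hc => h c (List.mem_cons_of_mem _ hc)
    simp only [List.append_assoc, List.singleton_append] at this
    rw [sum_move hδ.cov hs hI u v (h b List.mem_cons_self), this, T_cons, sub_neg_eq_add, add_comm b s]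
    ring

theorem Vac.K_pos (hδ : Vac δ) {s : ℤ} (hs : Odd s) (h0 : 0 < s) (e : ℤ) (I : Finset ℤ)
    (hI : ∀ t ∈ I, Even (t - e)) (u v : List ℤ)
    (h : ∀ b ∈ u, (Even (s + b - e) → s + b ∈ I) ∧ (Even (-b - e) → -b ∈ I)) :
    ∑ t ∈ I, δ (u ++ t :: (s - t) :: v) = 2 * (-1) ^ e * T (-s) (fun u' => δ (u' ++ v)) u := by
  induction u using List.reverseRecOn generalizing v with
  | nil =>
    rw [T_nil, mul_zero]
    refine Finset.sum_eq_zero fun t _ => ?_
    by_cases k : 0 < t
    · exact hδ.pos _ _ k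
    · rw [hδ.cov.swap [] (by omega), neg_eq_zero]
      exact hδ.pos _ _ (by omega)
  | append_singleton u b ih =>
    have h1 := ih (b :: v) fun c hc => h c (List.mem_append_left _ hc)
    rw [sum_move hδ.cov hs hI u v (h b (by simp))] at h1
    rw [T_append, T_cons, T_nil, sub_neg_eq_add, add_comm b s]
    simp only [List.append_assoc, List.singleton_append]
    linear_combination h1

/-- the even case -/
theorem Vac.K_even (hδ : Vac δ) {M : ℕ} {u v : List ℤ} {m b : ℤ} (hs : Even (m + b))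
    (hM : |m| + |b| + nrm v ≤ M) :
    ∑ j ∈ odds M, (δ (u ++ (m + j) :: (b - j) :: v) - δ (u ++ (b + j) :: (m - j) :: v)) =
      if m + b = 0 then m * (-1) ^ m * δ (u ++ v) else 0 := by
  rcases le_total m b with h | h
  · exact even_le hδ.cov hs h hM
  have h1 := even_le hδ.cov (u := u) (add_comm m b ▸ hs) h (add_comm |m| |b| ▸ hM)
  rw [sum_sub_distrib] at h1 ⊢
  rw [add_comm b m] at h1
  split_ifs at h1 ⊢ with k
  · have e1 : (b : ℂ) = -m := by exact_mod_cast (by omega : b = -m)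
    rw [e1, sg_even (b := m) (by grind)] at h1
    linear_combination -h1
  · linear_combination -h1

end CfsgLib.Spn
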