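import Mathlib
import Cfsg.Agent.Lib.Spn.L0a

/-! Package L0B: moving a fermion through the defect `RR`.  See `plans/SPN.md`. -/

set_option autoImplicit false
set_option linter.unusedSectionVars false

namespace CfsgLib.Spn

open Equiv Finset Cfsg CfsgLib.SymChar CfsgLib.Char
open scoped Nat ComplexConjugate

variable {F δ : List ℤ → ℂ} {l l' : List ℤ}

theorem l0b_sign {a b : ℤ} (h : Even (a - b)) : (-1 : ℂ) ^ a = (-1) ^ b := by
  rw [show a = b + (a - b) by ring, zpow_add₀ (by norm_num), h.neg_one_zpow, mul_one]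

theorem l0b_nrm_nonneg (l : List ℤ) : 0 ≤ nrm l :=
  List.sum_nonneg fun x hx => by
    obtain ⟨a, -, rfl⟩ := List.mem_map.1 hx
    exact abs_nonneg a

theorem l0b_abs_le {a : ℤ} (h : a ∈ l) : |a| ≤ nrm l :=
  List.single_le_sum (fun x hx => by
    obtain ⟨a, -, rfl⟩ := List.mem_map.1 hx
    exact abs_nonneg a) _ (List.mem_map_of_mem h)

theorem l0b_mem_odds {M j : ℕ} : j ∈ odds M ↔ 1 ≤ j ∧ j ≤ M ∧ j % 2 = 1 := by
  rw [odds, mem_filter, mem_Icc, Nat.odd_iff, and_assoc]

theorem l0b_T_ite (k : ℤ) (p : Prop) [Decidable p] (c : ℂ) (F : List ℤ → ℂ) (l : List ℤ) :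
    T k (fun l' => if p then c * F l' else 0) l = if p then c * T k F l else 0 := by
  split_ifs
  exacts [T_mul k c F l, T_zero k l]

/-- a symmetric window around `m` -/
theorem l0b_window (M : ℕ) (m : ℤ) : ∃ I : Finset ℤ, (∀ t ∈ I, Even (t - (m + 1))) ∧
    (∀ t, Even (t - (m + 1)) → |t - m| ≤ M → t ∈ I) ∧
    ∀ g : ℤ → ℂ, ∑ t ∈ I, g t = ∑ j ∈ odds M, (g (m + j) + g (m - j)) := by
  refine ⟨(odds M).image (fun j : ℕ => m + j) ∪ (odds M).image fun j : ℕ => m - j, fun t ht => ?_,
    fun t h1 h2 => ?_, fun g => ?_⟩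
  · simp only [mem_union, mem_image, l0b_mem_odds] at ht
    rw [Int.even_iff]
    rcases ht with ⟨j, hj, rfl⟩ | ⟨j, hj, rfl⟩ <;> omega
  · simp only [mem_union, mem_image, l0b_mem_odds]
    rw [Int.even_iff] at h1
    rw [abs_le] at h2
    rcases le_total m t with h | h
    · exact .inl ⟨(t - m).toNat, by omega, by omega⟩
    · exact .inr ⟨(m - t).toNat, by omega, by omega⟩
  · rw [sum_union, sum_image fun a _ b _ h => by simpa using h,
      sum_image fun a _ b _ h => by simpa using h, sum_add_distrib]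
    rw [disjoint_left]
    intro t h1 h2
    simp only [mem_image, l0b_mem_odds] at h1 h2
    obtain ⟨i, hi, rfl⟩ := h1
    obtain ⟨j, hj, e⟩ := h2
    omega

theorem Vac.RR_swap (hδ : Vac δ) {M : ℕ} {u v : List ℤ} {m b : ℤ}
    (hM : nrm u + |m| + |b| + nrm v ≤ M) : RR δ M u m (b :: v) = -RR δ M (u ++ [b]) m v := by
  have nu := l0b_nrm_nonneg u
  have nv := l0b_nrm_nonneg v
  have key : ∀ j : ℤ,
      T j (fun v' => δ (u ++ (m + j) :: v')) (b :: v) -
          T (-j) (fun u' => δ (u' ++ (m - j) :: b :: v)) u +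
        (T j (fun v' => δ (u ++ [b] ++ (m + j) :: v')) v -
          T (-j) (fun u' => δ (u' ++ (m - j) :: v)) (u ++ [b])) =
      (if m + j + b = 0 then 2 * (-1) ^ (m + j) * T j (fun v' => δ (u ++ v')) v else 0) -
        (if m - j + b = 0 then 2 * (-1) ^ (m - j) * T (-j) (fun u' => δ (u' ++ v)) u else 0) +
        (δ (u ++ (m + j) :: (b - j) :: v) - δ (u ++ (b + j) :: (m - j) :: v)) := fun j => by
    rw [← l0b_T_ite, ← l0b_T_ite]
    simp only [← hδ.cov.anti, T_add, T_cons, T_append, T_nil, List.append_assoc, List.cons_append,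
      List.nil_append, sub_neg_eq_add]
    ring
  rw [eq_neg_iff_add_eq_zero]
  have e : RR δ M u m (b :: v) + RR δ M (u ++ [b]) m v = 2 * (∑ j ∈ odds M,
      (if m + j + b = 0 then 2 * (-1) ^ (m + j) * T j (fun v' => δ (u ++ v')) v else 0) -
      ∑ j ∈ odds M,
        (if m - j + b = 0 then 2 * (-1) ^ (m - j) * T (-j) (fun u' => δ (u' ++ v)) u else 0) +
      ∑ j ∈ odds M, (δ (u ++ (m + j) :: (b - j) :: v) - δ (u ++ (b + j) :: (m - j) :: v))) -
      m * if m + b = 0 then 2 * (-1) ^ m * δ (u ++ v) else 0 := by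
    rw [← sum_sub_distrib, ← sum_add_distrib, ← hδ.cov.anti]
    simp only [← key, sum_add_distrib]
    simp only [RR, List.append_assoc, List.cons_append, List.nil_append]
    ring
  rw [e]
  rcases Int.even_or_odd (m + b) with hs | hs
  · have h2 := Int.even_iff.1 hs
    rw [hδ.K_even hs (by omega), Finset.sum_eq_zero fun j hj => if_neg ?_,
      Finset.sum_eq_zero fun j hj => if_neg ?_]
    · split_ifs <;> ring
    all_goals
      have := l0b_mem_odds.1 hj
      omega
  have h2 := Int.odd_iff.1 hs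
  obtain ⟨I, i1, i2, i3⟩ := l0b_window M m
  have hA : ∑ j ∈ odds M, (δ (u ++ (m + j) :: (b - j) :: v) - δ (u ++ (b + j) :: (m - j) :: v)) =
      ∑ t ∈ I, δ (u ++ t :: (m + b - t) :: v) := by
    rw [i3]
    refine sum_congr rfl fun j _ => ?_
    rw [hδ.cov.swap u (a := b + j) (by omega), sub_neg_eq_add, show m + b - (m + j) = b - j by ring,
      show m + b - (m - j) = b + j by ring]
  have hI : ∀ c : ℤ, |c| ≤ nrm u + nrm v → (Even (m + b + c - (m + 1)) → m + b + c ∈ I) ∧
      (Even (-c - (m + 1)) → -c ∈ I) := fun c hc => by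
    have a1 := le_abs_self c
    have a2 := neg_abs_le c
    have a3 := le_abs_self b
    have a4 := neg_abs_le b
    have a5 := le_abs_self m
    have a6 := neg_abs_le m
    exact ⟨fun h => i2 _ h (abs_le.2 ⟨by omega, by omega⟩),
      fun h => i2 _ h (abs_le.2 ⟨by omega, by omega⟩)⟩
  have a3 := le_abs_self b
  have a4 := neg_abs_le b
  have a5 := le_abs_self m
  have a6 := neg_abs_le m
  rw [hA, if_neg (by omega)]
  rcases lt_or_gt_of_ne (show m + b ≠ 0 by omega) with h0 | h0
  · obtain ⟨j, hj⟩ : ∃ j : ℕ, -(m + b) = j := ⟨(-(m + b)).toNat, by omega⟩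
    rw [hδ.K_neg hs h0 (m + 1) I i1 u v fun c hc => hI c (by have := l0b_abs_le hc; omega),
      sum_eq_single_of_mem j (l0b_mem_odds.2 (by omega)) fun i _ _ => if_neg (by omega),
      if_pos (by omega), Finset.sum_eq_zero fun i _ => if_neg (by omega), hj,
      l0b_sign (a := m + j) (b := m + 1) (Int.even_iff.2 (by omega))]
    ring
  · obtain ⟨j, hj⟩ : ∃ j : ℕ, m + b = j := ⟨(m + b).toNat, by omega⟩
    rw [hδ.K_pos hs h0 (m + 1) I i1 u v fun c hc => hI c (by have := l0b_abs_le hc; omega),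
      Finset.sum_eq_zero fun i _ => if_neg (by omega),
      sum_eq_single_of_mem j (l0b_mem_odds.2 (by omega)) fun i _ _ => if_neg (by omega),
      if_pos (by omega), hj, l0b_sign (a := m - j) (b := m + 1) (Int.even_iff.2 (by omega))]
    ring

end CfsgLib.Spn
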