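import Mathlib
import Cfsg.Agent.Lib.Spn.L0b

/-! Package L0C: the energy operator.  See `plans/SPN.md`. -/

set_option autoImplicit false
set_option Elab.async false
set_option linter.unusedSectionVars false

namespace CfsgLib.Spn

open Equiv Finset Cfsg CfsgLib.SymChar CfsgLib.Char
open scoped Nat ComplexConjugate

variable {F δ : List ℤ → ℂ} {l l' : List ℤ}

private theorem nrm_cons' (a : ℤ) (l : List ℤ) : nrm (a :: l) = |a| + nrm l := by
  simp [nrm]

private theorem nrm_concat' (l : List ℤ) (a : ℤ) : nrm (l ++ [a]) = nrm l + |a| := by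
  simp [nrm]

private theorem nrm_nonneg' (l : List ℤ) : 0 ≤ nrm l := by
  induction l with
  | nil => simp [nrm]
  | cons a l ih => rw [nrm_cons']; positivity

private theorem one_le_of_mem_odds {M j : ℕ} (h : j ∈ odds M) : 1 ≤ j :=
  (mem_Icc.1 (mem_filter.1 h).1).1

private theorem RR_nonpos (hδ : Vac δ) {M : ℕ} {m : ℤ} (hm : m ≤ 0) (v : List ℤ) :
    ∀ u : List ℤ, nrm u + |m| + nrm v ≤ M → RR δ M u m v = 0 := by
  induction v with
  | nil =>
    intro u _
    have h1 : (m : ℂ) * δ (u ++ [m]) = 0 := by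
      rcases hm.lt_or_eq with h | h
      · rw [hδ.cov.neg u m h, mul_zero]
      · subst h
        simp
    rw [RR, h1, sub_zero, sum_eq_zero, mul_zero]
    intro j hj
    have hj1 := one_le_of_mem_odds hj
    rw [T_nil, T_eq_zero, sub_zero]
    intro l' _ _
    exact hδ.cov.neg l' _ (by omega)
  | cons b v ih =>
    intro u hM
    rw [nrm_cons'] at hM
    rw [hδ.RR_swap (by linarith), ih (u ++ [b]) (by rw [nrm_concat']; linarith), neg_zero]

private theorem RR_nonneg (hδ : Vac δ) {M : ℕ} {m : ℤ} (hm : 0 ≤ m) (u : List ℤ) :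
    ∀ v : List ℤ, nrm u + |m| + nrm v ≤ M → RR δ M u m v = 0 := by
  induction u using List.reverseRecOn with
  | nil =>
    intro v _
    have h1 : (m : ℂ) * δ ([] ++ m :: v) = 0 := by
      rcases hm.lt_or_eq with h | h
      · rw [List.nil_append, hδ.pos m v h, mul_zero]
      · subst h
        simp
    rw [RR, h1, sub_zero, sum_eq_zero, mul_zero]
    intro j hj
    have hj1 := one_le_of_mem_odds hj
    rw [T_nil, T_eq_zero, sub_zero]
    intro l' _ _
    rw [List.nil_append]
    exact hδ.pos _ l' (by omega)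
  | append_singleton u b ih =>
    intro v hM
    rw [nrm_concat'] at hM
    have h := hδ.RR_swap (M := M) (u := u) (v := v) (m := m) (b := b) (by linarith)
    rw [ih (b :: v) (by rw [nrm_cons']; linarith)] at h
    exact neg_eq_zero.1 h.symm

theorem Vac.RR_eq_zero (hδ : Vac δ) {M : ℕ} {u v : List ℤ} {m : ℤ}
    (hM : nrm u + |m| + nrm v ≤ M) : RR δ M u m v = 0 := by
  rcases le_total m 0 with h | h
  · exact RR_nonpos hδ h v u hM
  · exact RR_nonneg hδ h u v hM

private theorem L0_big (hδ : Vac δ) {M : ℕ} (v : List ℤ) :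
    ∀ u : List ℤ, nrm u + nrm v ≤ M →
      -2 * ∑ j ∈ odds M, T (-j) (fun u' => T j (fun v' => δ (u' ++ v')) v) u =
        (v.sum : ℤ) * δ (u ++ v) := by
  induction v with
  | nil =>
    intro u _
    simp
  | cons m v ih =>
    intro u hM
    rw [nrm_cons'] at hM
    have h1 := ih (u ++ [m]) (by rw [nrm_concat']; linarith)
    have h2 := hδ.RR_eq_zero (M := M) (u := u) (v := v) (m := m) (by linarith)
    rw [RR, sum_sub_distrib] at h2
    simp only [T_append, T_cons, T_nil, add_zero, List.append_assoc, List.cons_append,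
      List.nil_append, sub_neg_eq_add, sum_add_distrib] at h1
    simp only [T_cons, T_add, sum_add_distrib, List.sum_cons, Int.cast_add]
    linear_combination h1 + h2

theorem Vac.L0 (hδ : Vac δ) {M : ℕ} (u : List ℤ) {v : List ℤ} (hM : v.sum ≤ M) :
    -2 * ∑ j ∈ odds M, T (-j) (fun u' => T j (fun v' => δ (u' ++ v')) v) u =
      (v.sum : ℤ) * δ (u ++ v) := by
  obtain ⟨K, hK1, hK2⟩ : ∃ K : ℕ, M ≤ K ∧ nrm u + nrm v ≤ K :=
    ⟨M + (nrm u + nrm v).toNat, by omega, by
      have := Int.self_le_toNat (nrm u + nrm v)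
      push_cast
      omega⟩
  rw [← L0_big hδ v u hK2]
  congr 1
  refine sum_subset (fun j hj => ?_) fun j hj hj' => ?_
  · simp only [odds, mem_filter, mem_Icc] at hj ⊢
    exact ⟨⟨hj.1.1, hj.1.2.trans hK1⟩, hj.2⟩
  · simp only [odds, mem_filter, mem_Icc] at hj hj'
    have hjM : M < j := by
      by_contra h
      exact hj' ⟨⟨hj.1.1, by omega⟩, hj.2⟩
    refine T_eq_zero fun u' _ _ => T_eq_zero fun v' _ hv' => ?_
    exact hδ.cov.eq_zero_of_sum_neg u' (by omega)

end CfsgLib.Spn
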