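import Mathlib
import Cfsg.Agent.Lib.Spn.L0c

/-! Package NORM: orthogonality.  See `plans/SPN.md`. -/

set_option autoImplicit false
set_option linter.unusedSectionVars false

namespace CfsgLib.Spn

open Equiv Finset Cfsg CfsgLib.SymChar CfsgLib.Char
open scoped Nat ComplexConjugate

variable {F δ : List ℤ → ℂ} {l l' : List ℤ}

theorem nm_adj_append (u v : List ℤ) : adj (u ++ v) = adj v ++ adj u := by simp [adj]

theorem nm_adj_cons (a : ℤ) (l : List ℤ) : adj (a :: l) = adj l ++ [-a] := by simp [adj]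

theorem nm_adj_sum (l : List ℤ) : (adj l).sum = -l.sum := by
  induction l with
  | nil => rfl
  | cons a l ih => rw [nm_adj_cons, List.sum_append, ih]; simp

/-- covariant functions are determined by their values at the strict partitions -/
theorem Cov.nm_ext {F' : List ℤ → ℂ} (hF : Cov F) (hF' : Cov F') (h : ∀ l, Str l → F l = F' l)
    (l : List ℤ) : F l = F' l := by
  have hG : Cov fun l => F l - F' l := ⟨fun u a b v => by
      have h1 := hF.anti u a b v
      have h2 := hF'.anti u a b v
      split_ifs at h1 h2 ⊢ <;> linear_combination h1 - h2,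
    fun u a ha => by rw [hF.neg u a ha, hF'.neg u a ha, sub_zero],
    fun u => by rw [hF.zero, hF'.zero]⟩
  by_contra c
  obtain ⟨l', h1, h2, -⟩ := hG.str (sub_ne_zero.2 c)
  exact h2 (sub_eq_zero.2 (h l' h1))

theorem Cov.nm_mul (hF : Cov F) (c : ℂ) : Cov fun l => c * F l :=
  ⟨fun u a b v => by
      have h1 := hF.anti u a b v
      split_ifs at h1 ⊢ <;> linear_combination c * h1,
    fun u a ha => by rw [hF.neg u a ha, mul_zero], fun u => by rw [hF.zero]⟩

theorem Vac.nm_adj (hδ : Vac δ) (l : List ℤ) : δ (adj l) = δ l := by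
  refine Cov.nm_ext (F := fun l => δ (adj l)) ⟨fun u a b v => ?_, fun u a ha => ?_, fun u => ?_⟩
    hδ.cov (fun l hl => ?_) l
  · simp only [nm_adj_append, nm_adj_cons, List.append_assoc, List.cons_append, List.nil_append]
    rw [hδ.cov.anti]
    by_cases h : a + b = 0
    · rw [if_pos h, if_pos (by omega), show -b = a by omega]
    · rw [if_neg h, if_neg (by omega)]
  · rw [nm_adj_append]
    exact hδ.pos (-a) _ (by omega)
  · rw [nm_adj_append]
    exact hδ.zero _
  · cases l with
    | nil => rfl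
    | cons a l =>
      have := hl.2 a List.mem_cons_self
      rw [nm_adj_cons, hδ.cov.neg _ _ (by omega), hδ.pos _ _ this]

theorem nm_T_adj (j : ℤ) (F : List ℤ → ℂ) (l : List ℤ) :
    T j (fun l1 => F (adj l1)) l = T (-j) F (adj l) := by
  induction l generalizing F with
  | nil => rfl
  | cons a l ih =>
    simp only [T_cons, nm_adj_cons, T_append, T_nil]
    rw [ih fun w => F (w ++ [-a]), show -(a - j) = -a - -j by ring]
    ring

theorem nm_EE_T (n : ℕ) (j : ℤ) (c : Multiset ℕ → ℂ) (F : Multiset ℕ → List ℤ → ℂ) (l : List ℤ) :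
    EE n (fun μ => c μ * T j (F μ) l) = T j (fun l1 => EE n fun μ => c μ * F μ l1) l := by
  induction l generalizing F with
  | nil => simp [EE_zero_fun]
  | cons a l ih => simp only [T_cons, mul_add, EE_add, ih]

theorem nm_EE_TT (n : ℕ) (j : ℤ) (c : Multiset ℕ → ℂ) (F : Multiset ℕ → List ℤ → ℂ)
    (l l' : List ℤ) : EE n (fun μ => c μ * (T j (F μ) l * T j (F μ) l')) =
      T j (fun l1 => T j (fun l2 => EE n fun μ => c μ * (F μ l1 * F μ l2)) l') l := by
  simp only [← mul_assoc, ← nm_EE_T]
  simp only [mul_right_comm _ _ (T j _ l'), nm_EE_T]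

theorem Vac.norm (hδ : Vac δ) (n : ℕ) (l l' : List ℤ) :
    EE n (fun μ => ww μ * (X δ μ l * X δ μ l')) =
      if l.sum = n then (-1) ^ n * δ (adj l ++ l') else 0 := by
  induction n using Nat.strong_induction_on generalizing l l' with
  | _ n ih =>
  split_ifs with hc
  swap
  · rw [← EE_zero_fun n]
    refine EE_congr fun μ _ hμ => ?_
    rw [show X δ μ l = 0 from by_contra fun h => hc (hμ ▸ hδ.X_sum h), zero_mul, mul_zero]
  by_cases hc' : l'.sum = n
  swap
  · rw [show δ (adj l ++ l') = 0 from by_contra fun h => hc' (by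
      have := hδ.sum_eq_zero h
      rw [List.sum_append, nm_adj_sum] at this
      omega), mul_zero, ← EE_zero_fun n]
    refine EE_congr fun μ _ hμ => ?_
    rw [show X δ μ l' = 0 from by_contra fun h => hc' (hμ ▸ hδ.X_sum h), mul_zero, mul_zero]
  rcases Nat.eq_zero_or_pos n with rfl | hn
  · rw [EE_zero, X_zero, pow_zero, one_mul, show ww 0 = 1 from rfl, one_mul]
    refine (hδ.cov.nm_mul (δ l)).nm_ext (hδ.cov.pre (adj l)) (fun r hr => ?_) l'
    cases r with
    | nil => rw [hδ.nil, mul_one, List.append_nil, hδ.nm_adj]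
    | cons a r =>
      rw [hδ.pos _ _ (hr.2 a List.mem_cons_self), mul_zero]
      by_contra h
      have h1 := hδ.sum_eq_zero (Ne.symm h)
      have h2 := hr.length_le
      rw [List.sum_append, nm_adj_sum] at h1
      rw [List.length_cons] at h2
      omega
  have hn' : (n : ℂ) ≠ 0 := by exact_mod_cast hn.ne'
  refine mul_left_cancel₀ hn' ?_
  have h1 := hδ.L0 (M := n) (adj l) hc'.le
  rw [hc', Int.cast_natCast] at h1
  rw [mul_left_comm, ← h1, mul_EE, odds, sum_filter, mul_sum, mul_sum]
  refine sum_congr rfl fun j hj => ?_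
  obtain ⟨hj1, hj2⟩ := mem_Icc.1 hj
  simp only [ww, Multiset.map_cons, Multiset.prod_cons, mul_assoc, EE_mul, X_cons]
  split_ifs with ho
  swap
  · simp
  have h2 := nm_EE_TT (n - j) j ww (X δ) l l'
  simp only [ww] at h2 ih
  rw [h2, ← nm_T_adj, ← T_mul, ← T_mul, ← T_mul]
  refine T_congr fun l1 _ h3 => ?_
  simp only [ih (n - j) (by omega), if_pos (show l1.sum = (n - j : ℕ) by omega), T_mul]
  have h4 : (-1 : ℂ) ^ n = -(-1) ^ (n - j) := by
    conv_lhs => rw [← Nat.sub_add_cancel hj2, pow_add, ho.neg_one_pow]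
    ring
  rw [h4]
  ring

theorem Vac.norm_self (hδ : Vac δ) {n : ℕ} (hl : Str l) (hn : l.sum = n) :
    EE n (fun μ => ww μ * (X δ μ l * X δ μ l)) = 2 ^ l.length := by
  rw [hδ.norm, if_pos hn, hδ.adj_self hl, hn, zpow_natCast, ← mul_assoc, ← mul_pow]
  simp

end CfsgLib.Spn
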