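import Mathlib
import Cfsg.Agent.Lib.Spn.Gen
import Cfsg.Agent.Lib.Spn.Norm
import Cfsg.Agent.Lib.Spn.Tau

/-! Package IRR: the spin characters.  See `plans/SPN.md`. -/

set_option autoImplicit false
set_option linter.unusedSectionVars false

namespace CfsgLib.Spn

open Equiv Finset Cfsg CfsgLib.SymChar CfsgLib.Char
open scoped Nat ComplexConjugate

variable {G : Type*} [Group G] [Finite G] {Ω : Type*} [Fintype Ω] [DecidableEq Ω] (S : Sp G Ω)
  {δ : List ℤ → ℂ} {l : List ℤ}

theorem Sp.sum_Y_mul_conj [Fintype G] (hδ : Vac δ) (hl : Str l) (hn : l.sum = Fintype.card Ω) :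
    ∑ g, S.Y δ l g * conj (S.Y δ l g) = Nat.card G * (2 ^ l.length / 2 ^ Fintype.card Ω) := by
  have h1 : ∀ g, S.Y δ l g * conj (S.Y δ l g) =
      (fun σ : Perm Ω => (fun μ => ww μ * (X δ μ l * X δ μ l)) (ty σ)) (S.π g) *
        (2 ^ Fintype.card Ω)⁻¹ := by
    intro g
    obtain ⟨c, hc⟩ := hδ.X_int (ty (S.π g)) l
    have h2 := S.τ_mul_conj g
    simp only [Sp.Y, hc, map_mul, map_intCast]
    linear_combination (c : ℂ) * c * h2
  rw [sum_congr rfl fun g _ => h1 g, ← sum_mul,
    S.sum_π fun σ : Perm Ω => (fun μ => ww μ * (X δ μ l * X δ μ l)) (ty σ),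
    sum_ty fun μ => ww μ * (X δ μ l * X δ μ l), hδ.norm_self hl hn, S.card_eq]
  push_cast
  ring

private theorem irr_aux (k : ℕ) (y : ℂ) :
    2 ^ k * y * conj (2 ^ k * y) = 2 ^ k * 2 ^ k * (y * conj y) := by
  have : conj (2 : ℂ) = 2 := Complex.conj_ofNat 2
  rw [map_mul, map_pow, this]; ring

theorem Sp.exists_irr_even (hδ : Vac δ) (hl : Str l) (hn : l.sum = Fintype.card Ω)
    (he : Even (Fintype.card Ω - l.length)) : ∃ ψ : G → ℂ, IsIrrCharacter G ψ ∧
      ∃ ε : ℂ, (ε = 1 ∨ ε = -1) ∧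
        ∀ g, ψ g = ε * (2 ^ ((Fintype.card Ω - l.length) / 2) * S.Y δ l g) := by
  classical
  have := Fintype.ofFinite G
  obtain ⟨ψ, hψ, h⟩ := exists_irr_of_genChar_norm_one (S.isGenChar_Y hδ hl hn he) (by
    have h0 : (Nat.card G : ℂ) ≠ 0 := by exact_mod_cast Nat.card_pos.ne'
    obtain ⟨k, hk⟩ := he
    have hle : l.length ≤ Fintype.card Ω := by have := hl.length_le; omega
    have hk' : (Fintype.card Ω - l.length) / 2 = k := by omega
    have hn' : Fintype.card Ω = k + k + l.length := by omega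
    rw [classInner_def, sum_congr rfl fun g _ => irr_aux _ (S.Y δ l g), ← mul_sum,
      S.sum_Y_mul_conj hδ hl hn, hk', hn']
    field_simp
    ring)
  rcases h with h | h
  · exact ⟨ψ, hψ, 1, Or.inl rfl, fun g => by rw [← h, one_mul]⟩
  · exact ⟨ψ, hψ, -1, Or.inr rfl, fun g => by
      have := congrFun h g
      simp only [Pi.neg_apply] at this
      rw [this]; ring⟩

theorem Sp.exists_irr_odd (hδ : Vac δ) (hl : Str l) (hn : l.sum = Fintype.card Ω)
    (ho : Odd (Fintype.card Ω - l.length)) : ∃ θ : S.ev → ℂ, IsIrrCharacter S.ev θ ∧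
      ∃ ε : ℂ, (ε = 1 ∨ ε = -1) ∧
        ∀ g : S.ev, θ g = ε * (2 ^ ((Fintype.card Ω - l.length) / 2) * S.Y δ l g) := by
  classical
  have := Fintype.ofFinite G
  have hle : l.length ≤ Fintype.card Ω := by have := hl.length_le; omega
  obtain ⟨k, hk⟩ := ho
  have : Nontrivial Ω := by
    rw [← Fintype.one_lt_card_iff_nontrivial]
    by_contra hc
    have h1 : Fintype.card Ω = 1 := by omega
    have h2 : l.length = 0 := by omega
    rw [List.length_eq_zero_iff] at h2
    rw [h2, h1] at hn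
    simp at hn
  obtain ⟨ψ, hψ, h⟩ := exists_irr_of_genChar_norm_one (S.isGenChar_Y_ev hδ hl hn) (by
    have h0 : (Nat.card S.ev : ℂ) ≠ 0 := by exact_mod_cast Nat.card_pos.ne'
    have hk' : (Fintype.card Ω - l.length) / 2 = k := by omega
    have hn' : Fintype.card Ω = 2 * k + 1 + l.length := by omega
    have hs : ∑ g : S.ev, S.Y δ l g * conj (S.Y δ l g) = ∑ g, S.Y δ l g * conj (S.Y δ l g) := by
      rw [← sum_subtype (univ.filter fun g => g ∈ S.ev) (by simp)
        fun g => S.Y δ l g * conj (S.Y δ l g)]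
      refine sum_subset (filter_subset _ _) fun g _ hg => ?_
      rw [S.Y_of_notMem δ l (by simpa using hg), zero_mul]
    have hc : (Nat.card G : ℂ) = Nat.card S.ev * 2 := by
      rw [← S.ev.card_mul_index, S.index_ev]; push_cast; ring
    rw [classInner_def, sum_congr rfl fun (g : S.ev) _ => irr_aux _ (S.Y δ l g), ← mul_sum, hs,
      S.sum_Y_mul_conj hδ hl hn, hk', hn', hc]
    field_simp
    ring)
  rcases h with h | h
  · exact ⟨ψ, hψ, 1, Or.inl rfl, fun g => by rw [← h, one_mul]⟩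
  · exact ⟨ψ, hψ, -1, Or.inr rfl, fun g => by
      have := congrFun h g
      simp only [Pi.neg_apply] at this
      rw [this]; ring⟩

end CfsgLib.Spn
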