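import Mathlib
import Cfsg.Agent.Lib.Spn.Deg
import Cfsg.Agent.Auto.CfsgLib_Spn_Cq_eq_def

/-! Package VAL: bar weights.  See `plans/SPN.md`. -/

set_option autoImplicit false
set_option linter.unusedSectionVars false

namespace CfsgLib.Spn

open Equiv Finset Cfsg CfsgLib.SymChar CfsgLib.Char
open scoped Nat ComplexConjugate

variable {F δ : List ℤ → ℂ} {l l' : List ℤ} {p : ℕ}

/-- The summand in the definition of `Cq`. -/
def cqh (p : ℕ) (a b : ℤ) : ℤ :=
  (if (p : ℤ) ∣ a - b then (1 : ℤ) else 0) - if (p : ℤ) ∣ a + b then 1 else 0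

theorem Cq_cons (p : ℕ) (a : ℤ) (l : List ℤ) :
    Cq p (a :: l) = Cq p l - a % p - p * (l.map (cqh p a)).sum := rfl

theorem cqh_comm (p : ℕ) (a b : ℤ) : cqh p a b = cqh p b a := by
  simp only [cqh, dvd_sub_comm (b := a), add_comm a b]

theorem cqh_neg (p : ℕ) (a b : ℤ) : cqh p a (-b) = -cqh p a b := by
  simp only [cqh, sub_neg_eq_add, ← sub_eq_add_neg a b, neg_sub]

theorem cqh_zero (p : ℕ) (a : ℤ) : cqh p a 0 = 0 := by
  simp [cqh]

theorem cqh_sub (p : ℕ) (a b : ℤ) {k : ℤ} (hk : (p : ℤ) ∣ k) : cqh p a (b - k) = cqh p a b := by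
  have h1 : (p : ℤ) ∣ a - (b - k) ↔ (p : ℤ) ∣ a - b := by
    rw [show a - (b - k) = k + (a - b) by ring, dvd_add_right hk]
  have h2 : (p : ℤ) ∣ a + (b - k) ↔ (p : ℤ) ∣ a + b := by
    rw [show a + (b - k) = -k + (a + b) by ring, dvd_add_right hk.neg_right]
  simp only [cqh, h1, h2]

theorem Cq_append_congr (p : ℕ) (u : List ℤ) {v v' : List ℤ} (h : Cq p v' = Cq p v)
    (h' : ∀ a, (v'.map (cqh p a)).sum = (v.map (cqh p a)).sum) :
    Cq p (u ++ v') = Cq p (u ++ v) := by
  induction u with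
  | nil => exact h
  | cons a u ih =>
    simp only [List.cons_append, Cq_cons, ih, List.map_append, List.sum_append, h']

theorem emod_add_neg_emod (hp : Odd p) (a : ℤ) :
    a % p + (-a) % p + p * cqh p a (-a) = 0 := by
  have h2 : (p : ℤ) ∣ a - -a ↔ (p : ℤ) ∣ a := by
    rw [show a - -a = 2 * a by ring]
    refine ⟨fun h => IsCoprime.dvd_of_dvd_mul_left ?_ h, fun h => h.mul_left 2⟩
    exact_mod_cast Nat.isCoprime_iff_coprime.2 (Nat.coprime_two_right.2 hp)
  simp only [cqh, h2, add_neg_cancel, dvd_zero, if_true]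
  by_cases h : (p : ℤ) ∣ a
  · rw [if_pos h, Int.emod_eq_zero_of_dvd h, Int.emod_eq_zero_of_dvd h.neg_right]
    ring
  · rw [if_neg h, Int.neg_emod, if_neg h, Int.natAbs_natCast]
    ring

theorem Step.Cq_eq (hp : Odd p) (h : Step l l') : Cq p l' = Cq p l := by
  cases h with
  | swap u a b v =>
    refine Cq_append_congr p u ?_ fun c => ?_
    · simp only [Cq_cons, List.map_cons, List.sum_cons, cqh_comm p a b]
      ring
    · simp only [List.map_cons, List.sum_cons]
      ring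
  | pair u a v =>
    refine Cq_append_congr p u ?_ fun c => ?_
    · have h1 : (v.map (cqh p (-a))).sum = -(v.map (cqh p a)).sum := by
        induction v with
        | nil => simp
        | cons b v ih =>
          simp only [List.map_cons, List.sum_cons, ih, cqh_comm p (-a) b, cqh_neg, cqh_comm p b a]
          ring
      simp only [Cq_cons, List.map_cons, List.sum_cons, h1]
      linear_combination emod_add_neg_emod hp a
    · simp [cqh_neg]
  | zero u =>
    have := Cq_append_congr p l' (v' := []) (v := [0]) (by simp [Cq]) fun c => by simp [cqh_zero]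
    simpa using this

theorem Eqv.Cq_eq (hp : Odd p) (h : Eqv l l') : Cq p l' = Cq p l := by
  induction h with
  | refl => rfl
  | tail _ h ih => rw [h.Cq_eq hp, ih]

theorem Cq_sub (p : ℕ) (u : List ℤ) (a : ℤ) (v : List ℤ) {k : ℤ} (hk : (p : ℤ) ∣ k) :
    Cq p (u ++ (a - k) :: v) = Cq p (u ++ a :: v) := by
  refine Cq_append_congr p u ?_ fun c => ?_
  · have h1 : cqh p (a - k) = cqh p a := funext fun b => by
      rw [cqh_comm, cqh_sub p b a hk, cqh_comm]
    have h2 : (a - k) % p = a % p := by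
      obtain ⟨m, rfl⟩ := hk
      exact Int.sub_mul_emod_self_left a p m
    rw [Cq_cons, Cq_cons, h1, h2]
  · simp only [List.map_cons, List.sum_cons, cqh_sub p c a hk]

theorem Cq_ofFn (p : ℕ) {N : ℕ} (β : Fin N → ℤ) :
    Cq p (List.ofFn β) = -∑ i, β i % p - p * ∑ i, ∑ j ∈ Ioi i, cqh p (β i) (β j) := by
  induction N with
  | zero => simp [Cq]
  | succ N ih =>
    rw [List.ofFn_succ, Cq_cons, ih, List.map_ofFn, List.sum_ofFn]
    simp only [Fin.sum_univ_succ, Fin.sum_Ioi_zero, Fin.sum_Ioi_succ, Function.comp]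
    ring

theorem sum_below {N : ℕ} {β : Fin N → ℤ} (h : Function.Injective β) (p : ℕ) :
    ∑ c, below p β c = ∑ i, #{j ∈ Ioi i | (p : ℤ) ∣ β i - β j} := by
  have h1 := card_pairs h p
  have h2 := sum_sum_Ioi_add_eq_sum_sum_off_diag
    (fun j i : Fin N => if (p : ℤ) ∣ β i - β j then 1 else 0)
  have h3 : #{x : Fin N × Fin N | x.1 ≠ x.2 ∧ (p : ℤ) ∣ β x.1 - β x.2} =
      ∑ i, ∑ j ∈ {i}ᶜ, if (p : ℤ) ∣ β i - β j then 1 else 0 := by
    rw [card_filter, ← univ_product_univ, sum_product]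
    refine sum_congr rfl fun i _ => ?_
    rw [← card_filter, ← card_filter]
    congr 1
    ext j
    simp [eq_comm]
  have h4 : ∀ i j, ((if (p : ℤ) ∣ β i - β j then 1 else 0) +
      if (p : ℤ) ∣ β j - β i then 1 else 0 : ℕ) = 2 * if (p : ℤ) ∣ β i - β j then 1 else 0 :=
    fun i j => by simp only [dvd_sub_comm (b := β j), two_mul]
  simp only [h4, ← mul_sum] at h2
  rw [h3, ← h2] at h1
  simp only [card_filter]
  omega

theorem sum_add_Cq (hp : 0 < p) {N : ℕ} {β : Fin N → ℤ} (h : Good β) :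
    (List.ofFn β).sum + Cq p (List.ofFn β) =
      p * (hk p β + ∑ i, #{j ∈ Ioi i | (p : ℤ) ∣ β i + β j} : ℕ) := by
  have h1 : ∑ i, β i = p * ∑ i, β i / p + ∑ i, β i % p := by
    rw [mul_sum, ← sum_add_distrib]
    exact sum_congr rfl fun i _ => (Int.mul_ediv_add_emod _ _).symm
  have h2 : ∑ i, β i / p = (hk p β + ∑ i, #{j ∈ Ioi i | (p : ℤ) ∣ β i - β j} : ℕ) := by
    rw [← sum_below h.inj]
    simp only [h.ediv_eq hp, hk, sum_add_distrib]
    push_cast
    rfl
  rw [List.sum_ofFn, Cq_ofFn, h1, h2]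
  simp only [cqh, sum_sub_distrib, card_filter]
  push_cast
  ring

theorem Vac.WW_le (hδ : Vac δ) (hp : Odd p) {μ : Multiset ℕ} (hμ : ∀ k ∈ μ, Odd k)
    (h : X δ μ l ≠ 0) : (WW p μ : ℤ) ≤ l.sum + Cq p l := by
  have h0 := hδ.cov.X (μ := μ.filter fun k => ¬ p ∣ k) fun k hk => hμ k (Multiset.mem_filter.1 hk).1
  rw [← Multiset.filter_add_not (p ∣ ·) μ] at h
  have h1 : ∀ k ∈ μ.filter (p ∣ ·), p ∣ k := fun k hk => (Multiset.mem_filter.1 hk).2
  unfold WW
  generalize μ.filter (p ∣ ·) = ν at h h1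
  induction ν using Multiset.induction_on generalizing l with
  | empty =>
    rw [zero_add] at h
    obtain ⟨l', hl', -, he⟩ := h0.str h
    obtain ⟨β, hβ, h2, h3⟩ := hl'.exists_ofFn
    have h4 := sum_add_Cq hp.pos (β := β) ⟨h2.injective, fun i => (h3 i).le⟩
    rw [← hβ, he.sum_eq, he.Cq_eq hp] at h4
    rw [h4, Multiset.sum_zero, Nat.cast_zero]
    exact mul_nonneg (Int.natCast_nonneg _) (Int.natCast_nonneg _)
  | cons k ν ih =>
    rw [Multiset.cons_add, X_cons] at h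
    obtain ⟨u, a, v, rfl, hc⟩ := exists_of_T h
    have h2 := ih hc fun k hk => h1 k (Multiset.mem_cons_of_mem hk)
    rw [Cq_sub p u a v (Int.natCast_dvd_natCast.2 (h1 k (Multiset.mem_cons_self _ _)))] at h2
    simp only [List.sum_append, List.sum_cons, Multiset.sum_cons] at h2 ⊢
    push_cast at h2 ⊢
    linarith

theorem Vac.nvx (hδ : Vac δ) (hp : p.Prime) (h2 : p ≠ 2) {n : ℕ} (hl : Str l) (hn : l.sum = n) :
    ∃ g : ℕ, g ≠ 0 ∧ X δ (Multiset.replicate n 1) l = g ∧ ∀ μ : Multiset ℕ, (∀ k ∈ μ, Odd k) →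
      X δ μ l ≠ 0 → WW p μ + p * g.factorization p ≤ p * (n !).factorization p := by
  obtain ⟨β, hβ, h1, h0⟩ := hl.exists_ofFn
  generalize l.length = N at β hβ h1 h0
  subst hβ
  have hg : Good β := ⟨h1.injective, fun i => (h0 i).le⟩
  have hd := hδ.deg h1 h0 (by rw [← List.sum_ofFn, hn])
  obtain ⟨c, hc⟩ := hδ.X_int (Multiset.replicate n 1) (List.ofFn β)
  have h3 : ∀ i, ∀ j ∈ Ioi i, (β i - β j : ℂ) = ((β j - β i).natAbs : ℕ) := fun i j hj => by
    have := h1 (mem_Ioi.1 hj)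
    rw [← Int.cast_sub, ← Int.cast_natCast]
    congr 1
    omega
  have h4 : ∀ i j, (β i + β j : ℂ) = ((β i + β j).natAbs : ℕ) := fun i j => by
    have := h0 i
    have := h0 j
    rw [← Int.cast_add, ← Int.cast_natCast]
    congr 1
    omega
  have h5 : ∀ i j, (β i + β j).natAbs ≠ 0 := fun i j => by
    have := h0 i
    have := h0 j
    omega
  have h6 : (∏ i, ∏ j ∈ Ioi i, (β j - β i).natAbs) ≠ 0 :=
    prod_ne_zero_iff.2 fun i _ => prod_ne_zero_iff.2 fun j hj => by
      have := h1 (mem_Ioi.1 hj)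
      omega
  have h7 : (∏ i, ∏ j ∈ Ioi i, (β i + β j).natAbs) ≠ 0 :=
    prod_ne_zero_iff.2 fun i _ => prod_ne_zero_iff.2 fun j _ => h5 i j
  rw [prod_congr rfl fun i _ => prod_congr rfl (h3 i), hc, ← Nat.cast_prod, hg.prod_factorial]
    at hd
  simp only [h4, ← Nat.cast_prod] at hd
  have h8 : c * (HH β * ∏ i, ∏ j ∈ Ioi i, (β i + β j).natAbs : ℕ) = n ! := by
    refine Int.cast_injective (α := ℂ) ?_
    rw [Int.cast_mul, Int.cast_natCast, Int.cast_natCast]
    exact mul_right_cancel₀ (Nat.cast_ne_zero.2 h6) (by rw [← hd]; push_cast; ring)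
  have hc0 : 0 < c := by
    by_contra h
    have h9 := mul_nonpos_of_nonpos_of_nonneg (not_lt.1 h)
      (Int.natCast_nonneg (HH β * ∏ i, ∏ j ∈ Ioi i, (β i + β j).natAbs))
    rw [h8] at h9
    have := Nat.factorial_pos n
    omega
  lift c to ℕ using hc0.le
  have h9 : c * (HH β * ∏ i, ∏ j ∈ Ioi i, (β i + β j).natAbs) = n ! := by exact_mod_cast h8
  have hc1 : c ≠ 0 := by omega
  refine ⟨c, hc1, by rw [hc, Int.cast_natCast], fun μ hμ hX => ?_⟩
  have h10 := hδ.WW_le (hp.odd_of_ne_two h2) hμ hX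
  rw [sum_add_Cq hp.pos hg] at h10
  have h11 : ∑ i, #{j ∈ Ioi i | (p : ℤ) ∣ β i + β j} ≤
      (∏ i, ∏ j ∈ Ioi i, (β i + β j).natAbs).factorization p := by
    rw [Nat.factorization_prod fun i _ => prod_ne_zero_iff.2 fun j _ => h5 i j,
      Finsupp.finsetSum_apply]
    refine sum_le_sum fun i _ => ?_
    rw [Nat.factorization_prod fun j _ => h5 i j, Finsupp.finsetSum_apply, card_filter]
    refine sum_le_sum fun j _ => ?_
    split_ifs with h
    · exact hp.factorization_pos_of_dvd (h5 i j) (Int.natCast_dvd.1 h)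
    · exact Nat.zero_le _
  have h12 := hk_le_factorization hp β
  have h13 : WW p μ ≤ p * (hk p β + ∑ i, #{j ∈ Ioi i | (p : ℤ) ∣ β i + β j}) := by
    exact_mod_cast h10
  rw [← h9, Nat.factorization_mul hc1 (mul_ne_zero (HH_ne_zero β) h7),
    Nat.factorization_mul (HH_ne_zero β) h7, Finsupp.add_apply, Finsupp.add_apply, mul_add,
    add_comm]
  exact Nat.add_le_add_left (h13.trans (Nat.mul_le_mul_left p (add_le_add h12 h11))) _

end CfsgLib.Spn
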