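import Mathlib
import Cfsg.Agent.Lib.Spn.Irr
import Cfsg.Agent.Lib.Spn.Cmp
import Cfsg.Agent.Lib.Spn.Val
import Cfsg.Agent.Lib.Spn.Fock
import Cfsg.Agent.Lib.ChDeg.Cliff
import Cfsg.Agent.Lib.Cover.Quot
import Cfsg.Agent.Lib.SymChar.Nak

/-! Package LAB: non-vanishing bounds the defect.  See `plans/SPN.md`. -/

set_option autoImplicit false
set_option linter.unusedSectionVars false

namespace CfsgLib.Spn

open Equiv Finset Cfsg CfsgLib.SymChar CfsgLib.Char
open scoped Nat ComplexConjugate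

variable {G : Type*} [Group G] [Finite G] {Ω : Type*} [Fintype Ω] [DecidableEq Ω] (S : Sp G Ω) {p : ℕ}

theorem nv_perm (hp : p.Prime) {ψ : Perm Ω → ℂ} (hψ : IsIrrCharacter (Perm Ω) ψ) {σ : Perm Ω}
    (h : ψ σ ≠ 0) : WW p (ty σ) ≤ p * df p ψ := by
  obtain ⟨β, hβ⟩ := exists_lab (N := Fintype.card Ω) le_rfl ⟨ψ, hψ⟩
  have h1 := WW_le_of_XX hp.pos ((hβ.ne_zero_iff σ).1 h)
  have h2 := hk_le_factorization hp β
  have h3 : charDegree ψ * HH β = (Fintype.card Ω)! := hβ.degree_mul_HH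
  have h4 : df p ψ = (HH β).factorization p := by
    rw [df, Nat.card_perm, Nat.card_eq_fintype_card, ← h3,
      Nat.factorization_mul (ChDeg.deg_pos hψ).ne' (HH_ne_zero β), Finsupp.add_apply]
    omega
  rw [h4]
  exact h1.trans (Nat.mul_le_mul_left _ h2)

theorem lab_fact_two_pow (hp : p.Prime) (h2 : p ≠ 2) (a : ℕ) :
    (2 ^ a).factorization p = 0 :=
  Nat.factorization_eq_zero_of_not_dvd fun h =>
    h2 ((Nat.prime_dvd_prime_iff_eq hp Nat.prime_two).1 (hp.dvd_of_dvd_pow h))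

theorem lab_fact_deg (hp : p.Prime) (h2 : p ≠ 2) {K : Type*} [Group K] {ψ : K → ℂ}
    (hψ : IsIrrCharacter K ψ) {ε : ℂ} (hε : ε = 1 ∨ ε = -1) {a m : ℕ} (hm : m ≠ 0)
    (h : ψ 1 = ε * (2 ^ a * m)) : (charDegree ψ).factorization p = m.factorization p := by
  have h1 : charDegree ψ = 2 ^ a * m := by
    rcases hε with rfl | rfl
    · exact ChDeg.deg_eq_of_eq (by rw [h]; push_cast; ring)
    · obtain ⟨d, -, hd⟩ := exists_irr_one_eq_nat hψ
      have h3 : ((d + 2 ^ a * m : ℕ) : ℂ) = 0 := by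
        push_cast
        rw [← hd, h]
        ring
      have h4 : d + 2 ^ a * m = 0 := by exact_mod_cast h3
      exact absurd (Nat.add_eq_zero_iff.1 h4).2 (mul_ne_zero (pow_ne_zero _ two_ne_zero) hm)
  rw [h1, Nat.factorization_mul (pow_ne_zero _ two_ne_zero) hm, Finsupp.add_apply,
    lab_fact_two_pow hp h2, zero_add]

theorem Sp.nv_spin [Nontrivial Ω] (hp : p.Prime) (h2 : p ≠ 2) {Θ : G → ℂ}
    (hΘ : IsIrrCharacter G Θ) (hz : Θ S.z = -Θ 1) {g : G} (hg : g ∈ S.ev) (h : Θ g ≠ 0) :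
    WW p (ty (S.π g)) ≤ p * df p Θ := by
  classical
  have := Fintype.ofFinite G
  obtain ⟨δ, hδ⟩ := exists_vac
  obtain ⟨l, hl, hn, hi⟩ := S.exists_inner_ne_zero hδ (irr_one_ne_zero hΘ) hz
  obtain ⟨m, hm, hX, hW⟩ := hδ.nvx hp h2 hl hn
  have hY1 : S.Y δ l 1 = m := by rw [Sp.Y, S.τ_one, map_one, ty_one, hX, one_mul]
  have key : S.Y δ l g ≠ 0 ∧ (charDegree Θ).factorization p = m.factorization p := by
    rcases Nat.even_or_odd (Fintype.card Ω - l.length) with he | ho
    · obtain ⟨ψ, hψ, ε, hε, h3⟩ := S.exists_irr_even hδ hl hn he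
      have hε0 : ε ≠ 0 := by rcases hε with rfl | rfl <;> simp
      have h4 : ψ = (ε * 2 ^ ((Fintype.card Ω - l.length) / 2)) • S.Y δ l :=
        funext fun x => by rw [h3, Pi.smul_apply, smul_eq_mul, mul_assoc]
      have h5 : ψ = Θ := irr_eq_of_classInner_ne_zero hψ hΘ (by
        rw [h4, classInner_smul_left]
        exact mul_ne_zero (mul_ne_zero hε0 (pow_ne_zero _ two_ne_zero)) hi)
      subst h5
      refine ⟨fun h6 => h (by rw [h3, h6, mul_zero, mul_zero]), ?_⟩
      exact lab_fact_deg hp h2 hψ hε hm (by rw [h3, hY1])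
    · obtain ⟨θ, hθ, ε, hε, h3⟩ := S.exists_irr_odd hδ hl hn ho
      have hε0 : ε ≠ 0 := by rcases hε with rfl | rfl <;> simp
      have h4 : θ = (ε * 2 ^ ((Fintype.card Ω - l.length) / 2)) • fun x : S.ev => S.Y δ l x :=
        funext fun x => by rw [h3, Pi.smul_apply, smul_eq_mul, mul_assoc]
      have h5 : ∑ x : S.ev, S.Y δ l x * conj (Θ x) = ∑ x : G, S.Y δ l x * conj (Θ x) := by
        rw [← sum_subtype (s := univ.filter (· ∈ S.ev)) (by simp)
          (fun x : G => S.Y δ l x * conj (Θ x))]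
        refine sum_filter_of_ne fun x _ hx => ?_
        by_contra h6
        exact hx (by rw [S.Y_of_notMem δ l h6, zero_mul])
      have h6 : classInner (fun n : S.ev => Θ n) θ ≠ 0 := by
        intro h7
        have h8 := classInner_eq_zero_symm h7
        rw [h4, classInner_smul_left] at h8
        have h9 := (mul_eq_zero.1 h8).resolve_left
          (mul_ne_zero hε0 (pow_ne_zero _ two_ne_zero))
        have h10 := card_mul_classInner (fun x : S.ev => S.Y δ l x) fun n : S.ev => Θ n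
        rw [h9, mul_zero, h5, ← card_mul_classInner] at h10
        exact mul_ne_zero natCard_ne_zero hi h10.symm
      constructor
      · intro h7
        have h8 := Cover.card_mul_div_eq_sum_conjIrr S.ev ⟨Θ, hΘ⟩ ⟨θ, hθ⟩ h6 ⟨g, hg⟩
        rw [sum_eq_zero fun b _ => by
          rw [Cover.conjIrr_apply]
          exact (h3 _).trans (by rw [S.Y_conj, h7, mul_zero, mul_zero]), zero_div] at h8
        exact div_ne_zero (mul_ne_zero natCard_ne_zero h) (irr_one_ne_zero hΘ) h8
      · obtain ⟨e, he, h7⟩ := ChDeg.exists_deg_eq_mul S.ev hΘ hθ h6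
        rw [S.index_ev] at he
        have h8 : e.factorization p = 0 := Nat.factorization_eq_zero_of_not_dvd fun h9 =>
          h2 ((Nat.prime_dvd_prime_iff_eq hp Nat.prime_two).1 (h9.trans he))
        rw [h7, Nat.factorization_mul (ne_zero_of_dvd_ne_zero two_ne_zero he)
          (ChDeg.deg_pos hθ).ne', Finsupp.add_apply, h8, zero_add]
        exact lab_fact_deg hp h2 hθ hε hm (by rw [h3, OneMemClass.coe_one, hY1])
  have h3 := hW _ (S.odd_of_τ (left_ne_zero_of_mul key.1)) (right_ne_zero_of_mul key.1)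
  have h4 := lab_fact_two_pow hp h2 1
  rw [df, S.card_eq, Nat.factorization_mul two_ne_zero (Nat.factorial_ne_zero _),
    Finsupp.add_apply, key.2, show (2 : ℕ).factorization p = 0 from h4, zero_add, Nat.mul_sub]
  omega

theorem Sp.nv [Nontrivial Ω] (hp : p.Prime) (h2 : p ≠ 2) {Θ : G → ℂ}
    (hΘ : IsIrrCharacter G Θ) {g : G} (hg : g ∈ S.ev) (h : Θ g ≠ 0) :
    WW p (ty (S.π g)) ≤ p * df p Θ := by
  obtain ⟨c, hc⟩ := center_le_charCenter hΘ
    (Subgroup.mem_center_iff.2 fun x => S.z_comm x : S.z ∈ Subgroup.center G)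
  have h1 : Θ S.z = c * Θ 1 := by rw [← hc, mul_one]
  have h3 : (c : ℂ) * c = 1 := by
    have h4 := hc S.z
    rw [S.z_mul_z, h1, ← mul_assoc] at h4
    exact mul_right_cancel₀ (irr_one_ne_zero hΘ) (by rw [← h4, one_mul])
  rcases mul_self_eq_one_iff.1 h3 with h4 | h4
  · obtain ⟨ψ, hψ⟩ := Cover.exists_infl_eq S.π S.surj (χ := ⟨Θ, hΘ⟩) fun x hx => by
      rcases (S.ker x).1 hx with rfl | rfl
      · rfl
      · exact h1.trans (by rw [h4, one_mul])
    have h5 : Θ = (Cover.infl S.π S.surj ψ : G → ℂ) := (congrArg Subtype.val hψ).symm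
    have h6 : df p Θ = df p (ψ : Perm Ω → ℂ) := by
      rw [df, df, h5, Cover.charDegree_infl, S.card_eq, Nat.card_perm, Nat.card_eq_fintype_card,
        Nat.factorization_mul two_ne_zero (Nat.factorial_ne_zero _), Finsupp.add_apply,
        show (2 : ℕ).factorization p = 0 from lab_fact_two_pow hp h2 1, zero_add]
    rw [h6]
    exact nv_perm hp ψ.2 (by rwa [h5] at h)
  · exact S.nv_spin hp h2 hΘ (by rw [h1, h4, neg_one_mul]) hg h

end CfsgLib.Spn
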