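import Mathlib
import Cfsg.Agent.Lib.Spn.Ab
import Cfsg.Agent.Lib.Spn.SpB
import Cfsg.Agent.Lib.Block.Vanish
import Cfsg.Agent.Lib.Blk.Reg
import Cfsg.Agent.Lib.SymChar.Nak
import Cfsg.Agent.Lib.Cover.Passman

/-! Package MAJ: major subsections.  See `plans/SPN.md`. -/

set_option autoImplicit false
set_option linter.unusedSectionVars false

namespace CfsgLib.Spn

open Equiv Finset Cfsg CfsgLib.SymChar CfsgLib.Char CfsgLib.Fusion
open scoped Nat ComplexConjugate

variable {G : Type*} [Group G] [Finite G] {p : ℕ} {M : Ideal AlgInt} {B : Set (IrrCharacter G)}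
  {D : Subgroup G} {χ : IrrCharacter G}

theorem maj (hM : IsPModular p M) (hB : IsPBlock M B) {y : G} (hy : IsDefectClass M B y)
    (hD : SylIn p D (Subgroup.centralizer {y})) {x : G} (hx : x ∈ D)
    (hc : ∀ d ∈ D, d * x = x * d) (hχ : χ ∈ B) : (χ : G → ℂ) (x * y) ≠ 0 := by
  intro h0
  refine Block.not_li_centralChar_mul_of_isDefectClass hM hB hy hD hx
    (Subgroup.mem_centralizer_iff.2 hc) hχ ?_
  rw [centralChar, h0, mul_zero, zero_div]
  exact Block.li_zero hM

theorem Sp.maj_comm {Ω : Type*} [Fintype Ω] [DecidableEq Ω] (S : Sp G Ω) {g y : G}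
    (ho : Odd (orderOf g)) (h : S.π g * S.π y = S.π y * S.π g) : g * y = y * g := by
  have h1 : S.π (g * y * g⁻¹) = S.π y := by
    rw [map_mul, map_mul, h, map_inv, mul_inv_cancel_right]
  rcases S.eq_or_eq h1 with h2 | h2
  · exact mul_inv_eq_iff_eq_mul.1 h2
  exfalso
  have h3 : ∀ n : ℕ, g ^ n * y * (g ^ n)⁻¹ = S.z ^ n * y := fun n => by
    induction n with
    | zero => simp
    | succ n ih =>
      have hz : g * S.z ^ n = S.z ^ n * g := (Commute.pow_right (S.z_comm g) n).eq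
      calc g ^ (n + 1) * y * (g ^ (n + 1))⁻¹ = g * (g ^ n * y * (g ^ n)⁻¹) * g⁻¹ := by group
        _ = S.z ^ n * (g * y * g⁻¹) := by rw [ih, ← mul_assoc, hz]; group
        _ = S.z ^ (n + 1) * y := by rw [h2]; group
  have h4 := h3 (orderOf g)
  obtain ⟨k, hk⟩ := ho
  rw [pow_orderOf_eq_one, hk, pow_succ, pow_mul, pow_two, S.z_mul_z] at h4
  exact S.z_ne_one (by simpa using h4.symm)

theorem maj_odd (hp : p.Prime) (h2 : p ≠ 2) {P : Subgroup G} (hP : IsPGroup p P) {g : G}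
    (hg : g ∈ P) : Odd (orderOf g) := by
  obtain ⟨k, hk⟩ := Block.pElt_of_mem_isPGroup hp hP hg
  exact hk ▸ (hp.odd_of_ne_two h2).pow

theorem Sp.maj_syl {Ω : Type*} [Fintype Ω] [DecidableEq Ω] (S : Sp G Ω) (hp : p.Prime)
    (h2 : p ≠ 2) {y : G} (hD : SylIn p D (Subgroup.centralizer {y})) :
    SylIn p (D.map S.π) (Subgroup.centralizer {S.π y}) := by
  have := Fact.mk hp
  refine sylIn_of_max ?_ (hD.isPGroup.map _) fun U hU hDU hUC => ?_
  · rintro _ ⟨d, hd, rfl⟩
    rw [Subgroup.mem_centralizer_singleton_iff, ← map_mul, ← map_mul,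
      Subgroup.mem_centralizer_singleton_iff.1 (hD.le hd)]
  obtain ⟨E, hE, hDE⟩ := exists_sylIn_ge hD.isPGroup (Subgroup.map_le_iff_le_comap.1 hDU)
  have h3 : E = D := hD.eq_of_le hE.isPGroup hDE fun g hg =>
    Subgroup.mem_centralizer_singleton_iff.2 (S.maj_comm (maj_odd hp h2 hE.isPGroup hg)
      (Subgroup.mem_centralizer_singleton_iff.1 (hUC (hE.le hg))))
  have h4 := hE.map S.π
  rw [Subgroup.map_comap_eq_self_of_surjective S.surj, h3] at h4
  exact (h4.eq_of_isPGroup hU).ge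

theorem Sp.maj_card {Ω : Type*} [Fintype Ω] [DecidableEq Ω] (S : Sp G Ω) (hp : p.Prime)
    (h2 : p ≠ 2) {A : Subgroup G} (hA : IsPGroup p A) : Nat.card (A.map S.π) = Nat.card A := by
  have h1 : Function.Injective (S.π.comp A.subtype) := by
    rw [injective_iff_map_eq_one]
    intro a ha
    rcases (S.ker a).1 ha with h | h
    · exact Subtype.ext h
    · have h3 := maj_odd hp h2 hA a.2
      rw [h, orderOf_eq_prime (p := 2) (by rw [pow_two, S.z_mul_z]) S.z_ne_one] at h3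
      exact absurd h3 (by decide)
  rw [Nat.card_congr (MonoidHom.ofInjective h1).toEquiv, MonoidHom.range_comp,
    Subgroup.range_subtype]

theorem Sp.fs {Ω : Type*} [Fintype Ω] [DecidableEq Ω] (S : Sp G Ω) (hp : p.Prime) (h2 : p ≠ 2)
    {y : G} (hy : ¬ p ∣ orderOf y) (hD : SylIn p D (Subgroup.centralizer {y})) :
    ∃ x ∈ D, (∀ d ∈ D, d * x = x * d) ∧ ∀ A : Subgroup G, A ≤ D → IsMulCommutative A →
      p * (Nat.card A).factorization p ≤ WW p (ty (S.π (x * y))) := by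
  have hS := S.maj_syl hp h2 hD
  obtain ⟨_, ⟨x, hx, rfl⟩, hc, hf⟩ := exists_central_full hp hS
  refine ⟨x, hx, fun d hd => S.maj_comm (maj_odd hp h2 hD.isPGroup hd) (hc _ ⟨d, hd, rfl⟩),
    fun A hA hcA => ?_⟩
  have hAp : IsPGroup p A := hD.isPGroup.to_le hA
  have h1 := ab_bound hp (hAp.map S.π) inferInstance (T := (S.π x).support)
    fun d hd ω hω => hf ω (Perm.notMem_support.1 hω) d (Subgroup.map_mono hA hd)
  rw [S.maj_card hp h2 hAp] at h1
  rw [map_mul, WW_ty_of_isPPart hp (Block.isPPart_mul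
    (Subgroup.mem_centralizer_singleton_iff.1 (hS.le ⟨x, hx, rfl⟩))
    (Block.pElt_of_mem_isPGroup hp hS.isPGroup ⟨x, hx, rfl⟩)
    fun h => hy (h.trans (orderOf_map_dvd _ _)))]
  exact h1

end CfsgLib.Spn
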