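import Mathlib
import Cfsg.Agent.Lib.Spn.Maj
import Cfsg.Agent.Lib.Spn.Red
import Cfsg.Agent.Lib.Spn.Lab
import Cfsg.Agent.Lib.SymChar.Two
import Cfsg.Agent.Lib.Cover.Graded

/-! Package IDX: the double cover, odd primes.  See `plans/SPN.md`. -/

set_option autoImplicit false
set_option linter.unusedSectionVars false

namespace CfsgLib.Spn

open Equiv Finset Cfsg CfsgLib.SymChar CfsgLib.Char CfsgLib.Fusion
open scoped Nat ComplexConjugate

variable {G : Type*} [Group G] [Finite G] {Ω : Type*} [Fintype Ω] [DecidableEq Ω] (S : Sp G Ω) {p : ℕ} {M : Ideal AlgInt}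

theorem idx_le {N U : Subgroup G} (hN : N.index = 2) (hp : Odd p) (hU : IsPGroup p U) : U ≤ N := fun g hg => by
  obtain ⟨k, hk⟩ := hU ⟨g, hg⟩
  obtain ⟨j, hj⟩ := hp.pow (n := k)
  have e : (g * g) ^ j * g = 1 := by
    rw [← pow_two, ← pow_mul, ← pow_succ, ← hj]; exact congrArg Subtype.val hk
  rw [eq_inv_of_mul_eq_one_right e]
  exact inv_mem (pow_mem (Subgroup.mul_self_mem_of_index_two hN g) j)

theorem Sp.all_odd [Nontrivial Ω] (hM : IsPModular p M) (h2 : p ≠ 2) : All p M S.ev := by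
  classical
  intro b hb D hD χ hχ
  have hp := hM.1
  have := Fact.mk hp
  have ho := hp.odd_of_ne_two h2
  have := Fintype.ofFinite G
  have f2 : ∀ e, e ∣ 2 → e.factorization p = 0 := fun e he => Nat.factorization_eq_zero_of_not_dvd fun d =>
    h2 ((Nat.prime_dvd_prime_iff_eq hp Nat.prime_two).1 (d.trans he))
  obtain ⟨Θ, hΘ⟩ := Cover.exists_over S.ev χ
  obtain ⟨e, he, hd⟩ := ChDeg.exists_deg_eq_mul S.ev Θ.2 χ.2 hΘ
  rw [S.index_ev] at he
  have hdf : df p (Θ : G → ℂ) = df p (χ : S.ev → ℂ) := by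
    rw [df, df, hd, ← S.ev.card_mul_index, S.index_ev, Nat.factorization_mul Nat.card_pos.ne' two_ne_zero,
      Nat.factorization_mul (ne_zero_of_dvd_ne_zero two_ne_zero he) (Block.charDegree_ne_zero χ.2), Finsupp.add_apply,
      Finsupp.add_apply, f2 2 dvd_rfl, f2 e he, add_zero, zero_add]
  suffices h : ∃ y, ¬ p ∣ orderOf y ∧ SylIn p (D.map S.ev.subtype) (Subgroup.centralizer {y}) ∧
      ∀ x ∈ D.map S.ev.subtype, (∀ d ∈ D.map S.ev.subtype, d * x = x * d) →
        x * y ∈ S.ev ∧ (Θ : G → ℂ) (x * y) ≠ 0 by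
    obtain ⟨y, hy, hS, h⟩ := h
    obtain ⟨x, hx, hc, hA⟩ := S.fs hp h2 hy hS
    refine goal_of_ab hM hb hD hχ fun A hAD hA' => Nat.le_of_mul_le_mul_left ?_ hp.pos
    rw [← hdf, ← Subgroup.card_map_of_injective S.ev.subtype_injective]
    exact (hA _ (Subgroup.map_mono hAD) inferInstance).trans (S.nv hp h2 Θ.2 (h x hx hc).1 (h x hx hc).2)
  by_cases h : ∃ g ∉ S.ev, (Θ : G → ℂ) g ≠ 0
  · obtain ⟨g, hg, h⟩ := h
    have e := irr_eq_of_classInner_ne_zero (isIrr_res_of_ne_zero S.index_ev Θ.2 hg h) χ.2 (by convert hΘ)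
    obtain ⟨y, hy, hS⟩ := Block.isDefectGroup_iff.1 hD
    refine ⟨y, by rw [Subgroup.orderOf_coe]; exact Cover.not_dvd_of_not_li_blockCoeff hM hb hy.2.1,
      sylIn_of_max ?_ (hS.isPGroup.map _) fun U hU h1 h3 u hu => ?_, ?_⟩
    · rintro _ ⟨d, hd, rfl⟩
      exact Subgroup.mem_centralizer_singleton_iff.2
        (congrArg Subtype.val (Subgroup.mem_centralizer_singleton_iff.1 (hS.le hd)))
    · exact ⟨⟨u, idx_le S.index_ev ho hU hu⟩, (hS.eq_of_le (U := U.subgroupOf S.ev) hU.comap_subtype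
        (Subgroup.map_le_iff_le_comap.1 h1) fun v hv => Subgroup.mem_centralizer_singleton_iff.2
          (Subtype.ext (Subgroup.mem_centralizer_singleton_iff.1 (h3 hv)))).le hu, rfl⟩
    · rintro _ ⟨x, hx, rfl⟩ hc
      refine ⟨(x * y).2, ?_⟩
      have := maj hM hb hy hS hx (fun d hd => Subtype.ext (hc _ ⟨d, hd, rfl⟩)) hχ
      rwa [← e] at this
  · push Not at h
    obtain ⟨P, hP, hPD⟩ := Cover.exists_isDefectGroup_inf_eq S.ev hM (Block.isPBlock_blockOf Θ) hb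
      ⟨Θ, Block.mem_blockOf_self hM Θ, χ, hχ, hΘ⟩ (Subgroup.map_subtype_le D)
      (by rwa [Subgroup.subgroupOf, Subgroup.comap_map_eq_self_of_injective (Subgroup.subtype_injective _)])
    obtain ⟨y, hy, hS⟩ := Block.isDefectGroup_iff.1 hP
    rw [inf_eq_left.2 (idx_le S.index_ev ho hS.isPGroup)] at hPD
    rw [← hPD]
    refine ⟨y, Cover.not_dvd_of_not_li_blockCoeff hM (Block.isPBlock_blockOf Θ) hy.2.1, hS, fun x hx hc => ?_⟩
    have := maj hM (Block.isPBlock_blockOf Θ) hy hS hx hc (Block.mem_blockOf_self hM Θ)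
    exact ⟨by_contra fun m => this (h _ m), this⟩

end CfsgLib.Spn
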