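import Mathlib
import Cfsg.Agent.Lib.Spn.Defs
import Cfsg.Agent.Lib.AltCover.Spin

/-! Package PIN: the double cover of the symmetric group exists.  See `plans/SPN.md`. -/

set_option autoImplicit false
set_option linter.unusedSectionVars false

namespace CfsgLib.Spn

open Equiv Finset Cfsg CfsgLib.SymChar CfsgLib.Char
open scoped Nat ComplexConjugate



/-- a family of anticommuting involutions exists on `V` -/
def PinGam (ι V : Type*) [AddCommGroup V] [Module ℂ V] : Prop :=
  ∃ Γ : ι → Module.End ℂ V, (∀ a, Γ a * Γ a = 1) ∧ ∀ a b, a ≠ b → Γ a * Γ b = -(Γ b * Γ a)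

theorem PinGam.congr {ι κ V W : Type*} [AddCommGroup V] [Module ℂ V] [AddCommGroup W] [Module ℂ W]
    (h : PinGam ι V) (e : κ ≃ ι) (f : V ≃ₗ[ℂ] W) : PinGam κ W := by
  obtain ⟨Γ, h1, h2⟩ := h
  exact ⟨fun a => f.conjAlgEquiv ℂ (Γ (e a)), fun a => by rw [← map_mul, h1, map_one],
    fun a b hab => by rw [← map_mul, ← map_mul, h2 _ _ (e.injective.ne hab), map_neg]⟩

theorem PinGam.step {ι V : Type*} [AddCommGroup V] [Module ℂ V] (h : PinGam ι V) :
    PinGam (ι ⊕ Fin 2) (V × V) := by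
  obtain ⟨Γ, h1, h2⟩ := h
  have e1 : ∀ a x, Γ a (Γ a x) = x := fun a x => LinearMap.congr_fun (h1 a) x
  have e2 : ∀ a b, a ≠ b → ∀ x, Γ a (Γ b x) = -Γ b (Γ a x) := fun a b hab x => LinearMap.congr_fun (h2 a b hab) x
  refine ⟨Sum.elim (fun a => (Γ a).prodMap (-Γ a)) ![(LinearMap.snd ℂ V V).prod (LinearMap.fst ℂ V V),
    (-Complex.I • LinearMap.snd ℂ V V).prod (Complex.I • LinearMap.fst ℂ V V)], ?_, ?_⟩
  · rintro (a | a)
    · exact LinearMap.ext fun x => by simp [e1]
    · fin_cases a <;> exact LinearMap.ext fun x => by simp [smul_smul]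
  · rintro (a | a) (b | b) hab
    · exact LinearMap.ext fun x => by simp [e2 a b fun e => hab (congrArg _ e)]
    · fin_cases b <;> exact LinearMap.ext fun x => by simp
    · fin_cases a <;> exact LinearMap.ext fun x => by simp
    · fin_cases a <;> fin_cases b
      · exact absurd rfl hab
      · exact LinearMap.ext fun x => by simp
      · exact LinearMap.ext fun x => by simp
      · exact absurd rfl hab

theorem exists_gamma (k : ℕ) : ∃ Γ : Fin (2 * k + 1) → Module.End ℂ (Fin (2 ^ k) → ℂ),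
    (∀ a, Γ a * Γ a = 1) ∧ ∀ a b, a ≠ b → Γ a * Γ b = -(Γ b * Γ a) := by
  show PinGam _ _
  induction k with
  | zero => exact ⟨fun _ => 1, fun _ => mul_one _, fun a b h => absurd (Subsingleton.elim (α := Fin 1) a b) h⟩
  | succ k ih =>
    exact ih.step.congr (Fintype.equivOfCardEq (by simp; ring))
      (LinearEquiv.ofFinrankEq _ _ (by simp [pow_succ]; ring))

theorem pin_sq_sum {R A ι : Type*} [CommRing R] [Ring A] [Algebra R A] {γ : ι → A} {d : R}
    (h1 : ∀ a, γ a * γ a = d • 1) (h2 : ∀ a b, a ≠ b → γ a * γ b = -(γ b * γ a)) (c : ι → R) (s : Finset ι) :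
    (∑ i ∈ s, c i • γ i) * ∑ i ∈ s, c i • γ i = (∑ i ∈ s, d * (c i * c i)) • 1 := by
  classical
  induction s using Finset.induction_on with
  | empty => simp
  | insert a s ha ih =>
    have e : γ a * ∑ i ∈ s, c i • γ i = -((∑ i ∈ s, c i • γ i) * γ a) := by
      rw [mul_sum, sum_mul, ← sum_neg_distrib]
      exact sum_congr rfl fun i hi => by
        rw [mul_smul_comm, smul_mul_assoc, h2 a i (fun e => ha (e ▸ hi)), smul_neg]
    rw [sum_insert ha, sum_insert ha, add_mul, mul_add, mul_add, ih, smul_mul_assoc, smul_mul_assoc,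
      mul_smul_comm, mul_smul_comm, e, h1]
    module

theorem exists_sp (Ω : Type) [Fintype Ω] [DecidableEq Ω] :
    ∃ (G : Type) (_ : Group G) (_ : Finite G), Nonempty (Sp G Ω) := by
  obtain ⟨Γ, h1, h2⟩ := PinGam.congr (exists_gamma (Fintype.card Ω))
    (Fintype.equivOfCardEq (α := Ω ⊕ Fin (Fintype.card Ω + 1)) (by simp; ring)) (LinearEquiv.refl ℂ (Sv Ω))
  set c : ℂ := ((Real.sqrt 2 : ℝ) : ℂ)⁻¹ with hc
  have cc : c * c = ((1 / 2 : ℚ) : ℂ) := by
    rw [hc, ← mul_inv, ← Complex.ofReal_mul, Real.mul_self_sqrt zero_le_two]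
    norm_num
  let L := CliffordAlgebra.lift (AltCover.Qf Ω) ⟨Fintype.linearCombination ℚ fun i => c • Γ (.inl i), fun v => by
    rw [Fintype.linearCombination_apply, AltCover.Qf_apply, Algebra.algebraMap_eq_smul_one]
    exact pin_sq_sum (fun a => by rw [smul_mul_smul_comm, h1, cc, Rat.cast_smul_eq_qsmul]) (fun a b hab => by
      rw [smul_mul_smul_comm, smul_mul_smul_comm, h2 _ _ (Sum.inl_injective.ne hab), smul_neg]) v _⟩
  let G := Schur.pullback (AltCover.phi Ω) (QuotientGroup.mk' (AltCover.NN Ω))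
  let z : G := ⟨(1, -1), by rw [Schur.mem_pullback, map_one]; exact (AltCover.mk_neg 1).symm⟩
  have hk : ∀ g : G, Schur.pbFst _ _ g = 1 ↔ g = 1 ∨ g = z := fun x => ⟨fun h1 : x.1.1 = 1 => by
    have h2 : (QuotientGroup.mk' (AltCover.NN Ω)) x.1.2 = 1 := by
      rw [← Schur.mem_pullback.1 x.2, h1, map_one]
    exact (AltCover.mem_NN.1 ((QuotientGroup.eq_one_iff _).1 h2)).imp (fun h => Subtype.ext (Prod.ext h1 h))
      fun h => Subtype.ext (Prod.ext h1 h), by rintro (rfl | rfl) <;> rfl⟩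
  have : Finite (Schur.pbFst (AltCover.phi Ω) (QuotientGroup.mk' (AltCover.NN Ω))).ker :=
    (Set.toFinite {1, z}).subset fun g hg => (hk g).1 hg
  refine ⟨G, inferInstance, MonoidHom.finite_iff_finite_ker_range (Schur.pbFst _ _) |>.2 ⟨this, inferInstance⟩, ⟨⟨Schur.pbFst _ _, z,
    fun i j => ⟨(swap i j, AltCover.U i j), AltCover.phi_swap i j⟩, Γ,
    (L : _ →* _).comp ((Units.coeHom _).comp (Schur.pbSnd _ _)),
    Schur.pbFst_surjective _ (QuotientGroup.mk'_surjective _), hk, fun _ _ => rfl, ?_, fun i j hij => ?_, h1, h2⟩⟩⟩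
  · show L ((-1 : AltCover.CU Ω) : CliffordAlgebra (AltCover.Qf Ω)) = -1
    rw [Units.val_neg, Units.val_one, map_neg, map_one]
  · show L (AltCover.U i j : CliffordAlgebra (AltCover.Qf Ω)) = _
    rw [AltCover.coe_U hij, CliffordAlgebra.lift_ι_apply, AltCover.rt, map_sub,
      Fintype.linearCombination_apply_single, Fintype.linearCombination_apply_single, one_smul, one_smul, smul_sub]

end CfsgLib.Spn
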