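import Mathlib
import Cfsg.Agent.Lib.Spn.Red
import Cfsg.Prelude.Def_KGroupFacts
import Cfsg.Agent.Lib.AltCover.Mult

/-! Package SM3: the exceptional covers, easy cases.  See `plans/SPN.md`. -/

set_option autoImplicit false
set_option linter.unusedSectionVars false

namespace CfsgLib.Spn

open Equiv Finset Cfsg CfsgLib.SymChar CfsgLib.Char
open scoped Nat ComplexConjugate

theorem all_of_sylow {G : Type*} [Group G] [Finite G] {p : ℕ} {M : Ideal AlgInt}
    (hM : IsPModular p M) (h : ∀ P : Sylow p G, Nat.card P ≤ p ^ 2 ∨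
      (Nat.card P ≤ p ^ 3 ∧ ¬ IsMulCommutative (P : Subgroup G))) : All p M G := by
  intro B hB D hD χ hχ
  have : Fact p.Prime := ⟨hM.1⟩
  have hp : IsPGroup p D := Block.isPGroup_of_isDefectGroup hD
  obtain ⟨P, hP⟩ := hp.exists_le_sylow
  have hle : Nat.card D ≤ Nat.card P := Subgroup.card_le_of_le hP
  rcases h P with h | ⟨h, hn⟩
  · exact goal_of_sq hM hB hD hχ (hle.trans h)
  · by_cases he : D = P
    · exact goal_of_cube hM hB hD hχ (he ▸ hn) (hle.trans h)
    · refine goal_of_sq hM hB hD hχ ?_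
      have hlt : Nat.card D < Nat.card P :=
        lt_of_le_of_ne hle fun h' => he (Subgroup.eq_of_le_of_card_ge hP h'.ge)
      obtain ⟨k, hk⟩ := IsPGroup.iff_card.1 hp
      rw [hk] at hlt ⊢
      have := (Nat.pow_lt_pow_iff_right hM.1.one_lt).1 (hlt.trans_le h)
      exact Nat.pow_le_pow_right hM.1.pos (by omega)

open scoped IsMulCommutative in
theorem sylow_not_comm_of_central {G : Type*} [Group G] [Finite G] [Group.IsPerfect G] {p : ℕ}
    [Fact p.Prime] (P : Sylow p G) {c : G} (hc : c ∈ Subgroup.center G) (hcP : c ∈ P)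
    (h1 : c ≠ 1) : ¬ IsMulCommutative (P : Subgroup G) := by
  intro hcomm
  have e1 := MonoidHom.transfer_eq_pow (MonoidHom.id (P : Subgroup G)) c fun k g _ => by
    have : Commute g c := Subgroup.mem_center_iff.1 hc g
    rw [mul_assoc, ← (this.pow_right k).eq, inv_mul_cancel_left]
  have e2 : MonoidHom.transfer (MonoidHom.id (P : Subgroup G)) c = 1 :=
    Abelianization.commutator_subset_ker _ Group.IsPerfect.mem_commutator
  rw [e2] at e1
  have e3 : c ^ (P : Subgroup G).index = 1 := (congrArg Subtype.val e1).symm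
  obtain ⟨k, hk⟩ := P.isPGroup' ⟨c, hcP⟩
  have e4 : c ^ p ^ k = 1 := congrArg Subtype.val hk
  apply h1
  rw [← orderOf_eq_one_iff]
  exact Nat.eq_one_of_dvd_coprimes (Nat.Coprime.pow_left k
    ((Nat.Prime.coprime_iff_not_dvd Fact.out).2 P.not_dvd_index))
    (orderOf_dvd_of_pow_eq_one e4) (orderOf_dvd_of_pow_eq_one e3)

theorem sylow_not_comm_of_dihedral {G : Type*} [Group G] [Finite G] (P : Sylow 2 G) {a b : G}
    (ha : a ^ 4 = 1) (hb : b * b = 1) (hab : b * a * b⁻¹ = a⁻¹) (hn : a * b ≠ b * a) :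
    ¬ IsMulCommutative (P : Subgroup G) := by
  intro hcomm
  have pa : IsPGroup 2 (Subgroup.zpowers a) := IsPGroup.of_card_dvd_pow (n := 2) (by
    rw [Nat.card_zpowers]; exact orderOf_dvd_of_pow_eq_one ha)
  have pb : IsPGroup 2 (Subgroup.zpowers b) := IsPGroup.of_card_dvd_pow (n := 1) (by
    rw [Nat.card_zpowers]; exact orderOf_dvd_of_pow_eq_one (by rw [pow_one, pow_two, hb]))
  have hN : Subgroup.zpowers b ≤ Subgroup.normalizer (Subgroup.zpowers a : Subgroup G) := by
    rw [Subgroup.zpowers_le]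
    refine Subgroup.mem_normalizer_fintype fun n hn => ?_
    obtain ⟨k, rfl⟩ := Subgroup.mem_zpowers_iff.1 hn
    rw [← conj_zpow, hab]
    exact Subgroup.zpow_mem _ (Subgroup.inv_mem _ (Subgroup.mem_zpowers a)) k
  obtain ⟨Q, hQ⟩ := (pb.to_sup_of_normal_right' pa hN).exists_le_sylow
  have haQ : a ∈ Q := hQ (Subgroup.mem_sup_right (Subgroup.mem_zpowers a))
  have hbQ : b ∈ Q := hQ (Subgroup.mem_sup_left (Subgroup.mem_zpowers b))
  let e := Sylow.equiv Q P
  have := hcomm.is_comm.comm (e ⟨a, haQ⟩) (e ⟨b, hbQ⟩)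
  rw [← map_mul, ← map_mul] at this
  exact hn (congrArg Subtype.val (e.injective this))

theorem alt_sylow_not_comm {m : ℕ} (hm : m = 5 ∨ m = 6)
    (P : Sylow 2 (alternatingGroup (Fin (m + 1)))) :
    ¬ IsMulCommutative (P : Subgroup (alternatingGroup (Fin (m + 1)))) := by
  rcases hm with rfl | rfl
  · exact sylow_not_comm_of_dihedral P
      (a := ⟨swap 0 1 * swap 1 2 * swap 2 3 * swap 4 5, Perm.mem_alternatingGroup.2 (by decide)⟩)
      (b := ⟨swap 0 2 * swap 4 5, Perm.mem_alternatingGroup.2 (by decide)⟩)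
      (Subtype.ext (by decide)) (Subtype.ext (by decide))
      (Subtype.ext (by decide)) fun h => absurd (congrArg Subtype.val h) (by decide)
  · exact sylow_not_comm_of_dihedral P
      (a := ⟨swap 0 1 * swap 1 2 * swap 2 3 * swap 4 5, Perm.mem_alternatingGroup.2 (by decide)⟩)
      (b := ⟨swap 0 2 * swap 4 5, Perm.mem_alternatingGroup.2 (by decide)⟩)
      (Subtype.ext (by decide)) (Subtype.ext (by decide))
      (Subtype.ext (by decide)) fun h => absurd (congrArg Subtype.val h) (by decide)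

variable {H : Type*} [Group H] [Finite H] {m p : ℕ} {M : Ideal AlgInt}
  {σ : H →* alternatingGroup (Fin (m + 1))}

theorem card_ker_dvd (hm : 4 ≤ m) (hσ : IsStemExtension σ) : Nat.card σ.ker ∣ 6 := by
  obtain ⟨c, h1, -, h2⟩ := AltCover.ker_le_six hm hσ
  refine (Subgroup.card_dvd_of_le h1).trans ?_
  rw [Nat.card_zpowers]
  exact orderOf_dvd_of_pow_eq_one h2

theorem card_small_dvd (hm : m = 5 ∨ m = 6) (hσ : IsStemExtension σ) :
    Nat.card H ∣ Nat.card σ.ker * 2520 := by
  rw [← σ.ker.card_mul_index, Subgroup.index_ker, MonoidHom.range_eq_top_of_surjective σ hσ.1,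
    Subgroup.card_top]
  refine mul_dvd_mul_left _ ?_
  rcases hm with rfl | rfl
  · rw [nat_card_alternatingGroup, Nat.card_fin]; decide
  · rw [nat_card_alternatingGroup, Nat.card_fin]; decide

theorem all_small_odd (hm : m = 5 ∨ m = 6) (hσ : IsStemExtension σ) (h3 : 3 ∣ Nat.card σ.ker)
    (hM : IsPModular p M) (h2 : p ≠ 2) : All p M H := by
  have hp : p.Prime := hM.1
  have : Fact p.Prime := ⟨hp⟩
  refine all_of_sylow hM fun P => ?_
  obtain ⟨k, hk⟩ := IsPGroup.iff_card.1 P.isPGroup'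
  have hd : p ^ k ∣ 6 * 2520 := by
    rw [← hk]
    exact (Subgroup.card_subgroup_dvd_card _).trans ((card_small_dvd hm hσ).trans
      (mul_dvd_mul_right (card_ker_dvd (by omega) hσ) _))
  by_cases hp3 : p = 3
  · subst hp3
    refine Or.inr ⟨?_, ?_⟩
    · rw [hk]
      refine Nat.pow_le_pow_right (by norm_num) ?_
      by_contra hlt
      exact absurd ((pow_dvd_pow 3 (show 4 ≤ k by omega)).trans hd) (by norm_num)
    · have : Group.IsPerfect (alternatingGroup (Fin (m + 1))) :=
        ⟨commutator_alternatingGroup_eq_top (by rw [Nat.card_fin]; omega)⟩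
      have := Schur.perfect_of_stem hσ
      obtain ⟨c, hc⟩ := exists_prime_orderOf_dvd_card' 3 h3
      have hc' : orderOf (c : H) = 3 := by rw [Subgroup.orderOf_coe, hc]
      have hz : (c : H) ∈ Subgroup.center H := hσ.2.1 c.2
      have hN : (Subgroup.zpowers (c : H)).Normal := ⟨fun n hn g => by
        have hn' : n ∈ Subgroup.center H := (Subgroup.zpowers_le.2 hz) hn
        rwa [Subgroup.mem_center_iff.1 hn' g, mul_inv_cancel_right]⟩
      have pc : IsPGroup 3 (Subgroup.zpowers (c : H)) := IsPGroup.of_card (n := 1) (by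
        rw [Nat.card_zpowers, hc', pow_one])
      refine sylow_not_comm_of_central P hz (pc.le_sylow_of_normal P (Subgroup.mem_zpowers _)) ?_
      intro h
      rw [h, orderOf_one] at hc'
      omega
  · refine Or.inl ?_
    rw [hk]
    refine Nat.pow_le_pow_right hp.pos ?_
    by_contra hlt
    have h1 : p ^ 3 ∣ 6 * 2520 := (pow_dvd_pow p (show 3 ≤ k by omega)).trans hd
    have h4 : p ∣ 2 ^ 4 * 3 ^ 3 * 5 * 7 := (dvd_pow_self p (by norm_num)).trans h1
    rcases (Nat.Prime.dvd_mul hp).1 h4 with h | h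
    · rcases (Nat.Prime.dvd_mul hp).1 h with h | h
      · rcases (Nat.Prime.dvd_mul hp).1 h with h | h
        · exact h2 ((Nat.prime_dvd_prime_iff_eq hp Nat.prime_two).1 (hp.dvd_of_dvd_pow h))
        · exact hp3 ((Nat.prime_dvd_prime_iff_eq hp Nat.prime_three).1 (hp.dvd_of_dvd_pow h))
      · rw [(Nat.prime_dvd_prime_iff_eq hp Nat.prime_five).1 h] at h1
        norm_num at h1
    · rw [(Nat.prime_dvd_prime_iff_eq hp (by norm_num)).1 h] at h1
      norm_num at h1

theorem all_small_three (hm : m = 5 ∨ m = 6) (hσ : IsStemExtension σ) (h3 : Nat.card σ.ker = 3)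
    (hM : IsPModular 2 M) : All 2 M H := by
  refine all_of_sylow hM fun P => Or.inr ⟨?_, fun hc => ?_⟩
  · obtain ⟨k, hk⟩ := IsPGroup.iff_card.1 P.isPGroup'
    have hd : 2 ^ k ∣ 3 * 2520 := by
      rw [← hk, ← h3]
      exact (Subgroup.card_subgroup_dvd_card _).trans (card_small_dvd hm hσ)
    rw [hk]
    refine Nat.pow_le_pow_right (by norm_num) ?_
    by_contra hlt
    exact absurd ((pow_dvd_pow 2 (show 4 ≤ k by omega)).trans hd) (by norm_num)
  · refine alt_sylow_not_comm hm (P.mapSurjective hσ.1) ?_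
    rw [Sylow.coe_mapSurjective]
    infer_instance

end CfsgLib.Spn
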