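import Mathlib
import Cfsg.Agent.Lib.Spn.Pair
import Cfsg.Agent.Lib.Spn.SpB

/-! Package ZC: the centre of a defect group of the double cover.  See `plans/SPN.md`. -/

set_option autoImplicit false
set_option linter.unusedSectionVars false

namespace CfsgLib.Spn

open Equiv Finset Cfsg CfsgLib.SymChar CfsgLib.Char CfsgLib.Fusion
open scoped Nat ComplexConjugate

variable {G : Type*} [Group G] [Finite G] {Ω : Type*} [Fintype Ω] [DecidableEq Ω] (S : Sp G Ω)
  {P : Subgroup (Perm Ω)} {T : Finset Ω}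

namespace Sp

variable {x : G} {a b c d : Ω}

theorem zc_conj (hx : x ∈ S.ev) (hab : a ≠ b) (hcd : c ≠ d) (h : x * (S.u a b * S.u c d) = S.u a b * S.u c d * x) :
    S.u (S.π x a) (S.π x b) * S.u (S.π x c) (S.π x d) = S.u a b * S.u c d := by
  rw [← S.conj_u_of_mem hx hab, ← S.conj_u_of_mem hx hcd,
    show x * S.u a b * x⁻¹ * (x * S.u c d * x⁻¹) = x * (S.u a b * S.u c d) * x⁻¹ by group, h,
    mul_inv_cancel_right]

theorem zc_ne (g : G) : S.z * g ≠ g := fun h => S.z_ne_one (mul_eq_right.1 h)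

theorem zc_mem (hab : a ≠ b) (hcd : c ≠ d) : S.u a b * S.u c d ∈ S.ev := by
  rw [mem_ev, map_mul, S.π_u, S.π_u, map_mul, Perm.sign_swap hab, Perm.sign_swap hcd]; simp

/-- an even element interchanging the two factors does not commute with the product -/
theorem zc_swap (hx : x ∈ S.ev) (hab : a ≠ b) (hcd : c ≠ d) (h1 : a ≠ c) (h2 : a ≠ d) (h3 : b ≠ c)
    (h4 : b ≠ d) (ea : S.π x a = c) (eb : S.π x b = d) (ec : S.π x c = a) (ed : S.π x d = b) :
    x * (S.u a b * S.u c d) ≠ S.u a b * S.u c d * x := fun h => by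
  have := S.zc_conj hx hab hcd h
  rw [ea, eb, ec, ed, S.u_anti hcd hab h1 h2 h3 h4] at this
  exact S.zc_ne _ this

theorem zc_swap' (hx : x ∈ S.ev) (hab : a ≠ b) (hcd : c ≠ d) (h1 : a ≠ c) (h2 : a ≠ d) (h3 : b ≠ c)
    (h4 : b ≠ d) (ea : S.π x a = d) (eb : S.π x b = c) (ec : S.π x c = b) (ed : S.π x d = a) :
    x * (S.u a b * S.u c d) ≠ S.u a b * S.u c d * x := fun h => by
  have := S.zc_conj hx hab hcd h
  rw [ea, eb, ec, ed, S.u_symm hcd, S.u_symm hab, mul_assoc, ← mul_assoc (S.u c d), S.z_comm,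
    mul_assoc, ← mul_assoc S.z, S.z_mul_z, one_mul, S.u_anti hcd hab h1 h2 h3 h4] at this
  exact S.zc_ne _ this

theorem zc_one (hx : x ∈ S.ev) (hab : a ≠ b) (hcd : c ≠ d)
    (ea : S.π x a = b) (eb : S.π x b = a) (ec : S.π x c = c) (ed : S.π x d = d) :
    x * (S.u a b * S.u c d) ≠ S.u a b * S.u c d * x := fun h => by
  have := S.zc_conj hx hab hcd h
  rw [ea, eb, ec, ed, S.u_symm hab, mul_assoc] at this
  exact S.zc_ne _ this

theorem zc_key {m : ℕ} (f : Fin (m + 2) × Fin 2 ↪ Ω) (hx : x ∈ S.ev)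
    (hf : ∀ ω, ω ∉ Set.range f → S.π x ω = ω)
    (h1 : ∀ i j, i ≠ j → x * (S.u (f (i, 0)) (f (i, 1)) * S.u (f (j, 0)) (f (j, 1))) =
      S.u (f (i, 0)) (f (i, 1)) * S.u (f (j, 0)) (f (j, 1)) * x)
    (h2 : x * (S.u (f (0, 0)) (f (1, 0)) * S.u (f (0, 1)) (f (1, 1))) =
      S.u (f (0, 0)) (f (1, 0)) * S.u (f (0, 1)) (f (1, 1)) * x) : S.π x = 1 := by
  have ne : ∀ {p q : Fin (m + 2) × Fin 2}, p ≠ q → f p ≠ f q := fun h => f.injective.ne h
  have K : S.π x (f (0, 0)) = f (0, 1) → S.π x (f (1, 0)) = f (1, 1) → S.π x (f (0, 1)) = f (0, 0) →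
      S.π x (f (1, 1)) = f (1, 0) → False := fun e1 e2 e3 e4 =>
    S.zc_swap hx (ne (by simp)) (ne (by simp)) (ne (by simp)) (ne (by simp)) (ne (by simp))
      (ne (by simp)) e1 e2 e3 e4 h2
  have c1 : ∀ i j, i ≠ j →
      Commute (S.π x) (swap (f (i, 0)) (f (i, 1)) * swap (f (j, 0)) (f (j, 1))) := fun i j h => by
    have := congrArg S.π (h1 i j h)
    simp only [map_mul, S.π_u] at this
    exact this
  have fin : (∀ i, S.π x (f (i, 0)) = f (i, 0) ∧ S.π x (f (i, 1)) = f (i, 1)) → S.π x = 1 := fun h => by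
    ext ω
    by_cases hω : ω ∈ Set.range f
    · obtain ⟨⟨i, j⟩, rfl⟩ := hω
      fin_cases j
      exacts [(h i).1, (h i).2]
    · exact hf ω hω
  rcases Nat.eq_zero_or_pos m with rfl | hm
  · have c2 : Commute (S.π x) (swap (f (0, 0)) (f (1, 0)) * swap (f (0, 1)) (f (1, 1))) := by
      have := congrArg S.π h2
      simp only [map_mul, S.π_u] at this
      exact this
    have c3 := c1 0 1 (by simp)
    have t : ∀ p, S.π x ((swap (f (0, 0)) (f (0, 1)) * swap (f (1, 0)) (f (1, 1))) p) =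
        (swap (f (0, 0)) (f (0, 1)) * swap (f (1, 0)) (f (1, 1))) (S.π x p) := fun p =>
      congrFun (congrArg DFunLike.coe c3.eq) p
    have g : ∀ p, S.π x ((swap (f (0, 0)) (f (1, 0)) * swap (f (0, 1)) (f (1, 1))) p) =
        (swap (f (0, 0)) (f (1, 0)) * swap (f (0, 1)) (f (1, 1))) (S.π x p) := fun p =>
      congrFun (congrArg DFunLike.coe c2.eq) p
    have e1 := t (f (0, 0))
    have e2 := g (f (0, 0))
    have e3 := t (f (1, 0))
    have hr : S.π x (f (0, 0)) ∈ Set.range f := by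
      by_contra hn
      exact hn ⟨(0, 0), ((S.π x).injective (hf _ hn)).symm⟩
    obtain ⟨⟨i, j⟩, e⟩ := hr
    fin_cases i <;> fin_cases j <;>
      simp only [Perm.mul_apply, swap_apply_def, ← e, f.apply_eq_iff_eq] at e1 e2 <;> simp at e1 e2 <;>
      simp only [Perm.mul_apply, swap_apply_def, e2, f.apply_eq_iff_eq] at e3 <;> simp at e3
    · refine fin fun i => ?_
      fin_cases i
      exacts [⟨e.symm, e1⟩, ⟨e2, e3⟩]
    · exact (K e.symm e2 e1 e3).elim
    · exact (S.zc_swap hx (ne (by simp)) (ne (by simp)) (ne (by simp)) (ne (by simp)) (ne (by simp))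
        (ne (by simp)) e.symm e1 e2 e3 (h1 0 1 (by simp))).elim
    · exact (S.zc_swap' hx (ne (by simp)) (ne (by simp)) (ne (by simp)) (ne (by simp)) (ne (by simp))
        (ne (by simp)) e.symm e1 e2 e3 (h1 0 1 (by simp))).elim
  · have hp := fixes_pairs hm c1
    have L : ∀ i j, S.π x (f (i, 0)) = f (i, 1) → S.π x (f (i, 1)) = f (i, 0) →
        S.π x (f (j, 0)) = f (j, 1) ∧ S.π x (f (j, 1)) = f (j, 0) := by
      intro i j e1 e2
      by_cases hij : i = j
      · subst hij; exact ⟨e1, e2⟩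
      refine (hp j).resolve_left fun e => ?_
      exact S.zc_one hx (ne (by simp)) (ne (by simp)) e1 e2 e.1 e.2 (h1 i j hij)
    refine fin fun i => (hp i).resolve_right fun e => ?_
    exact K (L i 0 e.1 e.2).1 (L i 1 e.1 e.2).1 (L i 0 e.1 e.2).2 (L i 1 e.1 e.2).2

end Sp

theorem Sp.zc (hP : SylIn 2 P (SymOn (T : Set Ω))) {w : ℕ} (hT : #T = 2 * w) (hw : 2 ≤ w) :
    ¬ IsMulCommutative ↥((P ⊓ alternatingGroup Ω).comap S.π) ∧
      Nat.card (Subgroup.center ↥((P ⊓ alternatingGroup Ω).comap S.π)) ≤ 2 := by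
  obtain ⟨m, rfl⟩ := Nat.exists_eq_add_of_le' hw
  obtain ⟨f, hT', h1, h2⟩ := exists_pairs hP hT
  have ne : ∀ {p q : Fin (m + 2) × Fin 2}, p ≠ q → f p ≠ f q := fun h => f.injective.ne h
  have m1 : ∀ i j, S.u (f (i, 0)) (f (i, 1)) * S.u (f (j, 0)) (f (j, 1)) ∈
      (P ⊓ alternatingGroup Ω).comap S.π := fun i j =>
    ⟨by rw [map_mul, S.π_u, S.π_u]; exact P.mul_mem (h1 i) (h1 j), S.zc_mem (ne (by simp)) (ne (by simp))⟩
  have m2 : S.u (f (0, 0)) (f (1, 0)) * S.u (f (0, 1)) (f (1, 1)) ∈ (P ⊓ alternatingGroup Ω).comap S.π :=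
    ⟨by rw [map_mul, S.π_u, S.π_u]; exact h2, S.zc_mem (ne (by simp)) (ne (by simp))⟩
  have key : ∀ x ∈ Subgroup.center ↥((P ⊓ alternatingGroup Ω).comap S.π), S.π (x : G) = 1 := by
    intro x hx
    have hc := Subgroup.mem_center_iff.1 hx
    exact S.zc_key f x.2.2 (fun ω hω => hP.le x.2.1 ω fun h => hω ((hT' ω).1 h))
      (fun i j _ => (congrArg Subtype.val (hc ⟨_, m1 i j⟩)).symm) (congrArg Subtype.val (hc ⟨_, m2⟩)).symm
  refine ⟨fun hc => ?_, ?_⟩
  · have := key ⟨_, m2⟩ (Subgroup.mem_center_iff.2 fun y => hc.is_comm.comm _ _)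
    have e := congrFun (congrArg DFunLike.coe this) (f (0, 0))
    simp [S.π_u, swap_apply_def] at e
  · rw [← S.card_ker]
    exact Nat.card_le_card_of_injective (fun x => (⟨x.1.1, key x.1 x.2⟩ : S.π.ker))
      fun x y h => Subtype.ext (Subtype.ext (Subtype.mk.inj h))

end CfsgLib.Spn
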