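import Mathlib
import Cfsg.Agent.Lib.Spn.Zc
import Cfsg.Agent.Lib.Spn.AltO
import Cfsg.Agent.Lib.Cover.Quot2

/-! Package SP2: the double cover, the prime two.  See `plans/SPN.md`. -/

set_option autoImplicit false
set_option linter.unusedSectionVars false

namespace CfsgLib.Spn

open Equiv Finset Cfsg CfsgLib.SymChar CfsgLib.Char CfsgLib.Fusion
open scoped Nat ComplexConjugate

variable {G : Type*} [Group G] [Finite G] {Ω : Type*} [Fintype Ω] [DecidableEq Ω] (S : Sp G Ω) {M : Ideal AlgInt}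

theorem sp2_center_card {A B : Type*} [Group A] [Group B] (e : A ≃* B) :
    Nat.card (Subgroup.center A) = Nat.card (Subgroup.center B) :=
  Nat.card_congr (Subgroup.centerCongr e).toEquiv

theorem sp2_comm {A B : Type*} [Group A] [Group B] (e : A ≃* B) (h : IsMulCommutative A) :
    IsMulCommutative B := by
  refine ⟨⟨fun a b => ?_⟩⟩
  obtain ⟨a, rfl⟩ := e.surjective a
  obtain ⟨b, rfl⟩ := e.surjective b
  rw [← map_mul, ← map_mul, h.is_comm.comm]

theorem Sp.sp2_map {D : Subgroup S.ev} (hk : S.πe.ker ≤ D) {P : Subgroup (Perm Ω)}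
    (h : (D.map S.πe).map (alternatingGroup Ω).subtype = P ⊓ alternatingGroup Ω) :
    D.map S.ev.subtype = (P ⊓ alternatingGroup Ω).comap S.π := by
  ext g
  constructor
  · rintro ⟨d, hd, rfl⟩
    rw [Subgroup.mem_comap, ← h]
    exact ⟨S.πe d, ⟨d, hd, rfl⟩, rfl⟩
  · intro hg
    rw [Subgroup.mem_comap] at hg
    have hge : g ∈ S.ev := (Subgroup.mem_inf.1 hg).2
    rw [← h] at hg
    obtain ⟨_, ⟨d, hd, rfl⟩, hx⟩ := hg
    have h1 : S.πe d = S.πe ⟨g, hge⟩ := Subtype.ext hx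
    have h2 : d⁻¹ * ⟨g, hge⟩ ∈ S.πe.ker := by
      rw [MonoidHom.mem_ker, map_mul, map_inv, h1, inv_mul_cancel]
    refine ⟨⟨g, hge⟩, ?_, rfl⟩
    have := D.mul_mem hd (hk h2)
    rwa [mul_inv_cancel_left] at this

theorem Sp.all_two [Nontrivial Ω] (hM : IsPModular 2 M) : All 2 M S.ev := by
  intro B hB D hD χ hχ
  haveI : Fact (Nat.Prime 2) := ⟨Nat.prime_two⟩
  have hk : IsPGroup 2 S.πe.ker := IsPGroup.of_card (n := 1) (by rw [S.card_ker_πe]; rfl)
  have hkD : S.πe.ker ≤ D := CfsgLib.Block.le_of_normal_of_isDefectGroup hM hB hD hk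
  obtain ⟨b, hb, -, hbD⟩ := CfsgLib.Cover.exists_isDefectGroup_map hM S.πe S.πe_surj hk hB hD
  obtain ⟨θ, hθ⟩ := CfsgLib.Block.IsPBlock_nonempty hM hb
  obtain ⟨P, T, w, h1, hP, hT, -⟩ := alt_setup hM hb hbD hθ
  have h2 := S.sp2_map hkD h1
  have e : D ≃* ↥((P ⊓ alternatingGroup Ω).comap S.π) :=
    (D.equivMapOfInjective S.ev.subtype S.ev.subtype_injective).trans (MulEquiv.subgroupCongr h2)
  by_cases hw : w ≤ 1
  · refine goal_of_sq hM hB hD hχ ?_
    have h3 := (card_inf_le hP hT).1 hw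
    rw [Nat.card_congr e.toEquiv, h3, MonoidHom.comap_bot, S.card_ker]
    norm_num
  · obtain ⟨hn, hc⟩ := S.zc hP hT (by omega)
    refine goal_of_center hM hB hD hχ (fun h => hn (sp2_comm e h)) ?_
    rw [sp2_center_card e]
    exact hc

end CfsgLib.Spn
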